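import Cfsg.Agent.Block.Frob
import Cfsg.Agent.BMod.Rank2

/-!
A Blichfeldt type bound for groups in which all non-identity elements of a Sylow `p`-subgroup have
the same centralizer (`blich`).
-/

set_option autoImplicit false

namespace Cfsg.Agent.Block

open Cfsg MonoidAlgebra Cfsg.Agent.BMod Cfsg.Agent.Char Cfsg.Agent.Transfer Cfsg.Agent.CharDeep
open Subgroup
open scoped ComplexConjugate

section Gen
variable {G : Type*} [Group G] [Fintype G] {χ : G → ℂ}

lemma isIrr_restrict_of_center {K Z : Subgroup G} (hZ : Z ≤ center G) (h : K.IsComplement' Z)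
    (hχ : IsIrrCharacter G χ) : IsIrrCharacter K fun k => χ k := by
  classical
  obtain ⟨lam, hl⟩ := hχ.exists_hom_of_le_center Z hZ
  have := (hχ.comp_of_surjective (K.subtype.noncommCoprod Z.subtype fun k z =>
    mem_center_iff.1 (hZ z.2) k) h.2).classInner_self
  rw [show (fun x : K × Z => χ _) = fun x => χ x.1 * lam x.2 from funext fun x => by
      rw [mul_comm, ← hl, ← mem_center_iff.1 (hZ x.2.2)]; rfl,
    classInner_prod (fun k : K => χ k) (fun k : K => χ k) (fun z => (lam z : ℂ)) fun z => (lam z : ℂ),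
    (isIrrCharacter_hom lam).classInner_self, mul_one] at this
  exact (hχ.isCharacter.restrict K).isIrrCharacter_of_classInner_self this

lemma inner_restrict_le {K : Subgroup G} [Fintype K] (hK : ∀ θ, IsIrrCharacter G θ →
    IsIrrCharacter K fun k => θ k) (hχ : IsCharacter G χ) {n n' : ℕ} (hn : classInner χ χ = n)
    (hn' : classInner (fun k : K => χ k) (fun k => χ k) = n') : n' ≤ n ^ 2 := by
  classical
  obtain ⟨m, -, e⟩ := hχ.exists_nat_coeff
  have h1 : ∑ φ, m φ ≤ n := by
    have := classInner_self_of_int_coeff fun φ => (m φ : ℤ)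
    simp only [Int.cast_natCast, ← e, hn] at this
    rw [show n = ∑ φ, m φ ^ 2 by exact_mod_cast this]
    exact Finset.sum_le_sum fun φ _ => Nat.le_self_pow two_ne_zero _
  rw [show (fun k : K => χ k) = ∑ φ : IrrCharacter G, (m φ : ℂ) • fun k : K => (φ : G → ℂ) k by
    rw [e]; ext; simp] at hn'
  simp only [classInner_sum_left, classInner_sum_right, classInner_smul_left, classInner_smul_right,
    (hK _ (Subtype.prop _)).classInner_eq_ite (hK _ (Subtype.prop _)), map_natCast] at hn'
  refine le_trans ?_ (Nat.pow_le_pow_left h1 2)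
  rw [show n' = ∑ ψ, m ψ * ∑ φ, m φ * if (fun k : K => (φ : G → ℂ) k) = fun k : K => (ψ : G → ℂ) k then 1
    else 0 by exact_mod_cast hn'.symm, sq, Finset.sum_mul]
  gcongr with ψ _ φ
  split_ifs <;> simp

lemma index_mul_sum_le (N : Subgroup G) (A : Finset G) (hA : ∀ g ∉ N, ∀ a ∈ A, g * a * g⁻¹ ∉ A)
    {f : G → ℝ} (hf : ∀ a g, f (g * a * g⁻¹) = f a) (h0 : ∀ g, 0 ≤ f g) :
    N.index * ∑ a ∈ A, f a ≤ ∑ g, f g := by
  classical
  have := Fintype.ofFinite (G ⧸ N)
  rw [index, Nat.card_eq_fintype_card, ← nsmul_eq_mul, ← Finset.card_univ, ← Finset.sum_const,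
    ← Finset.sum_product' (f := fun (_ : G ⧸ N) a => f a), Finset.sum_congr rfl fun x _ =>
      (hf x.2 x.1.out).symm, ← Finset.sum_image (f := f) (g := fun x : (G ⧸ N) × G => x.1.out * x.2 * x.1.out⁻¹)]
  · exact Finset.sum_le_univ_sum_of_nonneg h0
  rintro ⟨q, a⟩ ha ⟨q', a'⟩ ha' e
  simp only [Finset.coe_product, Set.mem_prod, Finset.mem_coe] at ha ha' e
  obtain rfl : q' = q := by
    rw [← q.out_eq', ← q'.out_eq', QuotientGroup.eq]
    by_contra h
    refine hA _ h a ha.2 (by_contra fun h' => h' ?_)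
    rw [show q'.out⁻¹ * q.out * a * (q'.out⁻¹ * q.out)⁻¹ = q'.out⁻¹ * (q.out * a * q.out⁻¹) * q'.out by group, e]
    simpa [mul_assoc] using ha'.2
  simpa using e

lemma exists_constituent (hχ : IsIrrCharacter G χ) (H : Subgroup G) [Fintype H] {n : ℕ} (h2 : n ≠ 1)
    (hn : classInner (fun h : H => χ h) (fun h => χ h) = n) : ∃ (ψ : IrrCharacter G) (σ : G → ℂ),
      ψ ≠ irrOne G ∧ IsCharacter G σ ∧ classInner (fun h : H => (ψ : G → ℂ) h) (fun _ => 1) ≠ 0 ∧
        ∀ g, χ g * conj (χ g) = 1 + (ψ : G → ℂ) g + σ g := by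
  have h1 := hχ.classInner_self
  rw [classInner_eq_classInner_one] at h1 hn
  obtain ⟨ρ, hρ, e⟩ := (hχ.isCharacter.mul hχ.isCharacter.conj).exists_add_of_classInner_ne_zero
    isIrrCharacter_one (ne_of_eq_of_ne h1 one_ne_zero)
  have e' : ∀ g, χ g * conj (χ g) = 1 + ρ g := congrFun e
  have h3 : ∀ {K : Type _} [Group K] [Fintype K] (f : K → ℂ), classInner (fun k => 1 + f k) (fun _ => 1) =
      1 + classInner f fun _ => 1 := fun f =>
    (classInner_add_left (fun _ => 1) f _).trans (by rw [isIrrCharacter_one.classInner_self])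
  simp only [e'] at h1 hn
  rw [h3] at h1 hn
  obtain ⟨ψ, hψ, h4, h5⟩ := hρ.isClassFunction.exists_common_constituent (ψ := indFun H fun _ => 1) (by
    rw [classInner_indFun_right _ _ hρ.isClassFunction]
    exact fun e => h2 (by rw [e, add_zero] at hn; exact_mod_cast hn.symm))
  obtain ⟨σ, hσ, rfl⟩ := hρ.exists_add_of_classInner_ne_zero hψ h4
  refine ⟨⟨ψ, hψ⟩, σ, fun e => h4 ?_, hσ, ?_, fun g => by rw [e', add_assoc]; rfl⟩
  · rw [show ψ = fun _ => 1 from congrArg Subtype.val e] at h1 ⊢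
    exact add_eq_left.1 h1
  · rwa [classInner_indFun_left _ _ hψ.isClassFunction, Ne, classInner_eq_zero_comm] at h5

lemma inner_restrict_one_ne_zero (hχ : IsCharacter G χ) {K : Type*} [Group K] [Fintype K] (f : K →* G)
    (h : classInner χ (fun _ => 1) ≠ 0) : classInner (fun k => χ (f k)) (fun _ => 1) ≠ 0 := by
  obtain ⟨σ, hσ, rfl⟩ := hχ.exists_add_of_classInner_ne_zero isIrrCharacter_one h
  obtain ⟨n, hn⟩ := (hσ.comp f).exists_nat_classInner isCharacter_one
  rw [show (fun k => ((fun _ => 1) + σ : G → ℂ) (f k)) = (fun _ => 1) + fun k => σ (f k) from rfl,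
    classInner_add_left, hn, isIrrCharacter_one.classInner_self, add_comm]
  exact Nat.cast_add_one_ne_zero n

lemma blockPart_add_compl (A : Set (IrrCharacter G)) (hχ : IsClassFunction G χ) (g : G) :
    blockPart A χ g + blockPart Aᶜ χ g = χ g := by
  classical
  rw [blockPart_apply_sum, blockPart_apply_sum, ← Finset.sum_add_distrib, hχ.apply_eq_sum_irr g]
  exact Finset.sum_congr rfl fun ψ _ => by by_cases h : ψ ∈ A <;> simp [h]

lemma re_blockPart_le (A : Set (IrrCharacter G)) (hχ : IsCharacter G χ) :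
    (blockPart A χ 1).re ≤ (χ 1).re := by
  rw [← blockPart_add_compl A hχ.isClassFunction, ← deg_cast (isCharacter_blockPart Aᶜ hχ)]; simp

lemma eq_zero_of_vanish {P : Subgroup G} (hχ : IsCharacter G χ) (h : ∀ x ∈ P, x ≠ 1 → χ x = 0)
    (h1 : (χ 1).re < Nat.card P) : χ = 0 := by
  have := card_dvd_deg_sub hχ (n := 0) (by simpa using h)
  rw [← deg_cast hχ] at h1
  refine hχ.eq_zero_of_apply_one ?_
  rw [sub_zero, Int.natCast_dvd_natCast] at this
  rw [← deg_cast hχ, Nat.eq_zero_of_dvd_of_lt this (by exact_mod_cast h1), Nat.cast_zero]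

end Gen

variable {p : ℕ} [hp : Fact p.Prime] {G : Type*} [Group G] [Fintype G] {P : Subgroup G}
  {M : Ideal AlgInt} [PMod p M]

lemma Frob.card_le_deg (h : Frob p P) {χ : G → ℂ} (hχ : IsCharacter G χ) (hk : ¬ P ≤ charKer χ) :
    Nat.card (autE P) ≤ charDegree χ := by
  classical
  obtain ⟨a, ha, e⟩ := exists_int_expansion h.comm (hχ.restrict P).isGeneralizedCharacter
  have h0 : ∀ lam, 0 ≤ a lam := fun lam => by
    obtain ⟨n, hn⟩ := (hχ.restrict P).exists_nat_classInner (isCharacter_hom lam)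
    rw [show a lam = n by exact_mod_cast (ha lam).symm.trans hn]; positivity
  obtain ⟨ψ, hψ, h1⟩ : ∃ ψ ≠ 1, a ψ ≠ 0 := by
    by_contra! h1
    have := fun u => (e u).trans (Finset.sum_eq_single 1 (fun ψ _ hψ => by simp [h1 ψ hψ]) (by simp))
    exact hk fun u hu => hχ.mem_charKer.2 ((this ⟨u, hu⟩).trans (this 1).symm)
  have h2 : (charDegree χ : ℤ) = ∑ lam, a lam := by
    have := e 1
    simp only [map_one, Units.val_one, mul_one, OneMemClass.coe_one, ← deg_cast hχ] at this
    exact_mod_cast this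
  zify
  rw [h2, ← card_dual_class h.comm h.hE hψ, Finset.card_eq_sum_ones]
  push_cast
  refine (Finset.sum_le_sum fun lam hl => ?_).trans
    (Finset.sum_le_sum_of_subset_of_nonneg (Finset.subset_univ _) fun lam _ _ => h0 lam)
  obtain ⟨_, ⟨n, rfl⟩, hn⟩ := (Finset.mem_filter.1 hl).2
  have := classInner_comp_mulEquiv (fun u : P => χ u) (fun u => ψ u) (P.normalizerMonoidHom n)
  rw [ha, show (fun x => χ (P.normalizerMonoidHom n x : P)) = fun u : P => χ u from
    funext fun u => hχ.isClassFunction u n] at this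
  simp only [hn, ha, Int.cast_inj] at this
  have := h0 ψ
  omega

open Classical in
lemma FB.le_ker {X Y : Finset (IrrCharacter G)} {a : IrrCharacter G → ℤ} {c δ : ℤ}
    {ζ : (P →* ℂˣ) → IrrCharacter G} (h : FB p M P X Y a c δ ζ) (h2 : 2 ≤ Nat.card (autE P))
    (hQ : Nat.card (autE P) ^ 2 + 1 < Nat.card P) {ψ : IrrCharacter G} (hψ : ψ ∈ principalBlock M G)
    (h1 : classInner (fun u : P => (ψ : G → ℂ) u) (fun _ => 1) ≠ 0)
    (hd : charDegree (ψ : G → ℂ) < Nat.card (autE P) ^ 2) : P ≤ charKer (ψ : G → ℂ) := by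
  have hP := fun {u} (hu : u ∈ P) => isPPart_self (orderOf_eq_pow_of_mem h.frob.pg hu)
  have h3 := h.card
  have h4 := h.sq
  have h5 := Finset.single_le_sum (f := fun χ => a χ ^ 2) (fun _ _ => sq_nonneg _) h.one
  have h0 := ψ.2.charDegree_pos
  generalize ht : Nat.card (autE P) = t at h2 hQ hd h3 h4
  have hr : t < Y.card := by nlinarith
  zify at h2 hQ hd h3 hr h0
  simp only [h.a_one] at h5
  rcases (h.blk ψ).1 hψ with hX | hY
  · have h6 := Finset.single_le_sum (f := fun χ => a χ ^ 2) (fun _ _ => sq_nonneg _) hX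
    have h7 : a ψ ^ 2 ≤ t ^ 2 := by nlinarith [sq_nonneg (c - δ), sq_nonneg c]
    have := abs_le.1 (sq_le_sq.1 h7 |>.trans_eq (abs_of_nonneg (by omega)))
    have h8 := fun x hx hx1 => (h.valX ψ hX).2 x x (hP hx) hx hx1
    have h9 := Int.eq_zero_of_abs_lt_dvd (card_dvd_deg_sub ψ.2.isCharacter h8) (abs_lt.2 ⟨by nlinarith, by nlinarith⟩)
    intro x hx
    by_cases h1 : x = 1
    · exact h1 ▸ one_mem _
    rw [ψ.2.isCharacter.mem_charKer, h8 x hx h1, ← deg_cast_irr, ← sub_eq_zero.1 h9, Int.cast_natCast]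
  obtain ⟨μ, hμ, rfl⟩ := (h.memY ψ).1 hY
  have key : ∀ lam : P →* ℂˣ, ∃ b : ℕ, classInner (fun u : P => (ζ μ : G → ℂ) u) (fun u => lam u) = b ∧
      (Nat.card P : ℤ) * (b - (if 1 = lam then c else 0) - if dualSetoid (autE P) μ lam then δ else 0) =
        charDegree (ζ μ : G → ℂ) - c - δ * t := fun lam => by
    obtain ⟨b, hb⟩ := ((ζ μ).2.isCharacter.restrict P).exists_nat_classInner (isCharacter_hom lam)
    refine ⟨b, hb, ?_⟩
    have h6 : ∑ u : P, ((ζ μ : G → ℂ) u - (c * ((1 : P →* ℂˣ) u : ℂ) + δ * ∑ ψ' with dualSetoid (autE P) μ ψ',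
        (ψ' u : ℂ))) * conj (lam u : ℂ) = charDegree (ζ μ : G → ℂ) - c - δ * t := by
      rw [Finset.sum_eq_single 1 (fun u _ hu => by simp [h.valY μ hμ u u (hP u.2) hu]) (by simp),
        ← ht, ← card_dual_class h.frob.comm h.frob.hE hμ,
        Finset.filter_congr fun _ _ => (dualSetoid _).comm]
      simp [deg_cast_irr, sub_sub]
    simp only [sub_mul, add_mul, Finset.sum_sub_distrib, Finset.sum_add_distrib, mul_assoc,
      ← Finset.mul_sum, Finset.sum_mul] at h6
    rw [Finset.sum_comm, ← card_mul_classInner, hb] at h6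
    simp only [sum_hom_mul_conj, Finset.sum_ite_eq', Finset.mem_filter, Finset.mem_univ, true_and] at h6
    refine Int.cast_injective (α := ℂ) ?_
    split_ifs at h6 ⊢ <;> push_cast <;> linear_combination h6
  obtain ⟨η, hη, hne⟩ := Finset.exists_mem_ne (one_lt_two.trans_le h.two) (ζ μ)
  obtain ⟨ν, hν, rfl⟩ := (h.memY η).1 hη
  obtain ⟨m, -, e0⟩ := key ν
  obtain ⟨b, hb, e1⟩ := key 1
  obtain ⟨b', -, e2⟩ := key μ
  rw [if_neg hν.symm, if_neg fun e => hne ((h.eq_iff μ hμ ν hν).2 e).symm] at e0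
  rw [if_pos rfl, if_neg fun e => hμ (dual_one e)] at e1
  rw [if_neg hμ.symm, if_pos (Setoid.refl' _ _)] at e2
  have hb0 : b ≠ 0 := fun e => h1 (by simpa [e] using hb)
  have hQ0 : (Nat.card P : ℤ) ≠ 0 := by omega
  have e3 := mul_left_cancel₀ hQ0 (e0.trans e1.symm)
  have e4 := mul_left_cancel₀ hQ0 (e0.trans e2.symm)
  obtain rfl : m = 0 := by
    by_contra hm
    have : (1 : ℤ) ≤ m := by omega
    have : (1 : ℤ) ≤ b := by omega
    have : -1 ≤ δ := by rcases h.sign with e | e <;> omega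
    nlinarith
  obtain rfl : δ = 1 := by rcases h.sign with e | e <;> omega
  have : 1 ≤ c := by omega
  have h6 : 1 ≤ c ^ 2 := by nlinarith
  have := h.of_sq_eq_one (by nlinarith [sq_nonneg (c - 1)])
  nlinarith

theorem blich (P : Sylow p G) (hP : p ∣ Nat.card G) (hs : ∀ x ∈ (P : Subgroup G), x ≠ 1 →
    centralizer ({x} : Set G) = centralizer ((P : Subgroup G) : Set G)) {χ : IrrCharacter G}
    (h1 : χ ≠ irrOne G) (hd : charDegree (χ : G → ℂ) ^ 2 + 1 < Nat.card P)
    (hn : ∀ K : Subgroup G, K.Normal → (P : Subgroup G) ≤ K → K = ⊤) :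
    HasNormalPComplement p G ∧ charDegree (χ : G → ℂ) = 1 := by
  classical
  obtain ⟨M, hM⟩ := exists_pMod p
  have hker : ∀ ψ ≠ irrOne G, ¬ (P : Subgroup G) ≤ charKer (ψ : G → ℂ) := fun ψ h e => h (Subtype.ext
    (ψ.2.charKer_eq_top_iff.1 (hn _ ψ.2.isCharacter.isClassFunction.normal_charKer e)))
  set H := centralizer ((P : Subgroup G) : Set G) with hH
  have hle : (P : Subgroup G) ≤ H := fun x hx => by
    by_cases h : x = 1
    exacts [h ▸ one_mem _, hs x hx h ▸ self_mem_centralizer x]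
  have hF : Frob p (P : Subgroup G) := ⟨⟨P, rfl⟩, fun a b => Subtype.ext (hle b.2 a a.2),
    fun y hy h _ _ h' => (hs y hy h).le h'⟩
  have hZ : (P.subtype hle : Subgroup H) ≤ center H := fun z hz =>
    mem_center_iff.2 fun g => Subtype.ext (g.2 z hz).symm
  have hC := hasNormalPComplement_of_le_center _ hZ
  have hK := isComplement'_pResidual hC (P.subtype hle)
  rw [hasNormalPComplement_iff_pResidual_eq_pPrimeCore.1 hC] at hK
  have hQ : Nat.card (P.subtype hle : Subgroup H) = Nat.card P :=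
    Nat.card_congr (subgroupOfEquivOfLe hle).toEquiv
  have hχ := χ.2.isCharacter
  have ht := hF.card_le_deg hχ (hker χ h1)
  obtain ⟨n, hn1⟩ := (hχ.restrict H).exists_nat_classInner (hχ.restrict H)
  obtain ⟨n', hn2⟩ := ((hχ.restrict H).restrict (pPrimeCore p H)).exists_nat_classInner
    ((hχ.restrict H).restrict _)
  have h2 := inner_restrict_le (fun θ => isIrr_restrict_of_center hZ hK) (hχ.restrict H) hn1 hn2
  have hp1 : ∀ {g : G}, g ∈ H → ∀ {y}, IsPPart p g y → y ∈ (P : Subgroup G) := fun hg y hy => by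
    obtain ⟨k, hk⟩ := IsPPart.orderOf_eq hy
    exact Invol.mem_sylow_of_mem_normalizer (hk ▸ pow_orderOf_eq_one y) P
      (centralizer_le_normalizer _ (IsPPart.mem hy hg))
  have h3 : n ≤ Nat.card (autE (P : Subgroup G)) := by
    have h3 := index_mul_sum_le (normalizer ((P : Subgroup G) : Set G))
      (Finset.univ.filter fun g => g ∈ H ∧ p ∣ orderOf g) (fun g hg a ha hb => hg ?_)
      (f := fun g => ‖(χ : G → ℂ) g‖ ^ 2) (fun a g => by rw [hχ.isClassFunction]) fun _ => sq_nonneg _
    · rw [χ.2.sum_norm_sq, ← index_mul_card (normalizer ((P : Subgroup G) : Set G)), Nat.cast_mul,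
        mul_le_mul_iff_right₀ (Nat.cast_pos.2 (Nat.pos_of_ne_zero index_ne_zero_of_finite)),
        ← Solv.card_mul_relIndex (centralizer_le_normalizer _), ← card_autE, ← hH] at h3
      have h4 := classInner_self_re fun h : H => (χ : G → ℂ) h
      rw [hn1, eq_inv_mul_iff_mul_eq₀ (Nat.cast_ne_zero.2 Nat.card_pos.ne'),
        ← Finset.sum_filter_add_sum_filter_not _ fun h : H => p ∣ orderOf (h : G)] at h4
      have h5 : ∑ h ∈ Finset.univ.filter fun h : H => ¬ p ∣ orderOf (h : G), ‖(χ : G → ℂ) h‖ ^ 2 ≤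
          Nat.card (pPrimeCore p H) * charDegree (χ : G → ℂ) ^ 2 := by
        refine (Finset.sum_le_card_nsmul _ _ (charDegree (χ : G → ℂ) ^ 2 : ℝ) fun h _ => ?_).trans ?_
        · have := hχ.norm_apply_le h
          rw [← deg_cast_irr, Complex.norm_natCast] at this
          gcongr
        rw [nsmul_eq_mul, Nat.card_eq_fintype_card, Fintype.card_subtype]
        exact mul_le_mul_of_nonneg_right (Nat.cast_le.2 (Finset.card_le_card (Finset.monotone_filter_right _
          fun h _ h' => mem_pPrimeCore_of_complement hC (by rwa [← orderOf_coe])))) (sq_nonneg _)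
      rw [← Finset.filter_filter, Finset.sum_filter, Finset.sum_subtype (p := (· ∈ H)) (F := inferInstance) _ (by simp),
        ← Finset.sum_filter] at h3
      have h6 := hK.card_mul_card
      rw [hQ] at h6
      have h7 : (0 : ℝ) < Nat.card (pPrimeCore p H) := Nat.cast_pos.2 Nat.card_pos
      have h8 : (charDegree (χ : G → ℂ) ^ 2 + 1 : ℝ) < Nat.card P := by exact_mod_cast hd
      rw [← Nat.lt_add_one_iff, ← Nat.cast_lt (α := ℝ), ← mul_lt_mul_iff_right₀ (Nat.cast_pos.2 (Nat.card_pos (α := H)))]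
      rw [← h6] at h3 h4 ⊢
      push_cast at h3 h4 ⊢
      simp only [Complex.natCast_re] at h4
      nlinarith
    · simp only [Finset.mem_filter, Finset.mem_univ, true_and] at ha hb
      obtain ⟨y, hy⟩ := exists_isPPart p a
      have h4 : y ≠ 1 := fun e => (IsPPart.eq_one_iff hy).1 e ha.2
      refine mem_normalizer_fintype fun x hx => hp1 ((hs _ (hp1 hb.1 (IsPPart.conj hy g)) (by simpa using h4)).le ?_)
        (IsPPart.conj (isPPart_self (orderOf_eq_pow_of_mem P.2 hx)) g)
      rw [mem_centralizer_singleton_iff, conj_mul, conj_mul,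
        mem_centralizer_singleton_iff.1 (hF.le (hp1 ha.1 hy) hx)]
  by_cases h : n = 1
  · have h4 := (hχ.restrict H).isIrrCharacter_of_classInner_self (by rw [hn1, h, Nat.cast_one])
    have h5 := χ.2.charDegree_sq_le_index ⊤ (hn _ hχ.isClassFunction.normal_charCenter fun x hx =>
      hχ.mem_charCenter.2 (h4.isCharacter.mem_charCenter.1
        (h4.center_le_charCenter (hZ (x := ⟨x, hle hx⟩) hx)))).ge
    have h6 := χ.2.charDegree_pos
    rw [index_top] at h5
    refine ⟨hasNormalPComplement_of_normalizer_le_centralizer P (relIndex_eq_one.1 ?_), by nlinarith⟩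
    exact (card_autE _).symm.trans (le_antisymm (by nlinarith) Nat.card_pos)
  obtain ⟨ψ, σ, h4, hσ, h5, e⟩ := exists_constituent χ.2 H h hn1
  have hψ := ψ.2.isCharacter.restrict H
  have h6 : ((ψ : G → ℂ) 1).re < Nat.card (P.subtype hle : Subgroup H) := by
    have := e 1
    rw [← deg_cast_irr, ← deg_cast_irr, ← deg_cast hσ, map_natCast] at this
    rw [hQ, ← deg_cast_irr, Complex.natCast_re, Nat.cast_lt]
    norm_cast at this; nlinarith
  have h8 := fun (y : H) (hy : y ∈ (P.subtype hle : Subgroup H)) (hy1 : y ≠ 1) => blockPart_section ψ.2.isClassFunction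
    (IsPBlock.isBlockUnion (isPBlock_principalBlock (M := M)))
    (fun _ => inducedBlockDefined_of_le P.2 hle le_rfl (centralizer_le_normalizer _))
    (isPPart_self (orderOf_eq_pow_of_mem P.2 (x := y) hy)) (hs y hy fun e => hy1 (Subtype.ext e)).le
  rw [corr_principal fun _ => inducedBlockDefined_of_le P.2 hle le_rfl (centralizer_le_normalizer _)] at h8
  have hB : ψ ∈ principalBlock M G := by_contra fun hB => h5 (by
    have := classInner_blockPart (principalBlock M H) (fun h : H => (ψ : G → ℂ) h) (irrOne H)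
    rw [if_pos irrOne_mem_principalBlock, eq_zero_of_vanish (isCharacter_blockPart _ hψ) (fun y hy hy1 => by
      rw [← h8 y hy hy1, blockPart_irr_of_notMem hB]; rfl) ((re_blockPart_le _ hψ).trans_lt h6), classInner_zero_left] at this
    exact this.symm)
  have h7 := blockPart_add_compl (principalBlock M H) hψ.isClassFunction
  rw [eq_zero_of_vanish (isCharacter_blockPart (principalBlock M H)ᶜ hψ) (fun y hy hy1 => by
    rw [← add_eq_left, h7, ← h8 y hy hy1, blockPart_irr_of_mem hB]) ((re_blockPart_le _ hψ).trans_lt h6)] at h7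
  have h9 : ∀ k : pPrimeCore p H, (ψ : G → ℂ) (k : H) = charDegree (ψ : G → ℂ) := fun k => by
    rw [deg_cast_irr, ← h7, ← OneMemClass.coe_one H, ← h7, blockPart_apply_eq_of_forall _ fun ξ hξ =>
      apply_eq_of_mem_principal (Solv.not_dvd_card_pPrimeCore p _) hξ _ k.2]; rfl
  obtain ⟨m, hm⟩ := ((hσ.restrict H).restrict (pPrimeCore p H)).exists_nat_classInner isCharacter_one
  rw [classInner_eq_classInner_one, show (fun k : pPrimeCore p H => _) = (1 + charDegree (ψ : G → ℂ)) •
    (fun _ => (1 : ℂ)) + fun k : pPrimeCore p H => σ (k : H) from funext fun k => by simp [e, h9],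
    classInner_add_left, classInner_nsmul_left, isIrrCharacter_one.classInner_self, hm] at hn2
  norm_cast at hn2
  have h10 : n ≠ 0 := fun e => χ.2.apply_one_ne_zero
    (congrFun ((classInner_self_eq_zero _).1 (hn1.trans (by simp [e]))) 1)
  have h11 := Nat.pow_le_pow_left ht 2
  have h12 := Nat.pow_le_pow_left h3 2
  obtain ⟨X, Y, a, c, δ, ζ, hb⟩ := hF.exists_fb (M := M) (by nlinarith)
  exact absurd (hb.le_ker (by omega) (by omega) hB (inner_restrict_one_ne_zero hψ (inclusion hle) h5)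
    (by omega)) (hker ψ h4)

end Cfsg.Agent.Block
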