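import Cfsg.Agent.CharDeep.Clifford
import Cfsg.Agent.Char.Burnside
import Cfsg.Agent.Frob.Zipper
import Mathlib.GroupTheory.SchurZassenhaus

/-! Gagola characters: irreducible characters vanishing on all but two classes. (helper12) -/

set_option autoImplicit false
open scoped ComplexConjugate

namespace Cfsg.Agent.Block
open Cfsg Cfsg.Agent.Char Cfsg.Agent.CharDeep Subgroup

variable {G : Type*} [Group G] [Finite G]

structure Gag (χ : IrrCharacter G) (N : Subgroup G) : Prop where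
  big : 2 < Nat.card G
  ne : N ≠ ⊥
  supp : ∀ g, g ∈ N ↔ χ.1 g ≠ 0
  cj : ∀ x ∈ N, ∀ y ∈ N, x ≠ 1 → y ≠ 1 → IsConj x y
  ker : ∀ ψ : IrrCharacter G, ψ ≠ χ → ∀ n ∈ N, ψ.1 n = ψ.1 1
  faith : ∀ g, χ.1 g = χ.1 1 → g = 1

theorem exists_gag (hG : 2 < Nat.card G) (χ : IrrCharacter G)
    (hχ : Nat.card {C : ConjClasses G // ∃ g ∈ C.carrier, (χ : G → ℂ) g ≠ 0} = 2) :
    ∃ N, Gag χ N := by
  classical
  letI := Fintype.ofFinite G
  have h0 := χ.2.apply_one_ne_zero
  obtain ⟨⟨C, x, hxC, hx⟩, h1, h2⟩ := (Nat.card_eq_two_iff'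
    (⟨ConjClasses.mk 1, 1, ConjClasses.mem_carrier_mk, h0⟩ :
      {C : ConjClasses G // ∃ g ∈ C.carrier, (χ : G → ℂ) g ≠ 0})).1 hχ
  obtain rfl := ConjClasses.mem_carrier_iff_mk_eq.1 hxC
  have hx1 : x ≠ 1 := by rintro rfl; exact h1 rfl
  have h3 : ∀ g, χ.1 g ≠ 0 → g ≠ 1 → IsConj x g := fun g hg hg1 =>
    (ConjClasses.mk_eq_mk_iff_isConj.1 (congrArg Subtype.val (h2 ⟨_, g, ConjClasses.mem_carrier_mk, hg⟩
      fun h => hg1 (isConj_one_right.1 (ConjClasses.mk_eq_mk_iff_isConj.1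
        (congrArg Subtype.val h)).symm)))).symm
  set K : ℕ := (centralizer ({x} : Set G)).index
  have hK : (K : ℂ) ≠ 0 := Nat.cast_ne_zero.2 index_ne_zero_of_finite
  have h4 : ∀ ψ : G → ℂ, IsClassFunction G ψ →
      ∑ g, χ.1 g * conj (ψ g) = χ.1 1 * conj (ψ 1) + K * (χ.1 x * conj (ψ x)) := fun ψ hψ => by
    rw [← sum_filter_isConj (θ := fun g => χ.1 g * conj (ψ g)) (χ.2.isClassFunction.mul
      (hψ.comp_left conj)) x, ← Finset.sum_insert (f := fun g => χ.1 g * conj (ψ g))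
      (by simpa using hx1)]
    refine (Finset.sum_subset (Finset.subset_univ _) fun g _ hg => ?_).symm
    by_contra h
    exact hg (by simpa [or_iff_not_imp_left] using h3 g (left_ne_zero_of_mul h))
  have h5 : ∀ ψ : IrrCharacter G, ψ ≠ χ → χ.1 1 * conj (ψ.1 1) + K * (χ.1 x * conj (ψ.1 x)) = 0 :=
    fun ψ hψ => by
      have h := χ.2.classInner_eq_zero_of_ne ψ.2 fun h => hψ (Subtype.ext h.symm)
      rw [← h4 _ ψ.2.isClassFunction]
      exact (mul_eq_zero.1 h).resolve_left (inv_ne_zero (card_ne_zero' G))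
  have h6 : irrOne G ≠ χ := by
    rintro rfl
    have h7 : ∀ g : G, g ≠ 1 → IsConj x g := fun g => h3 g (by simp)
    have h8 := card_centralizer_mul_card_isConj x
    have h9 : Nat.card {y // IsConj x y} + 1 = Nat.card G := by
      rw [Nat.card_congr (Equiv.subtypeEquivRight (q := (· ≠ 1)) fun y =>
        ⟨fun h h' => hx1 (isConj_one_right.1 (h' ▸ h).symm), h7 y⟩), Nat.card_eq_fintype_card,
        Nat.card_eq_fintype_card, Fintype.card_subtype_compl, Fintype.card_subtype_eq]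
      exact Nat.sub_add_cancel Fintype.card_pos
    have h10 : Nat.card {y // IsConj x y} ∣ 1 :=
      (Nat.dvd_add_right dvd_rfl).1 (h9 ▸ h8 ▸ dvd_mul_left _ _)
    have := Nat.le_of_dvd one_pos h10
    omega
  have h7 := h5 _ h6
  simp only [irrOne_apply, map_one, mul_one] at h7
  have h8 : ∀ ψ : IrrCharacter G, ψ ≠ χ → ψ.1 x = ψ.1 1 := fun ψ hψ => by
    refine (starRingEnd ℂ).injective (mul_left_cancel₀ h0 ?_)
    linear_combination conj (ψ.1 x) * h7 - h5 ψ hψ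
  have h9 : χ.1 x ≠ χ.1 1 := fun h => by
    rw [h, ← one_add_mul] at h7
    exact mul_ne_zero (by exact_mod_cast (by omega : 1 + K ≠ 0)) h0 h7
  have h10 : ∀ g, χ.1 g ≠ 0 → ∀ ψ : IrrCharacter G, ψ ≠ χ → ψ.1 g = ψ.1 1 := fun g hg ψ hψ => by
    by_cases hg1 : g = 1
    · rw [hg1]
    · rw [← ψ.2.isClassFunction.apply_eq_of_isConj (h3 g hg hg1), h8 ψ hψ]
  let N : Subgroup G := ⨅ ψ : {ψ : IrrCharacter G // ψ ≠ χ}, charKer ψ.1.1
  have hN : ∀ g, g ∈ N ↔ ∀ ψ : IrrCharacter G, ψ ≠ χ → ψ.1 g = ψ.1 1 := fun g => by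
    simp only [N, mem_iInf, Subtype.forall (p := (· ≠ χ))]
    exact forall₂_congr fun ψ _ => ψ.2.isCharacter.mem_charKer
  have h11 : ∀ g, g ∈ N ↔ χ.1 g ≠ 0 := fun g => by
    refine ⟨fun hg h => ?_, fun hg => (hN g).2 (h10 g hg)⟩
    have h12 := sum_irr_degree_mul (g := g) (by rintro rfl; exact h0 h)
    rw [← Finset.add_sum_erase _ _ (Finset.mem_univ χ), h, mul_zero, zero_add, Finset.sum_congr rfl
      fun ψ hψ => by rw [(hN g).1 hg ψ (Finset.ne_of_mem_erase hψ), ψ.2.apply_one_eq_charDegree,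
        ← Nat.cast_mul], ← Nat.cast_sum, Nat.cast_eq_zero, Finset.sum_eq_zero_iff] at h12
    exact (irrOne G).2.charDegree_pos.ne' (mul_self_eq_zero.1 (h12 _ (by simpa using h6)))
  refine ⟨N, hG, fun h => hx1 (mem_bot.1 (h ▸ (h11 x).2 hx)), h11, fun a ha b hb ha1 hb1 =>
    (h3 a ((h11 a).1 ha) ha1).symm.trans (h3 b ((h11 b).1 hb) hb1),
    fun ψ hψ n hn => (hN n).1 hn ψ hψ, fun g hg => by_contra fun h => h9 ?_⟩
  rw [χ.2.isClassFunction.apply_eq_of_isConj (h3 g (hg ▸ h0) h), hg]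

namespace Gag
variable {χ : IrrCharacter G} {N : Subgroup G} (h : Gag χ N)
include h

theorem eq_of_supp {N' : Subgroup G} (hN : ∀ g, g ∈ N' ↔ χ.1 g ≠ 0) : N' = N :=
  ext fun g => (hN g).trans (h.supp g).symm

theorem normal : N.Normal :=
  ⟨fun n hn g => by rw [h.supp, χ.2.isClassFunction]; exact (h.supp n).1 hn⟩

theorem le_of_normal (K : Subgroup G) [K.Normal] (hK : K ≠ ⊥) : N ≤ K := fun n hn => by
  by_contra hnK
  obtain ⟨ψ, hψ, h1, h2⟩ := exists_irr_apply_ne_of_not_mem K hnK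
  refine h2 (h.ker ⟨ψ, hψ⟩ (fun h3 => hK ((eq_bot_iff_forall _).2 fun k hk => h.faith k ?_)) n hn)
  rw [← h3]; exact h1 k hk

theorem exists_prime : ∃ p : ℕ, p.Prime ∧ ∀ n ∈ N, n ^ p = 1 := by
  obtain ⟨p, hp, hpN⟩ := Nat.exists_prime_and_dvd (fun h1 => h.ne (card_eq_one.1 h1))
  haveI := Fact.mk hp
  obtain ⟨x, hx⟩ := exists_prime_orderOf_dvd_card' p hpN
  refine ⟨p, hp, fun n hn => ?_⟩
  by_cases hn1 : n = 1
  · rw [hn1, one_pow]
  obtain ⟨c, rfl⟩ := isConj_iff.1 (h.cj x x.2 n hn (fun h1 => hp.one_lt.ne' (by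
    rw [← hx, ← orderOf_coe, h1, orderOf_one])) hn1)
  rw [conj_pow, ← coe_pow, ← hx, pow_orderOf_eq_one]; simp

theorem comm {a b : G} (ha : a ∈ N) (hb : b ∈ N) : a * b = b * a := by
  obtain ⟨p, hp, hN⟩ := h.exists_prime
  haveI := Fact.mk hp
  haveI := h.normal
  haveI := (nontrivial_iff_ne_bot N).2 h.ne
  have h1 : IsPGroup p N := fun n => ⟨1, Subtype.ext (by simpa using hN n n.2)⟩
  obtain ⟨c, hc, rfl⟩ := h.le_of_normal ((center N).map N.subtype) (fun h2 =>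
    (nontrivial_iff_ne_bot _).1 h1.center_nontrivial (by
      rwa [map_eq_bot_iff_of_injective _ (subtype_injective N)] at h2)) hb
  exact congrArg Subtype.val (mem_center_iff.1 hc ⟨a, ha⟩)

theorem pow_eq {p : ℕ} [Fact p.Prime] (hp : IsPGroup p N) {n : G} (hn : n ∈ N) : n ^ p = 1 := by
  obtain ⟨q, hq, hN⟩ := h.exists_prime
  by_cases hn1 : n = 1
  · rw [hn1, one_pow]
  haveI := Fact.mk hq
  obtain ⟨k, hk⟩ := IsPGroup.iff_orderOf.1 hp ⟨n, hn⟩
  rw [← orderOf_coe, orderOf_eq_prime (hN n hn) hn1] at hk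
  rw [← (Nat.prime_dvd_prime_iff_eq hq Fact.out).1 (hq.dvd_of_dvd_pow hk.dvd), hN n hn]

theorem isConj_mul {g n : G} (hg : g ∉ N) (hn : n ∈ N) : IsConj g (g * n) := by
  refine (isConj_iff_forall_irr _ _).2 fun ψ => ?_
  by_cases hψ : ψ = χ
  · rw [hψ, not_not.1 (mt (h.supp g).2 hg), not_not.1 (mt (h.supp _).2
      fun h1 => hg ((mul_mem_cancel_right hn).1 h1))]
  · exact (ψ.2.isCharacter.apply_mul_of_apply_eq' (h.ker ψ hψ n hn) g).symm

theorem card_centralizer_quot [N.Normal] {x : G} (hx : x ∉ N) :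
    Nat.card (centralizer ({x} : Set G)) = Nat.card (centralizer ({(x : G ⧸ N)} : Set (G ⧸ N))) := by
  classical
  have h1 := sum_irr_filter_ker N fun ψ => ‖ψ x‖ ^ 2
  rw [sum_irr_norm_sq, Finset.sum_subset (Finset.subset_univ _), sum_irr_norm_sq] at h1
  · exact_mod_cast h1
  intro ψ _ hψ
  by_cases h2 : ψ = χ
  · rw [h2, not_not.1 (mt (h.supp x).2 hx)]; simp
  · exact absurd (by simpa using h.ker ψ h2) hψ

theorem index_centralizer {x : G} (hx : x ∈ N) (hx1 : x ≠ 1) :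
    (centralizer ({x} : Set G)).index + 1 = Nat.card N := by
  classical
  letI := Fintype.ofFinite N
  have h1 : Nat.card {y // IsConj x y} = Nat.card {y : N // ¬ y = 1} :=
    Nat.card_congr ⟨fun y => ⟨⟨y, by
        obtain ⟨c, hc⟩ := isConj_iff.1 y.2; exact hc ▸ h.normal.conj_mem x hx c⟩, fun h' =>
        hx1 (isConj_one_right.1 ((show (y : G) = 1 from congrArg Subtype.val h') ▸ y.2).symm)⟩,
      fun y => ⟨y.1, h.cj x hx _ y.1.2 hx1 fun h' => y.2 (Subtype.ext h')⟩, fun _ => rfl, fun _ => rfl⟩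
  rw [← card_isConj_eq_index, h1, Nat.card_eq_fintype_card, Nat.card_eq_fintype_card,
    Fintype.card_subtype_compl, Fintype.card_subtype_eq]
  exact Nat.sub_add_cancel Fintype.card_pos

variable {p : ℕ} [Fact p.Prime] (hp : IsPGroup p N)
include hp

theorem dvd_card : p ∣ Nat.card N :=
  (hp.card_eq_or_dvd).resolve_left fun h1 => h.ne (card_eq_one.1 h1)

theorem isPGroup_centralizer {x : G} (hx : x ∈ N) (hx1 : x ≠ 1) :
    IsPGroup p (centralizer ({x} : Set G)) := by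
  refine IsPGroup.of_card (n := (Nat.card (centralizer ({x} : Set G))).primeFactorsList.length)
    (Nat.eq_prime_pow_of_unique_prime_dvd Nat.card_pos.ne' fun {q} hq hqd => ?_)
  haveI := Fact.mk hq
  obtain ⟨⟨g, hg⟩, hgq⟩ := exists_prime_orderOf_dvd_card' q hqd
  rw [← orderOf_coe] at hgq
  change orderOf g = q at hgq
  have hg1 : g ≠ 1 := fun h1 => hq.one_lt.ne' (by rw [← hgq, h1, orderOf_one])
  have h1 : ∀ y ∈ N, y ≠ 1 → y ^ q = 1 → q = p := fun y hy hy1 hyq =>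
    (orderOf_eq_prime hyq hy1).symm.trans (orderOf_eq_prime (h.pow_eq hp hy) hy1)
  have h2 : g ^ q = 1 := hgq ▸ pow_orderOf_eq_one g
  by_cases hgN : g ∈ N
  · exact h1 g hgN hg1 h2
  obtain ⟨c, hc⟩ := isConj_iff.1 (h.isConj_mul hgN hx)
  refine h1 x hx hx1 ?_
  have h3 : (g * x) ^ q = 1 := by rw [← hc, conj_pow, h2]; simp
  rwa [(show Commute g x from (hg x rfl).symm).mul_pow, h2, one_mul] at h3

theorem exists_sylow_of_index {T : Subgroup G} (hT : T.index + 1 = Nat.card N) :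
    ∃ P : Sylow p G, T = P := by
  obtain ⟨x, hx, hx1⟩ := (bot_or_exists_ne_one N).resolve_left h.ne
  have h1 : Nat.card T = Nat.card (centralizer ({x} : Set G)) := by
    refine Nat.eq_of_mul_eq_mul_right (Nat.pos_of_ne_zero (index_ne_zero_of_finite (H := T))) ?_
    rw [card_mul_index, Nat.add_right_cancel (hT.trans (h.index_centralizer hx hx1).symm),
      card_mul_index]
  obtain ⟨k, hk⟩ := IsPGroup.iff_card.1 (h.isPGroup_centralizer hp hx hx1)
  exact ⟨(IsPGroup.of_card (h1.trans hk)).toSylow fun h2 => (Fact.out : p.Prime).one_lt.ne'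
    (Nat.dvd_one.1 ((Nat.dvd_add_right h2).1 (hT ▸ h.dvd_card hp))), rfl⟩

theorem eq_of_commutator (P : Sylow p G) {z : G} (hz : z ∈ (P : Subgroup G)) (hzN : z ∉ N)
    {W : Subgroup G} (hW : W ≤ N) (hc : ∀ y ∈ (P : Subgroup G), y * z * y⁻¹ * z⁻¹ ∈ W) : W = N := by
  haveI := h.normal
  set C : Subgroup P := centralizer {⟨z, hz⟩}
  have h1 : C.index ≤ Nat.card W := by
    rw [← card_isConj_eq_index]
    refine Nat.card_le_card_of_injective (fun y => (⟨(y.1 : G) * z⁻¹, by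
      obtain ⟨c, hc'⟩ := isConj_iff.1 y.2; rw [← hc']; exact hc c c.2⟩ : W)) fun a b hab => ?_
    exact Subtype.ext (Subtype.ext (mul_right_cancel (congrArg Subtype.val hab)))
  have h2 : Nat.card C ∣ N.index := by
    rw [← card_map_of_injective (subtype_injective _)]
    refine (card_dvd_of_le (K := centralizer {z}) ?_).trans
      (h.card_centralizer_quot hzN ▸ card_subgroup_dvd_card _)
    rintro _ ⟨y, hy, rfl⟩ _ rfl
    exact congrArg Subtype.val (hy _ rfl)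
  obtain ⟨a, ha⟩ := IsPGroup.iff_card.1 (P.2.to_subgroup C)
  obtain ⟨b, hb⟩ := IsPGroup.iff_card.1 hp
  have h3 : Nat.card C * Nat.card N ≤ Nat.card P := by
    have h4 := mul_dvd_mul_right h2 (Nat.card N)
    rw [index_mul_card, ha, hb, ← pow_add] at h4
    rw [ha, hb, ← pow_add, P.card_eq_multiplicity]
    exact Nat.pow_le_pow_right (Fact.out : p.Prime).pos
      (((Fact.out : p.Prime).pow_dvd_iff_le_factorization Nat.card_pos.ne').1 h4)
  rw [← card_mul_index C] at h3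
  exact eq_of_le_of_card_ge hW ((Nat.le_of_mul_le_mul_left h3 Nat.card_pos).trans h1)

theorem centralizer_eq (hO : N = pCore p G) : centralizer (N : Set G) = N := by
  haveI := h.normal
  obtain ⟨x, hx, hx1⟩ := (bot_or_exists_ne_one N).resolve_left h.ne
  refine le_antisymm (hO.ge.trans' (Solv.le_pCore ((h.isPGroup_centralizer hp hx hx1).to_le
    (centralizer_le (Set.singleton_subset_iff.2 hx))))) fun a ha b hb => h.comm hb ha

theorem center_le (P : Sylow p G) : (center P).map (P : Subgroup G).subtype ≤ N := by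
  rintro _ ⟨z, hz, rfl⟩
  by_contra hzN
  exact h.ne (h.eq_of_commutator hp P z.2 hzN bot_le fun y hy => by
    rw [mem_bot, mul_inv_eq_one, mul_inv_eq_iff_eq_mul]
    exact congrArg Subtype.val (mem_center_iff.1 hz ⟨y, hy⟩)).symm

omit hp in
theorem inverts {t n : G} (ht : t ^ 2 = 1) (htN : t ∉ N) (hn : n ∈ N) : t * n = n⁻¹ * t := by
  obtain ⟨c, hc⟩ := isConj_iff.1 (h.isConj_mul htN hn)
  have h1 : (t * n) ^ 2 = 1 := by rw [← hc, conj_pow, ht]; simp
  rw [sq] at ht h1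
  rw [eq_inv_of_mul_eq_one_left h1, mul_inv_rev, ← eq_inv_of_mul_eq_one_left ht]

theorem not_dvd_index (hO : N = pCore p G) : ¬ p ∣ N.index := by
  haveI := h.normal
  have hC := h.centralizer_eq hp hO
  have hpp : p.Prime := Fact.out
  intro hd
  obtain ⟨u, hu⟩ := exists_prime_orderOf_dvd_card' (G := G ⧸ N) p hd
  obtain ⟨u, rfl⟩ := QuotientGroup.mk_surjective u
  have hu1 : u ∉ N := fun h1 => hpp.one_lt.ne' (by
    rw [← hu, (QuotientGroup.eq_one_iff u).2 h1, orderOf_one])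
  have hu2 : u ^ p ∈ N := by
    rw [← QuotientGroup.eq_one_iff, QuotientGroup.mk_pow, ← hu, pow_orderOf_eq_one]
  rcases hpp.eq_two_or_odd' with rfl | hodd
  · have hinv : ∀ n ∈ N, n⁻¹ = n := fun n hn => inv_eq_of_mul_eq_one_left (sq n ▸ h.pow_eq hp hn)
    have key : ∀ s ∉ N, s ^ 2 ∈ N → ∃ A : Subgroup N, Nat.card N < Nat.card A * Nat.card A ∧
        ∀ a ∈ A, a.1 * s = s * a := fun s hs hs2 => by
      let φ : N →* N := MonoidHom.mk' (fun n => n * MulAut.conjNormal s n) fun a b => by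
        rw [map_mul, mul_assoc, mul_assoc, ← mul_assoc b, ← mul_assoc (MulAut.conjNormal s a),
          show b * MulAut.conjNormal s a = MulAut.conjNormal s a * b from
            Subtype.ext (h.comm b.2 (MulAut.conjNormal s a).2)]
      have hφ : ∀ n, n ∈ φ.ker ↔ n.1 * s = s * n := fun n => by
        rw [MonoidHom.mem_ker, Subtype.ext_iff]
        change n.1 * (s * n * s⁻¹) = 1 ↔ _
        rw [mul_eq_one_iff_inv_eq, hinv n n.2, eq_mul_inv_iff_mul_eq]
      refine ⟨φ.ker, ?_, fun a ha => (hφ a).1 ha⟩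
      rw [← card_mul_index φ.ker, index_ker]
      refine Nat.mul_lt_mul_of_pos_left (Solv.card_lt_of_lt (lt_of_le_of_ne ?_ fun h1 => ?_))
        Nat.card_pos
      · rintro _ ⟨n, rfl⟩
        rw [hφ]
        change n.1 * (s * n * s⁻¹) * s = s * (n.1 * (s * n * s⁻¹))
        have h1 := h.comm hs2 n.2
        have h2 := h.comm n.2 (h.normal.conj_mem n n.2 s)
        rw [h2, ← mul_assoc s, ← mul_assoc s, ← mul_assoc s, ← sq, h1, ← h2, sq]; group
      obtain ⟨n, hn⟩ : (⟨s ^ 2, hs2⟩ : N) ∈ φ.range := h1 ▸ (hφ _).2 (by rw [← pow_succ, pow_succ'])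
      replace hn : n.1 * (s * n * s⁻¹) = s ^ 2 := congrArg Subtype.val hn
      have h2 : n.1 * s ∉ N := fun h2 => hs ((mul_mem_cancel_left n.2).1 h2)
      refine h2 (hC.le fun m hm => ?_)
      rw [h.inverts (by
        rw [← h.pow_eq hp hs2, sq (s ^ 2)]; nth_rw 1 [← hn]; rw [sq, sq]; group) h2 hm,
        hinv m hm]
    refine hu1 (hO.ge (Frob.mem_pCore_of_forall_conj fun g => ?_))
    obtain ⟨A, h1, h2⟩ := key u hu1 hu2
    obtain ⟨B, h3, h4⟩ := key (g * u * g⁻¹) (fun h3 => hu1 (by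
      simpa [mul_assoc] using h.normal.conj_mem _ h3 g⁻¹)) (by
      rw [conj_pow]; exact h.normal.conj_mem _ hu2 g)
    obtain ⟨y, hy, hy1⟩ := (bot_or_exists_ne_one (A ⊓ B)).resolve_left fun h5 => by
      have h6 := Nat.card_le_card_of_injective _ (mul_injective_of_disjoint (disjoint_iff.2 h5))
      rw [Nat.card_prod] at h6
      nlinarith [sq_nonneg ((Nat.card A : ℤ) - Nat.card B), Nat.mul_lt_mul'' h1 h3,
        Nat.mul_le_mul h6 h6]
    refine (h.isPGroup_centralizer hp y.2 fun h5 => hy1 (Subtype.ext h5)).to_le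
      ((closure_le _).2 ?_)
    rintro _ (rfl | rfl) _ rfl
    exacts [h2 y hy.1, h4 y hy.2]
  obtain ⟨x, hx, hx1⟩ := (bot_or_exists_ne_one N).resolve_left h.ne
  obtain ⟨b, hb⟩ := IsPGroup.iff_card.1 hp
  have h1 : 2 ∣ Nat.card G := by
    refine dvd_trans ?_ (index_dvd_card (centralizer {x}))
    have h2 := h.index_centralizer hx hx1
    have h3 := Nat.odd_iff.1 (hb ▸ hodd.pow : Odd (Nat.card N))
    omega
  obtain ⟨t, ht⟩ := exists_prime_orderOf_dvd_card' 2 h1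
  have ht2 : t ^ 2 = 1 := ht ▸ pow_orderOf_eq_one t
  obtain ⟨r, hr⟩ := hodd
  have h2 : ∀ n ∈ N, (n ^ (r + 1)) ^ 2 = n := fun n hn => by
    rw [← pow_mul, show (r + 1) * 2 = p + 1 by omega, pow_succ, h.pow_eq hp hn, one_mul]
  have h3 : ∀ n ∈ N, n ^ 2 = 1 → n = 1 := fun n hn h3 => by
    rw [← h2 n hn, ← pow_mul, mul_comm, pow_mul, h3, one_pow]
  have htN : t ∉ N := fun h4 => by rw [h3 t h4 ht2, orderOf_one] at ht; omega
  have h4 : ∀ k : G, ∃ n ∈ N, n * k * t = t * (n * k) := fun k => by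
    have h5 : t * (k * t * k⁻¹) ∈ N := hC.le fun m hm => by
      rw [mul_assoc t, h.inverts (t := k * t * k⁻¹) (by rw [conj_pow, ht2]; simp) (fun h5 => htN (by
        simpa [mul_assoc] using h.normal.conj_mem _ h5 k⁻¹)) hm, ← mul_assoc t m⁻¹,
        h.inverts ht2 htN (inv_mem hm), inv_inv, mul_assoc m]
    have h6 := h2 _ h5
    have h7 := pow_mem h5 (r + 1)
    generalize (t * (k * t * k⁻¹)) ^ (r + 1) = m at h6 h7
    refine ⟨m, h7, ?_⟩
    have h8 : m * (t * m) = t := by rw [h.inverts ht2 htN h7, mul_inv_cancel_left]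
    calc m * k * t = m * (t * (t * (k * t * k⁻¹))) * k := by rw [← mul_assoc t t, ← sq, ht2]; group
      _ = t * (m * k) := by rw [← h6, sq, ← mul_assoc t, ← mul_assoc m, h8, mul_assoc]
  obtain ⟨m, hm, hv⟩ := h4 u
  have hv1 : m * u ∉ N := fun h5 => hu1 ((mul_mem_cancel_left hm).1 h5)
  have hv2 : IsPGroup p (zpowers (m * u)) := by
    have h5 : (m * u) ^ p ∈ N := by
      rw [← QuotientGroup.eq_one_iff, QuotientGroup.mk_pow, QuotientGroup.mk_mul,
        (QuotientGroup.eq_one_iff m).2 hm, one_mul, ← hu, pow_orderOf_eq_one]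
    obtain ⟨k, -, hk⟩ := (Nat.dvd_prime_pow hpp).1 (orderOf_dvd_of_pow_eq_one
      (show (m * u) ^ p ^ 2 = 1 by rw [sq, pow_mul, h.pow_eq hp h5]))
    exact .of_card ((Nat.card_zpowers _).trans hk)
  generalize m * u = v at hv hv1 hv2
  obtain ⟨P, hP⟩ := hv2.exists_le_sylow
  haveI : Nontrivial P := (nontrivial_iff_ne_bot _).2 fun h5 =>
    hv1 (mem_bot.1 (h5 ▸ hP (mem_zpowers v)) ▸ one_mem N)
  obtain ⟨z, hz, hz1⟩ := (bot_or_exists_ne_one (center P)).resolve_left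
    ((nontrivial_iff_ne_bot _).1 P.2.center_nontrivial)
  have h5 : Function.Surjective fun n : N => (⟨v⁻¹ * n * v * n⁻¹, mul_mem (by
      simpa using h.normal.conj_mem n n.2 v⁻¹) (inv_mem n.2)⟩ : N) := fun y => by
    obtain ⟨k, hk⟩ := isConj_iff.1 (h.isConj_mul hv1 y.2)
    obtain ⟨n, hn, hc⟩ := h4 k
    have h6 : v⁻¹ * (n * k * v * (n * k)⁻¹) ∈ N := by
      rw [show v⁻¹ * (n * k * v * (n * k)⁻¹) = v⁻¹ * n * (k * v * k⁻¹) * n⁻¹ by group, hk,
        ← mul_assoc]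
      exact mul_mem (mul_mem (by simpa using h.normal.conj_mem n hn v⁻¹) y.2) (inv_mem hn)
    have h7 := h.inverts ht2 htN h6
    rw [((show Commute t v from hv.symm).inv_right.mul_right ((((show Commute t (n * k) from
      hc.symm).mul_right hv.symm)).mul_right (show Commute t (n * k) from hc.symm).inv_right)).eq,
      mul_left_inj, eq_inv_iff_mul_eq_one, ← sq] at h7
    have h8 := inv_mul_eq_one.1 (h3 _ h6 h7)
    refine ⟨⟨n⁻¹, inv_mem hn⟩, Subtype.ext ?_⟩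
    change v⁻¹ * n⁻¹ * v * n⁻¹⁻¹ = y
    rw [mul_assoc v⁻¹, mul_assoc v⁻¹, inv_mul_eq_iff_eq_mul, ← hk]
    nth_rw 1 [h8]
    group
  refine hz1 (Subtype.ext (congrArg (fun n : N => (n : G)) (Finite.injective_iff_surjective.2 h5
    (a₁ := ⟨z, h.center_le hp P ⟨z, hz, rfl⟩⟩) (a₂ := 1) (Subtype.ext ?_))))
  have h6 : v * z = z * v := congrArg Subtype.val (mem_center_iff.1 hz ⟨v, hP (mem_zpowers v)⟩)
  change v⁻¹ * z * v * (z : G)⁻¹ = v⁻¹ * 1 * v * 1⁻¹
  rw [mul_assoc v⁻¹, ← h6]; group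

end Gag

end Cfsg.Agent.Block
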