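import Cfsg.Agent.Block.Over

/-! Linear characters times an extension, induced from the inertia group. (helper12) -/

set_option autoImplicit false
open scoped ComplexConjugate

namespace Cfsg.Agent.Block
open Cfsg Cfsg.Agent.Char Cfsg.Agent.CharDeep Subgroup

variable {G : Type*} [Group G]

theorem card_hom_trivial_le [Finite G] (I : Subgroup G) :
    Nat.card {l : G →* ℂˣ // ∀ x ∈ I, l x = 1} ≤ I.index := by
  classical
  haveI := Fintype.ofFinite (G ⧸ I)
  let f : {l : G →* ℂˣ // ∀ x ∈ I, l x = 1} → (G ⧸ I → ℂ) := fun l q => l.1 q.out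
  have h1 : LinearIndependent ℂ f := by
    have h2 := (linearIndependent_monoidHom G ℂ).comp
      (fun l : {l : G →* ℂˣ // ∀ x ∈ I, l x = 1} => (Units.coeHom ℂ).comp l.1)
      (fun a b h => Subtype.ext (MonoidHom.ext fun x => Units.ext (DFunLike.congr_fun h x)))
    refine LinearIndependent.of_comp (LinearMap.funLeft ℂ ℂ (QuotientGroup.mk : G → G ⧸ I)) ?_
    suffices e : (⇑(LinearMap.funLeft ℂ ℂ (QuotientGroup.mk : G → G ⧸ I)) ∘ f) = _ from e ▸ h2
    ext l g
    obtain ⟨x, hx⟩ := QuotientGroup.mk_out_eq_mul I g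
    simp [f, LinearMap.funLeft, hx, l.2 x x.2]
  haveI := Fintype.ofFinite {l : G →* ℂˣ // ∀ x ∈ I, l x = 1}
  simpa [Nat.card_eq_fintype_card, index] using h1.fintype_card_le_finrank

theorem card_le_index_mul [Finite G] (I : Subgroup G) (S : Subgroup (G →* ℂˣ)) {X : Type*}
    [Finite X] (f : S → X) (hf : ∀ a b, f a = f b → ∀ x ∈ I, a.1 x = b.1 x) :
    Nat.card S ≤ I.index * Nat.card X := by
  let r : S →* (I →* ℂˣ) := (MonoidHom.domRestrictHom I ℂˣ).comp S.subtype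
  have h1 : Nat.card r.ker ≤ I.index := by
    refine le_trans (Nat.card_le_card_of_injective
      (fun l : r.ker => (⟨l.1.1, fun x hx => DFunLike.congr_fun l.2 ⟨x, hx⟩⟩ :
        {l : G →* ℂˣ // ∀ x ∈ I, l x = 1})) fun a b h => ?_) (card_hom_trivial_le I)
    exact Subtype.ext (Subtype.ext (Subtype.mk.inj h))
  have h2 : r.ker.index ≤ Nat.card X :=
    Nat.card_le_card_of_injective (fun q : S ⧸ r.ker => f q.out) fun a b h => by
      rw [← a.out_eq, ← b.out_eq]
      refine QuotientGroup.eq.mpr ?_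
      rw [MonoidHom.mem_ker, map_mul, map_inv, inv_mul_eq_one]
      exact MonoidHom.ext fun x => hf _ _ h x x.2
  rw [← r.ker.card_mul_index]
  exact Nat.mul_le_mul h1 h2

theorem hom_eq_one_of_min (N : Subgroup G) [hN : N.Normal]
    (hmin : ∀ M : Subgroup G, M.Normal → M ≤ N → M = ⊥ ∨ M = N) (hna : ¬ IsMulCommutative N)
    (l : G →* ℂˣ) {n : G} (hn : n ∈ N) : l n = 1 := by
  rcases hmin (N ⊓ l.ker) inferInstance inf_le_left with h | h
  · refine absurd ⟨⟨fun a b => Subtype.ext ?_⟩⟩ hna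
    have : (a : G) * b * (a : G)⁻¹ * (b : G)⁻¹ ∈ N ⊓ l.ker :=
      ⟨mul_mem (mul_mem (mul_mem a.2 b.2) (N.inv_mem a.2)) (N.inv_mem b.2), by simp [mul_right_comm]⟩
    rw [h, mem_bot, mul_inv_eq_one, mul_inv_eq_iff_eq_mul] at this
    exact this
  · exact (h.ge hn).2

theorem ind_hom_mul [Fintype G] (N : Subgroup G) [hN : N.Normal] {φ : N → ℂ}
    (hφ : IsIrrCharacter N φ) {T : Subgroup G} (hT : T = inertia N φ) (hNT : N ≤ T) {ψ : T → ℂ}
    (hψ : IsCharacter T ψ) (he : ∀ n : N, ψ ⟨n, hNT n.2⟩ = φ n) :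
    (∀ l : G →* ℂˣ, (∀ n ∈ N, l n = 1) → IsIrrCharacter T (fun x => l x * ψ x) ∧
      IsIrrCharacter G (indFun T fun x => l x * ψ x)) ∧
    ∀ l l' : G →* ℂˣ, (∀ n ∈ N, l n = 1) → (∀ n ∈ N, l' n = 1) →
      (indFun T fun x => l x * ψ x) = (indFun T fun x => l' x * ψ x) → ∀ x ∈ T, l x = l' x := by
  haveI := Fintype.ofFinite N
  have h1 : IsIrrCharacter (N.subgroupOf T) (fun n : N.subgroupOf T => ψ n) := by
    have : (fun n : N.subgroupOf T => ψ n) = subOf N T φ := funext fun n =>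
      he ⟨(n : T), mem_subgroupOf.mp n.2⟩
    exact this ▸ isIrr_subOf hNT hφ
  have h2 : ∀ l : G →* ℂˣ, IsIrrCharacter T (fun x => l x * ψ x) := fun l => by
    simpa [mul_comm] using (isIrr_of_isIrr_res _ hψ h1).mul_hom (l.comp T.subtype)
  have h3 : ∀ l : G →* ℂˣ, (∀ n ∈ N, l n = 1) →
      classInner (fun n : N => (fun x : T => l x * ψ x) ⟨n, hNT n.2⟩) φ ≠ 0 := fun l hl => by
    have : (fun n : N => (fun x : T => l x * ψ x) ⟨n, hNT n.2⟩) = φ := funext fun n => by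
      simp [hl n n.2, he]
    rw [this, hφ.classInner_self]; exact one_ne_zero
  refine ⟨fun l hl => ⟨h2 l, (isIrr_indFun_of_inertia N hφ hT hNT (h2 l) (h3 l hl)).1⟩,
    fun l l' hl hl' h x hx => ?_⟩
  have h4 := indFun_inj_of_inertia N hφ hT hNT (h2 l) (h2 l') (h3 l hl) (h3 l' hl') h
  have := gallagher_inj' (N.subgroupOf T) hψ h1 (isIrrCharacter_hom (l.comp T.subtype))
    (fun n hn => by simp [hl n hn]) (isIrrCharacter_hom (l'.comp T.subtype))
    (fun n hn => by simp [hl' n hn]) h4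
  exact Units.ext (congrFun this ⟨x, hx⟩)

end Cfsg.Agent.Block
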