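import Cfsg.Agent.Block.TameTr

/-!
Tame blocks: the induction and the number of Brauer characters.
-/

set_option autoImplicit false
set_option linter.unusedSectionVars false

namespace Cfsg.Agent.Tame

open MonoidAlgebra Transfer Block BMod Cfsg.Agent.Char CharDeep Module
open scoped ComplexConjugate Classical

variable {M : Ideal AlgInt} [PMod 2 M]

section
variable {G : Type*} [Group G] [Fintype G]
variable {B : Set (IrrCharacter G)} {D : Subgroup G} {e : (F M)[G]} {x v z y w g : G} {m n : ℕ}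
  {θ : G → ℂ} {ε : IrrCharacter G → ℤ} {a : Fin 4 → IrrCharacter G}
  {J K : Finset (IrrCharacter G)} {κ : IrrCharacter G → Fin 4}

local notation "𝐂" Q:max => Subgroup.centralizer ((Q : Subgroup G) : Set G)
local notation "𝐙" => Subgroup.zpowers

theorem Sh.dih (h : Sh B z m ε a J K κ) (hD : MC D x v z m) (hB : IsPBlock M B)
    (hm : IsMax 2 (eB M B) D e) (hd : ∀ y ∈ D, y ∉ 𝐙 x → y * y = 1) : K = ∅ := by
  have := Nil.rank_one hB (nil_of_isDef hm.isDef fun R hR g _ hN ho => cent_of_odd hD.pgroup hD.idx hR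
    ho hN fun a ha ha' => by_contra fun h1 => by
      have h2 := hd _ (hR ((Subgroup.mem_normalizer_iff.1 hN a).1 ha)) h1
      rcases hD.sq_cases ha' (by simpa [conj_mul] using h2) with rfl | rfl
      exacts [h1 (by simp), h1 (by rwa [h.ci.cj_eq])])
  simpa [this] using h.rank

theorem MC.off (hD : MC D x v z m) (hz : CI z) (hy : y ∉ 𝐙 x) (h : y * y = 1) {k : G}
    (hg : IsPPart 2 g (k * y * k⁻¹)) : Off z g := hz.off_iff.2 fun e => hy (hz.conj_eq.1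
  (invol_unique_zpowers hg.mem_zpowers e ((orderOf_conj' k y).trans
    (Invol.orderOf_two_iff.2 ⟨h, by rintro rfl; exact hy (one_mem _)⟩)) hD.ord_z) ▸ hD.z_mem)

theorem PP.pu_ne (h : PP B w n ε a J K) (hB : IsPBlock M B) (hm : IsMax 2 (eB M B) D e) (hy : y ∈ D) :
    pu 2 D e y (a 0) ≠ 0 :=
  mt (mu_self_eq_zero_iff hm.pair hy (irrC _)).2 (mu_ne_zero_of_height hB hm hy (h.ha 0).1 (h.ha 0).2)

theorem Sh.card_le_one (h : Sh B z m ε a J K κ) (hD : MC D x v z m) (hB : IsPBlock M B)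
    (hm : IsMax 2 (eB M B) D e) (hy : y ∈ D) (hy' : y ∉ 𝐙 x) (h1 : y * y = 1) : K.card ≤ 1 := by
  refine Finset.card_le_one.2 fun ξ hξ ξ' hξ' => h.κinj hξ hξ' (by_contra fun h2 =>
    h.pu_ne hB hm hy (pu_eq_zero hm.pair hy fun g hg => ?_))
  have h3 := hD.off h.ci hy' h1 (k := 1) (g := g) (by simpa using hg)
  have h4 {χ} (hχ : χ ∈ B) (h5 : Od z χ) : sg ε χ g = 0 := by
    rw [sg_apply, h.sing χ hχ h5 g h3 (not_not.1 (mt (IsPPart.eq_one_iff hg).2 (by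
      rintro rfl; exact hy' (one_mem _)))), mul_zero]
  obtain ⟨χ, hχ⟩ := Finset.card_pos.1 (h.cardJ ▸ Nat.two_pow_pos m)
  rw [Finset.mem_filter] at hχ
  have e1 := (h.relJ χ hχ.1 g h3).symm.trans (h4 (h.hJ χ hχ.1).1 hχ.2)
  have e2 := (h.relK' ξ hξ g h3).symm.trans (h4 (h.hK ξ hξ).1 (h.odd ξ hξ))
  have e3 := (h.relK' ξ' hξ' g h3).symm.trans (h4 (h.hK ξ' hξ').1 (h.odd ξ' hξ'))
  have e4 := h.rel g h3
  refine (mul_eq_zero.1 (show sg ε (a 0) g = 0 from ?_)).resolve_left (h.sgn.ne _)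
  rcases h.hκ ξ hξ with e | e <;> rcases h.hκ ξ' hξ' with e' | e' <;> rw [e] at e2 <;> rw [e'] at e3
  exacts [absurd (e.trans e'.symm) h2, by linear_combination (e1 + e2 + e3 - e4) / 2,
    by linear_combination (e1 + e2 + e3 - e4) / 2, absurd (e.trans e'.symm) h2]

theorem PP.card_zero (h : PP B w n ε a J K) (hn : n ≠ 0) :
    Nat.card {χ : IrrCharacter G // χ ∈ B ∧ blockHeight 2 B χ.1 = 0} = 4 := by
  refine (Nat.card_congr (Equiv.ofBijective (fun i => ⟨a i, h.ha i⟩) ⟨fun i j e =>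
    h.inj (congrArg (·.1) e), fun ⟨χ, h1, h2⟩ => ?_⟩)).symm.trans (Nat.card_fin 4)
  rcases h.cover χ h1 with ⟨i, rfl⟩ | e | e
  exacts [⟨i, rfl⟩, by simpa [h2] using (h.hJ χ e).2, absurd ((h.hK χ e).2.symm.trans h2) hn]

theorem PP.card_one (h : PP B w n ε a J K) (hn : n ≠ 1) :
    Nat.card {χ : IrrCharacter G // χ ∈ B ∧ blockHeight 2 B χ.1 = 1} = 2 ^ n - 1 := by
  rw [← h.card, Nat.add_sub_cancel, ← Nat.card_eq_finsetCard]
  refine Nat.card_congr (Equiv.subtypeEquivRight fun χ => ⟨fun ⟨h1, h2⟩ => ?_, h.hJ χ⟩)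
  rcases h.cover χ h1 with ⟨i, rfl⟩ | e | e
  exacts [by simpa [h2] using (h.ha i).2, e, absurd ((h.hK χ e).2.symm.trans h2) hn]

theorem PP.height (h : PP B w n ε a J K) (χ : IrrCharacter G) (hχ : χ ∈ B) :
    blockHeight 2 B χ.1 = 0 ∨ blockHeight 2 B χ.1 = 1 ∨ (blockHeight 2 B χ.1 = n ∧ χ ∈ K) := by
  rcases h.cover χ hχ with ⟨i, rfl⟩ | e | e
  exacts [.inl (h.ha i).2, .inr (.inl (h.hJ χ e).2), .inr (.inr ⟨(h.hK χ e).2, e⟩)]

theorem PP.rank_le (h : PP B w n ε a J K) (hB : IsPBlock M B) (hw : 2 ∣ orderOf w) :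
    blockRank 2 B ≤ 3 ∧ ∀ θ ∈ Vs 2 B, θ ≠ 0 → (∀ g, θ g ≠ 0 → Off w g) → blockRank 2 B ≤ 2 := by
  let r : (G → ℂ) →ₗ[ℂ] G → ℂ := LinearMap.mulLeft ℂ fun g => if Off w g then 1 else 0
  have h1 {θ} (hθ : ∀ g, θ g ≠ 0 → Off w g) : r θ = θ := funext fun g => by
    by_cases e : Off w g <;> simp [r, e, not_not.1 (mt (hθ g) _)]
  let U := Submodule.span ℂ (Set.range fun i : Fin 3 => r (sg ε (a i.castSucc)))
  have h2 : finrank ℂ U ≤ 3 := (finrank_range_le_card _).trans (by simp)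
  have h3 (c : Fin 4 → ℂ) {θ} (hθ : ∀ g, Off w g → θ g = ∑ i, c i * sg ε (a i) g) : r θ ∈ U := by
    refine (Submodule.mem_span_range_iff_exists_fun ℂ).2 ⟨![c 0 + c 3, c 1 + c 3, c 2 - c 3], ?_⟩
    ext g
    by_cases e : Off w g <;> simp [r, e, Fin.sum_univ_three, hθ, Fin.sum_univ_four]
    linear_combination c 3 * h.rel g e
  have h4 {θ} (hθ : blockPart B θ = θ) : r θ ∈ U := by
    rw [h.expand hθ]
    simp only [map_add, map_sum, map_smul]
    refine add_mem (add_mem (sum_mem fun i _ => U.smul_mem _ (h3 (Pi.single i 1) fun g _ => by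
      simp [Pi.single_apply])) (sum_mem fun χ hχ => U.smul_mem _ (h3 ![1, 1, 0, 0] fun g hg => by
      simp [h.relJ χ hχ g hg, Fin.sum_univ_four]))) (sum_mem fun χ hχ => U.smul_mem _ ?_)
    exact (h.relK χ hχ).elim fun c hc => h3 c hc
  have h5 : LinearMap.range (rho 2 ∘ₗ bpL B) ≤ U := by
    rintro _ ⟨θ, rfl⟩
    rw [← h1 (θ := (rho 2 ∘ₗ bpL B) θ) fun g hg => off_of_reg hw (mt (rho_apply_of_dvd _) hg)]
    exact h4 (by simp [bpL_apply, blockPart_rho (IsPBlock.isBlockUnion hB), blockPart_blockPart_self])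
  rw [blockRank, span_rho_eq_range]
  refine ⟨(Submodule.finrank_mono h5).trans h2, fun θ hθ h6 h7 => Nat.le_of_lt_succ
    ((Submodule.finrank_lt_finrank_of_lt (h5.lt_of_ne fun e => h6 ?_)).trans_le h2)⟩
  obtain ⟨φ, h8⟩ : θ ∈ LinearMap.range (rho 2 ∘ₗ bpL B) := e ▸ h1 h7 ▸ h4 (mem_Vs.1 hθ).1
  rw [← (mem_Vs.1 hθ).2, ← h8, LinearMap.comp_apply, rho_rho]

theorem pu_mem_Vs (hB : IsPBlock M B) (hm : IsMax 2 (eB M B) D e) (hy : y ∈ D) (h : y ≠ 1) :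
    pu 2 D e y θ ∈ Vs 2 B := mem_Vs.2 ⟨blockPart_pu hB hm hy θ, funext fun g => by
  rw [rho_apply]
  split_ifs with hg
  exacts [rfl, pu_apply_of_not hm.pair hy θ (isPPart_one_iff.2 hg) (by simpa using h.symm)]⟩

theorem PP.rank_le_two (h : PP B z n ε a J K) (hD : MC D x v z m) (hz : CI z) (hB : IsPBlock M B)
    (hm : IsMax 2 (eB M B) D e) (hy : y ∈ D) (hy' : y ∉ 𝐙 x) (h1 : y * y = 1) : blockRank 2 B ≤ 2 :=
  (h.rank_le hB hD.ord_z.symm.dvd).2 _ (pu_mem_Vs hB hm hy (by rintro rfl; exact hy' (one_mem _)))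
    (h.pu_ne hB hm hy) fun g hg => (exists_of_pu_ne_zero hm.pair hy hg).elim fun _ =>
      hD.off hz hy' h1

theorem MC.finrank_le (h : MC D x v z m) (hB : IsPBlock M B) (hm : IsMax 2 (eB M B) D e) (Y : Finset G)
    (hY : ∀ r ∈ D, r ∉ 𝐙 x → r * r = 1 → ∃ y ∈ Y, ∃ d ∈ D, d * y * d⁻¹ = r) {H : Type*} [Fintype H]
    (V : Submodule ℂ (H → ℂ)) (T : (G → ℂ) →ₗ[ℂ] H → ℂ) (hT : ∀ θ, T θ ∈ V)
    (h0 : ∀ θ, IsClassFunction G θ → T θ = 0 → ∀ r ∈ D, z ∈ 𝐙 r → pu 2 D e r θ = 0) :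
    finrank ℂ (Vs 2 B) ≤ finrank ℂ V + Y.card := by
  rw [← Fintype.card_coe, ← finrank_fintype_fun_eq_card ℂ, ← finrank_prod]
  refine LinearMap.finrank_le_finrank_of_injective (f := ((T.codRestrict V hT).prod (LinearMap.pi
    fun y : Y => LinearMap.proj y.1 ∘ₗ pu 2 D e y)) ∘ₗ (Vs 2 B).subtype)
    ((injective_iff_map_eq_zero _).2 fun ⟨θ, hθ⟩ h1 => Subtype.ext ?_)
  obtain ⟨h2, h3⟩ := mem_Vs.1 hθ
  have hc := h2 ▸ isClassFunction_blockPart B θ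
  have h4 := h0 θ hc (congrArg (·.1.1) h1)
  have h5 {r} (hr : r ∈ 𝐙 x) : pu 2 D e r θ = 0 := by
    by_cases e : r = 1
    exacts [e ▸ (pu_one hB hm h2).trans h3, h4 r (h.le hr) (h.z_mem_zpowers hr e)]
  refine eq_zero_of_pu hB hm h2 fun r hr => ?_
  replace hr := mem_of_mem_tv hr
  by_cases h6 : Unf D e x r
  swap
  · simp only [Unf, not_forall, not_not] at h6
    obtain ⟨u, hu, h6⟩ := h6
    rw [h6.pu_eq hm.pair hr (h.le hu) hc, h5 hu]
  have h7 : r ∉ 𝐙 x := fun e => h6 r e (Fz.refl r)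
  rcases h.sq hr h7 with e' | e'
  swap; · exact h4 r hr (e' ▸ mul_mem (Subgroup.mem_zpowers r) (Subgroup.mem_zpowers r))
  obtain ⟨y, hy, d, hd, rfl⟩ := hY r hr h7 e'
  have h8 : y ∈ D := by simpa [mul_assoc] using mul_mem (mul_mem (inv_mem hd) hr) hd
  have h9 := fz_of_mem_NP hm.pair (hm.pair.le_NP hd) h8
  obtain ⟨Θ, hΘ⟩ := exists_pu_eq_smul hm.pair h8 ((h9.rank_eq hB hm h8 hr).trans (h6.rank h hB hm hr))
  rw [← h9.pu_eq hm.pair h8 hr hc, hΘ, show pu 2 D e y θ y = 0 from congrFun (congrArg (·.2) h1) ⟨y, hy⟩,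
    zero_smul]

/-- class functions of `B` supported on `{g | z ∈ ⟨g⟩}` -/
noncomputable def Vw (z : G) (B : Set (IrrCharacter G)) : Submodule ℂ (G → ℂ) where
  carrier := {θ | blockPart B θ = θ ∧ ∀ g, z ∉ 𝐙 g → θ g = 0}
  add_mem' h h' := ⟨by rw [blockPart_add, h.1, h'.1], fun g hg => by simp [h.2 g hg, h'.2 g hg]⟩
  zero_mem' := ⟨blockPart_zero, fun _ _ => rfl⟩
  smul_mem' c _ h := ⟨by rw [blockPart_smul, h.1], fun g hg => by simp [h.2 g hg]⟩

theorem CI.exists_proj (hz : CI z) (hB : IsPBlock M B) (hm : IsMax 2 (eB M B) D e) :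
    ∃ W : (G → ℂ) →ₗ[ℂ] G → ℂ, (∀ θ, W θ ∈ Vw z B) ∧
      ∀ θ, IsClassFunction G θ → W θ = 0 → ∀ r ∈ D, z ∈ 𝐙 r → pu 2 D e r θ = 0 := by
  refine ⟨BMod.star 2 D e fun r => if z ∈ 𝐙 r then 1 else 0, fun θ => ⟨blockPart_star hB hm _ _,
    fun g hg => star_eq_zero hm.pair fun u _ k hk => if_neg fun e => hg (Subgroup.zpowers_le.2
      hk.mem_zpowers ((hz.mem_conj k).2 e))⟩, fun θ hθ h r hr h1 => ?_⟩
  have := pu_star (t := fun r => if z ∈ 𝐙 r then 1 else 0) hm.pair hr (by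
    rintro u - _ - ⟨k, rfl, -⟩; simp only [hz.mem_conj]) hθ
  rwa [h, map_zero, if_pos h1, one_smul, eq_comm] at this

theorem CI.Vw_le (hz : CI z) : Vw z B ≤ Vs 2 B := fun θ h => mem_Vs.2 ⟨h.1, funext fun g => by
  rw [rho_apply]
  split_ifs with hg
  exacts [rfl, h.2 g (hz.off_iff.1 (off_of_reg (Invol.orderOf_two_iff.2 ⟨hz.sq, hz.ne⟩).symm.dvd hg))]⟩

theorem Sh.finrank_Vs (h : Sh B z m ε a J K κ) : finrank ℂ (Vs 2 B) = 2 ^ (m + 1) + 2 := by
  have := Tame.finrank_Vs (p := 2) B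
  rw [h.rank, h.card_eq] at this
  omega

theorem Loc.ci (L : Loc 2 B D e z (𝐂 (𝐙 z))) (h : z * z = 1) : CI (zu z) :=
  ⟨(isSub_zu L.max.pair L.mem).mem_center, Subtype.ext h, fun e => L.ne (congrArg Subtype.val e)⟩

end

local notation "𝐙" => Subgroup.zpowers

theorem sh.{u} (m : ℕ) : ∀ {G : Type u} [Group G] [Fintype G] {B : Set (IrrCharacter G)} {D x v z},
    MC D x v z m → IsPBlock M B → IsDefectGroup 2 M B D → CI z →
      ∃ ε a J K κ, Sh B z m ε a J K κ := by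
  suffices key : ∀ {G : Type u} [Group G] [Fintype G] {B : Set (IrrCharacter G)} {D x v z m},
      MC D x v z m → IsPBlock M B → IsDefectGroup 2 M B D → CI z →
      (∀ {H : Type u} [Group H] [Fintype H] {f : G →* H} {b : Set (IrrCharacter H)}, f.ker = 𝐙 z →
        IsPBlock M b → IsDefectGroup 2 M b (D.map f) → 2 * Nat.card (D.map f) = Nat.card D →
        ∃ ε a J, PP b (f v) m ε a J ∅) → ∃ ε a J K κ, Sh B z m ε a J K κ by
    induction m with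
    | zero =>
      exact fun h hB hD hz => key h hB hD hz fun hf hb hd hc => by
        obtain ⟨ε, a, h⟩ := klein hb hd (by rw [h.card] at hc; omega) (fun _ => h.map_zero hf)
          ⟨_, h.le h.v_mem, rfl⟩ (h.map_v_ne hf)
        exact ⟨ε, a, _, h⟩
    | succ m ih =>
      exact fun {_ _ _ _ _ _ v _} h hB hD hz => key h hB hD hz fun {H} _ _ f b hf hb hd _ => by
        obtain ⟨e, hm⟩ := exists_isMax hb hd
        have h1 := h.map hf
        have L := h1.loc_z hb hm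
        have := Fintype.ofFinite (Subgroup.centralizer (𝐙 (f v) : Set H))
        have h2 := h1.res L.le
        obtain ⟨ε, a, J, K, κ, h3⟩ := ih h2 L.isBlk ((isDefectGroup_iff_isDef L.isBlk).2 L.max'.isDef)
          (L.ci h1.zz)
        obtain ⟨ε, a, J, K', h4, h5⟩ := h3.trans L
        rw [h3.dih h2 L.isBlk L.max' fun y hy hy' => Subtype.ext (h.map_sq hf hy fun e => hy'
          (Subgroup.mem_zpowers_iff.2 ((Subgroup.mem_zpowers_iff.1 e).imp fun _ e => Subtype.ext e))),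
          Finset.card_empty, Finset.card_eq_zero] at h5
        exact ⟨ε, a, J, h5 ▸ h4⟩
  intro G _ _ B D x v z m h hB hD hz ih
  have hC := Subgroup.zpowers_le.2 hz.cen
  have : (𝐙 z).Normal := ⟨fun n hn g => by rwa [Subgroup.mem_center_iff.1 (hC hn), mul_inv_cancel_right]⟩
  have := Fintype.ofFinite (G ⧸ 𝐙 z)
  have hf := QuotientGroup.mk'_surjective (𝐙 z)
  have hk := QuotientGroup.ker_mk' (𝐙 z)
  have h1 : Nat.card (QuotientGroup.mk' (𝐙 z)).ker = 2 := by rw [hk, Nat.card_zpowers, h.ord_z]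
  have hp : IsPGroup 2 _ := IsPGroup.of_card (n := 1) h1
  rw [← hk] at hC
  have hb := isPBlock_infl hf hp hC hB
  have hd := isDefectGroup_infl hf hp hC hB hD
  obtain ⟨ε, a, J, h2⟩ := ih hk hb hd (by
    rw [IsDefectGroup.card_eq hb hd, IsDefectGroup.card_eq hB hD, ← pow_defect_infl hf hp hC hB, h1])
  obtain ⟨ε, a, J, h3⟩ := h2.lift hf hk hz h.hz hB
  exact cen h hB hD h3

theorem tame {G : Type*} [Group G] [Fintype G] {B : Set (IrrCharacter G)} {D : Subgroup G} {x v z : G}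
    {m : ℕ} (h : MC D x v z m) (hB : IsPBlock M B) (hD : IsDefectGroup 2 M B D) (Y : Finset G)
    (hY : ∀ r ∈ D, r ∉ 𝐙 x → r * r = 1 → ∃ y ∈ Y, ∃ d ∈ D, d * y * d⁻¹ = r) :
    ∃ ε a J K, PP B z (m + 1) ε a J K ∧ 1 + K.card ≤ blockRank 2 B + Y.card ∧
      blockRank 2 B ≤ 1 + K.card + Y.card ∧ ((∀ y ∈ D, y ∉ 𝐙 x → y * y = 1) → K = ∅) ∧
      ∀ y ∈ D, y ∉ 𝐙 x → y * y = 1 → K.card ≤ 1 ∧ 2 + K.card ≤ blockRank 2 B + Y.card := by
  obtain ⟨e, hm⟩ := exists_isMax hB hD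
  have L := h.loc_z hB hm
  have := Fintype.ofFinite (Subgroup.centralizer (𝐙 z : Set G))
  have h' := h.res L.le
  have hz := L.ci h.zz
  obtain ⟨ε₀, a₀, J₀, K₀, κ, h1⟩ := sh m (B := bu 2 D e z) h' L.isBlk
    ((isDefectGroup_iff_isDef L.isBlk).2 L.max'.isDef) hz
  obtain ⟨ε, a, J, K, h2, h3⟩ := h1.trans L
  obtain ⟨W, h4, h5⟩ := hz.exists_proj (B := bu 2 D e z) L.isBlk L.max'
  have hx {r s : Subgroup.centralizer (𝐙 z : Set G)} : r ∈ 𝐙 s ↔ r.1 ∈ 𝐙 s.1 := by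
    simp only [Subgroup.mem_zpowers_iff, Subtype.ext_iff, SubgroupClass.coe_zpow]
  have e1 := h.finrank_le hB hm Y hY _ (W ∘ₗ bpL (bu 2 D e z) ∘ₗ LinearMap.funLeft ℂ ℂ Subtype.val) 
    (fun θ => h4 _) fun θ hθ h6 r hr h7 => by
      rw [← L.ind_pu (r := ⟨r, L.le hr⟩) hr h7 hθ, h5 _ (isClassFunction_blockPart (bu 2 D e z) fun k => θ k.1) h6
        ⟨r, L.le hr⟩ hr
        (hx.2 h7), indFun_zero]
  have e2 := h'.finrank_le (B := bu 2 D e z) L.isBlk L.max' (Y.subtype _) (fun r hr h6 h7 => by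
    obtain ⟨y, h8, d, hd, h9⟩ := hY r hr (fun e => h6 (hx.2 e)) (congrArg Subtype.val h7)
    exact ⟨⟨y, L.le (by simpa [← h9, mul_assoc] using mul_mem (mul_mem (inv_mem hd) hr) hd)⟩,
      by simpa using h8, ⟨d, L.le hd⟩, hd, Subtype.ext h9⟩) _ W h4 h5
  have e3 : finrank ℂ (Vw (zu z) (bu 2 D e z)) ≤ finrank ℂ (Vs 2 B) :=
    LinearMap.finrank_le_finrank_of_injective (f := (indLin _).restrict fun f hf => mem_Vs.2
      ⟨L.blockPart_ind (fun k hk => hf.2 k (mt (hx (r := zu z)).1 hk)) hf.1, L.rho_ind fun k hk => hf.2 k (mt (hx (r := zu z)).1 hk)⟩)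
      ((injective_iff_map_eq_zero _).2 fun f hf => Subtype.ext ((L.ind_eq_zero_iff
        (fun k hk => f.2.2 k (mt (hx (r := zu z)).1 hk)) (f.2.1 ▸ isClassFunction_blockPart _ _)).1
          (congrArg Subtype.val hf)))
  have e4 := Submodule.finrank_mono (hz.Vw_le (B := bu 2 D e z))
  have e5 := finrank_Vs (p := 2) B
  have e6 := (Finset.card_subtype _ Y).trans_le
    (Finset.card_filter_le Y (· ∈ Subgroup.centralizer (𝐙 z : Set G)))
  rw [h1.finrank_Vs] at e2 e4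
  rw [h2.card_eq] at e5
  refine ⟨ε, a, J, K, h2, by omega, by omega, fun h6 => Finset.card_eq_zero.1 ?_, fun y hy h6 h7 => ?_⟩
  · rw [h3, h1.dih h' L.isBlk L.max' fun y hy h7 => Subtype.ext (h6 y hy fun e => h7 (hx.2 e))]; rfl
  have h8 := mt (hx (r := ⟨y, L.le hy⟩) (s := ⟨x, L.le h.mem⟩)).1 h6
  have := Submodule.finrank_lt_finrank_of_lt ((hz.Vw_le (B := bu 2 D e z)).lt_of_ne fun e =>
    h1.pu_ne L.isBlk L.max' (y := ⟨y, L.le hy⟩) hy (funext fun g => by_contra fun h9 =>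
      (exists_of_pu_ne_zero L.max'.pair hy h9).elim fun k hk => h9 ((e ▸ pu_mem_Vs L.isBlk L.max' hy
        fun e => h8 (by rw [e]; exact one_mem _)).2 g (hz.off_iff.1 (h'.off hz h8 (Subtype.ext h7) hk)))))
  rw [h1.finrank_Vs] at this
  exact ⟨h3 ▸ h1.card_le_one h' L.isBlk L.max' hy h8 (Subtype.ext h7), by omega⟩

end Cfsg.Agent.Tame
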