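import Cfsg.Agent.Block.TameEv

/-!
Tame blocks with a central involution.
-/

set_option autoImplicit false
set_option linter.unusedSectionVars false

namespace Cfsg.Agent.Tame

open MonoidAlgebra Transfer Block BMod Cfsg.Agent.Char CharDeep Module
open scoped ComplexConjugate Classical

variable {M : Ideal AlgInt} [PMod 2 M] {G : Type*} [Group G] [Fintype G]
variable {B : Set (IrrCharacter G)} {D : Subgroup G} {e : (F M)[G]} {x v z g u : G} {m : ℕ}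
  {θ φ : G → ℂ} {χ ψ : IrrCharacter G} {ε : IrrCharacter G → ℤ} {a : Fin 4 → IrrCharacter G}
  {J K : Finset (IrrCharacter G)} {κ : IrrCharacter G → Fin 4}

local notation "𝐙" => Subgroup.zpowers

/-- a tame block with central involution `z` -/
structure Sh (B : Set (IrrCharacter G)) (z : G) (m : ℕ) (ε : IrrCharacter G → ℤ)
    (a : Fin 4 → IrrCharacter G) (J K : Finset (IrrCharacter G)) (κ : IrrCharacter G → Fin 4) : Prop
    extends PP B z (m + 1) ε a J K where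
  ci : CI z
  even : ∀ i, (a i).1 z = (a i).1 1
  odd : ∀ ξ ∈ K, Od z ξ
  cardJ : (J.filter (Od z)).card = 2 ^ m
  hκ : ∀ ξ ∈ K, κ ξ = 2 ∨ κ ξ = 3
  κinj : Set.InjOn κ K
  relK' : ∀ ξ ∈ K, ∀ g, Off z g → sg ε ξ g = sg ε (a 0) g - sg ε (a (κ ξ)) g
  miss : ∀ i, i = 2 ∨ i = 3 → (∀ ξ ∈ K, κ ξ ≠ i) → ∀ g, ¬ 2 ∣ orderOf g → sg ε (a 0) g = sg ε (a i) g
  rank : blockRank 2 B = 1 + K.card
  sing : ∀ χ ∈ B, Od z χ → ∀ g, Off z g → 2 ∣ orderOf g → χ.1 g = 0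

theorem CI.mem_conj (h : CI z) (k : G) : z ∈ 𝐙 (k * u * k⁻¹) ↔ z ∈ 𝐙 u := by
  rw [← sc_zpowers, ← conj_mem_sc (g := k) (H := 𝐙 u), h.cj_eq]

theorem CI.conj_eq (h : CI z) {k : G} : k * u * k⁻¹ = z ↔ u = z := by
  rw [← h.cj_eq k, mul_left_inj, mul_right_inj, h.cj_eq]

theorem CI.rank_eq (h : CI z) (hB : IsPBlock M B) :
    (blockRank 2 B : ℂ) = ∑ ψ with ψ ∈ B ∧ Od z ψ, 2 * ctr 2 ψ.1 ψ.1 := by
  have hU := IsPBlock.isBlockUnion hB
  have h1 : ∑ ψ with ψ ∈ B, classInner (tr z (rho 2 ψ.1)) ψ.1 = 0 := by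
    simp only [classInner_def, ← Finset.mul_sum]
    rw [Finset.sum_comm, Finset.sum_eq_zero fun g _ => ?_, mul_zero]
    by_cases hg : 2 ∣ orderOf (z * g)
    · simp [rho_apply_of_dvd _ hg]
    have := col_eq_zero hU (by simpa [← mul_assoc, h.sq] using h.ppart hg) (isPPart_one_iff.2 hg)
      (by simpa using h.ne)
    simpa [col_apply, Finset.sum_filter, rho_apply_of_not_dvd _ hg,
      fun χ : IrrCharacter G => χ.2.apply_inv] using this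
  rw [blockRank_eq_sum hU, ← Finset.sum_filter, ← Finset.filter_filter, Finset.sum_filter (Od z),
    ← sub_zero (Finset.sum _ _)]
  conv_lhs => rw [← h1]
  rw [← Finset.sum_sub_distrib]
  refine Finset.sum_congr rfl fun ψ _ => ?_
  have : ctr 2 ψ.1 ψ.1 - classInner (tr z (rho 2 ψ.1)) ψ.1 = classInner (pm (-1) z ψ.1) ψ.1 := by
    simp [pm, ctr, classInner_add_left, classInner_neg_left, sub_eq_add_neg]
  rw [this]
  split_ifs with e
  · rw [h.inner_odd (tr_odd h.cen e)]; norm_num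
  · rw [h.inner_even (tr_even h.cen ((h.even_or ψ).resolve_right e))]; norm_num

theorem EP.unf (h : EP B z v m ε a J) (hD : MC D x v z m) (hB : IsPBlock M B)
    (hm : IsMax 2 (eB M B) D e) (hθ : blockPart B θ = θ) (h1 : tr z θ = -θ) (hu : u ∈ D)
    (h2 : Unf D e x u) : pu 2 D e u θ = 0 :=
  h2.pu_eq hD hB hm hu h.inj (fun i => ⟨(h.ha i).1, (h.ha i).2.1⟩) hθ fun i =>
    inner_odd_even h.ci.sq h1 (tr_even h.ci.cen (h.ha i).2.2)

theorem EP.sing (h : EP B z v m ε a J) (hD : MC D x v z m) (hB : IsPBlock M B)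
    (hm : IsMax 2 (eB M B) D e) (hψ : ψ ∈ B) (h1 : Od z ψ) (hg : Off z g) :
    ψ.1 g = pm 1 z ψ.1 g ∧ (2 ∣ orderOf g → ψ.1 g = 0) := by
  have h2 (h3 : 2 ∣ orderOf g) : ψ.1 g = 0 := apply_eq_zero hB hm (blockPart_irr_of_mem hψ)
    fun u hu k hk => h.unf hD hB hm (blockPart_irr_of_mem hψ) (tr_odd h.ci.cen h1) hu
      fun _ h4 ⟨l, hl, _⟩ => h.ci.off_iff.1 hg (Subgroup.zpowers_le.2 hk.mem_zpowers
        ((h.ci.mem_conj k).2 ((h.ci.mem_conj l).1 (hl ▸ hD.z_mem_zpowers h4 fun e =>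
          (IsPPart.eq_one_iff hk).1 (by simp [show u = 1 by simpa [e] using hl]) h3))))
  refine ⟨?_, h2⟩
  by_cases h3 : 2 ∣ orderOf g
  · obtain ⟨t, ht⟩ := exists_isPPart 2 g
    rw [h2 h3, h.ci.pm_eq_zero ht (fun e => (IsPPart.eq_one_iff ht).1 e h3) fun e =>
      h.ci.off_iff.1 hg (e ▸ ht.mem_zpowers)]
  · exact (h.ci.pm_reg h3).symm

theorem EP.inner_eq (h : EP B z v m ε a J) (hD : MC D x v z m) (hB : IsPBlock M B)
    (hm : IsMax 2 (eB M B) D e) (hθ : blockPart B θ = θ) (h1 : tr z θ = -θ)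
    (h2 : ∀ u ∈ D, v ∈ 𝐙 u → pu 2 D e u θ = 0) (h3 : Od z ψ) : classInner θ ψ = 2 * ctr 2 θ ψ := by
  rw [← one_add_one_eq_two, ← sub_neg_eq_add, ← h.ci.inner_odd (tr_odd h.ci.cen h3)]
  congr 1
  ext g
  obtain ⟨t, ht⟩ := exists_isPPart 2 g
  by_cases h4 : t = 1
  · exact (h.ci.pm_reg ((IsPPart.eq_one_iff ht).1 h4)).symm
  by_cases h5 : t = z
  · obtain ⟨c, rfl, -, -, hc⟩ := h5 ▸ ht
    rw [h.ci.pm_mul hc, neg_one_mul]; exact congrFun h1 c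
  rw [h.ci.pm_eq_zero ht h4 h5]
  refine apply_eq_zero hB hm hθ fun u hu k hk => ?_
  obtain rfl := IsPPart.unique ht hk
  by_cases h6 : Unf D e x u
  · exact h.unf hD hB hm hθ h1 hu h6
  simp only [Unf, not_forall, not_not] at h6
  obtain ⟨r, hr, h6⟩ := h6
  rw [h6.pu_eq hm.pair hu (hD.le hr) (hθ ▸ isClassFunction_blockPart B θ)]
  refine h2 r (hD.le hr) (hD.v_mem_zpowers hr fun e => ?_)
  obtain ⟨l, rfl, -⟩ := h6
  rcases hD.sq_cases hr e with e | e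
  · exact h4 (by simp [show u = 1 by simpa using e])
  · exact h5 (h.ci.conj_eq.2 (h.ci.conj_eq.1 e))

theorem cen (hD : MC D x v z m) (hB : IsPBlock M B) (hD' : IsDefectGroup 2 M B D)
    (h : EP B z v m ε a J) : ∃ ε a J K κ, Sh B z m ε a J K κ := by
  obtain ⟨e, hm⟩ := exists_isMax hB hD'
  have hd : blockDefect 2 B = m + 3 := Nat.pow_right_injective le_rfl
    ((IsDefectGroup.card_eq hB hD').symm.trans hD.card)
  have hz := h.ci
  obtain ⟨J', c1, c2, c3, c4⟩ := exists_odd hD hB hm hz (h.ha 0).1 (h.ha 0).2.1 (h.ha 0).2.2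
  obtain ⟨χ₁, h1⟩ := Finset.card_pos.1 (c1 ▸ Nat.two_pow_pos m)
  have h2 {χ} (hχ : χ ∈ J') (g) (hg : ¬ 2 ∣ orderOf g) : χ.1 g = χ₁.1 g := c3 _ hχ _ h1 g (h.off hg)
  have h3 : 2 * 2 ^ m * ctr 2 χ₁.1 χ₁.1 = 1 := by
    have h3 (ψ) (hψ : ψ ∈ J') : classInner (∑ χ ∈ J', χ.1) ψ.1 = 1 := by
      simp [classInner_sum_left, classInner_irr, hψ]
    have h4 : tr z (∑ χ ∈ J', χ.1) = -∑ χ ∈ J', χ.1 := by
      rw [map_sum, ← Finset.sum_neg_distrib]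
      exact Finset.sum_congr rfl fun χ hχ => tr_odd hz.cen (c2 χ hχ).2
    have h5 : blockPart B (∑ χ ∈ J', χ.1) = ∑ χ ∈ J', χ.1 := by
      rw [blockPart_sum]; exact Finset.sum_congr rfl fun χ hχ => blockPart_irr_of_mem (c2 χ hχ).1
    have := h.inner_eq hD hB hm h5 h4 (c4 _ (h5 ▸ isClassFunction_blockPart _ _) h4
      fun ψ hψ ψ' hψ' => (h3 ψ hψ).trans (h3 ψ' hψ').symm) (c2 _ h1).2
    rw [h3 _ h1, ctr_sum_left, Finset.sum_congr rfl fun χ hχ => ctr_congr (h2 hχ) fun _ _ => rfl,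
      Finset.sum_const, c1] at this
    simpa [mul_assoc] using this.symm
  have h4 {χ} (hχ : χ ∈ J') : blockHeight 2 B χ = 1 := by
    obtain ⟨k, h4, h5⟩ := exists_ctr_eq (p := 2) hB (c2 χ hχ).1 χ
    rw [hd, ctr_congr (h2 hχ) (h2 hχ)] at h4
    have h6 : (4 : ℤ) = 2 ^ blockHeight 2 B χ * k := by
      rw [← Int.cast_inj (α := ℂ)]; push_cast at h4 ⊢; linear_combination h4 - 4 * h3
    simp only [(c2 χ hχ).1, true_and] at h5
    obtain h | h | ⟨h, e⟩ : blockHeight 2 B χ = 0 ∨ blockHeight 2 B χ = 1 ∨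
      ∃ j, blockHeight 2 B χ = j + 2 := by
      rcases blockHeight 2 B χ with _ | _ | j <;> simp
    · simp [h] at h5 h6; omega
    · exact h
    · rw [e, pow_add, mul_right_comm] at h6
      have := Int.eq_one_or_neg_one_of_mul_eq_one' (show 2 ^ h * k = 1 by omega)
      omega
  obtain ⟨ε, a, h, δ, hδ, h5⟩ := h.norm_J hB hd (c2 _ h1).1 (h4 h1) h3
  obtain ⟨K, hK⟩ : ∃ K : Finset (IrrCharacter G), ∀ {ψ}, ψ ∈ K ↔ (ψ ∈ B ∧ Od z ψ) ∧ ψ ∉ J' :=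
    ⟨Finset.univ.filter _, Finset.mem_filter.trans (and_iff_right (Finset.mem_univ _))⟩
  have h6 {ξ ψ} (hξ : ξ ∈ K) (hψ : Od z ψ) : 2 * ctr 2 ξ.1 ψ.1 = if ξ = ψ then 1 else 0 := by
    obtain ⟨⟨e1, e2⟩, e3⟩ := hK.1 hξ
    have e4 {ψ} (hψ : ψ ∈ J') : ξ ≠ ψ := fun e => e3 (e ▸ hψ)
    rw [← h.inner_eq hD hB hm (blockPart_irr_of_mem e1) (tr_odd hz.cen e2) (c4 _ (irrC ξ)
      (tr_odd hz.cen e2) fun ψ hψ ψ' hψ' => by simp [classInner_irr, e4 hψ, e4 hψ']) hψ, classInner_irr]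
  have h7 {χ} (hχ : χ ∈ J') (g) (hg : Off z g) : δ * χ.1 g = sg ε (a 0) g + sg ε (a 1) g := by
    rw [c3 _ hχ _ h1 g (hz.off h.hv hg), (h.sing hD hB hm (c2 _ h1).1 (c2 _ h1).2 hg).1,
      h.pm_J hB (c2 _ h1).1 hδ h5 (hz.off h.hv hg)]
  have hoff {g} (hg : ¬ 2 ∣ orderOf g) : Off z g := off_of_reg hD.ord_z.symm.dvd hg
  choose! δ' κ h8 h9 h10 h11 h12 using fun ξ (hξ : ξ ∈ K) => h.norm_K hB hd (hK.1 hξ).1.1
    (by simpa using h6 hξ (hK.1 hξ).1.2) (by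
      have := ctr_congr (p := 2) (θ := ξ.1) (φ := (δ : ℂ) • χ₁.1) (φ' := _ + _) (fun _ _ => rfl)
        fun g hg => h7 h1 g (hoff hg)
      have e := h6 hξ (c2 _ h1).2
      rw [if_neg (by rintro rfl; exact (hK.1 hξ).2 h1), mul_eq_zero, or_iff_right two_ne_zero] at e
      rw [ctr_smul_right, e, mul_zero, ctr, classInner_add_right] at this
      exact this.symm)
  have h13 {ξ} (hξ : ξ ∈ K) (g) (hg : Off z g) : δ' ξ * ξ.1 g = sg ε (a 0) g - sg ε (a (κ ξ)) g := by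
    rw [(h.sing hD hB hm (hK.1 hξ).1.1 (hK.1 hξ).1.2 hg).1, h12 ξ hξ g (hz.off h.hv hg)]
  have h14 {ψ : IrrCharacter G} (h : ψ.1 z = ψ.1 1) : ψ ∉ J' ∧ ψ ∉ K :=
    ⟨fun e => not_even_of_odd (c2 _ e).2 h, fun e => not_even_of_odd (hK.1 e).1.2 h⟩
  obtain ⟨ε', e1, e2, e3, e4⟩ : ∃ ε', Sgn ε' ∧ (∀ ψ : IrrCharacter G, ψ.1 z = ψ.1 1 → sg ε' ψ = sg ε ψ) ∧
      (∀ ψ ∈ J', ε' ψ = δ) ∧ ∀ ψ ∈ K, ε' ψ = δ' ψ := by
    refine ⟨fun ψ => if ψ ∈ J' then δ else if ψ ∈ K then δ' ψ else ε ψ, fun ψ => ?_, fun ψ hψ => by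
      simp [sg, h14 hψ], fun ψ hψ => if_pos hψ, fun ψ hψ => by simp [hψ, (hK.1 hψ).2]⟩
    simp only
    split_ifs with e e'
    exacts [hδ, h9 ψ e', h.sgn ψ]
  have e5 (i) := e2 _ (h.ha i).2.2
  have h15 : Disjoint J J' := Finset.disjoint_left.2 fun ψ hψ => (h14 (h.hJ ψ hψ).2.2).1
  have h16 (ξ) (hξ : ξ ∈ K) (g) (hg : Off z g) : sg ε' ξ g = sg ε' (a 0) g - sg ε' (a (κ ξ)) g := by
    rw [sg_apply, e4 ξ hξ, e5, e5, h13 hξ g hg]
  refine ⟨ε', a, J ∪ J', K, κ, ⟨e1, h.inj, fun i => ⟨(h.ha i).1, (h.ha i).2.1⟩, fun χ hχ => ?_,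
    fun ξ hξ => ⟨(hK.1 hξ).1.1, h8 ξ hξ⟩, fun i => (h14 (h.ha i).2.2).2, ?_, fun χ hχ => ?_, ?_,
    fun g hg => by simpa only [e5] using h.rel g (hz.off h.hv hg), fun χ hχ g hg => ?_,
    fun ξ hξ => ⟨Pi.single 0 1 - Pi.single (κ ξ) 1, fun g hg => by
      simp [h16 ξ hξ g hg, sub_mul, Pi.single_apply]⟩⟩, hz, fun i => (h.ha i).2.2,
    fun ξ hξ => (hK.1 hξ).1.2, ?_, h10, fun ξ hξ ξ' hξ' e => by_contra fun e' => ?_, h16,
    fun i hi h17 g hg => ?_, ?_, fun χ hχ h17 g hg => (h.sing hD hB hm hχ h17 hg).2⟩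
  · rcases Finset.mem_union.1 hχ with e | e
    exacts [⟨(h.hJ χ e).1, (h.hJ χ e).2.1⟩, ⟨(c2 χ e).1, h4 e⟩]
  · refine Finset.disjoint_left.2 fun ψ hψ => ?_
    rcases Finset.mem_union.1 hψ with e | e
    exacts [(h14 (h.hJ ψ e).2.2).2, fun e' => (hK.1 e').2 e]
  · rcases hz.even_or χ with e | e
    · exact (h.cover χ hχ e).imp_right fun e => .inl (Finset.mem_union_left _ e)
    · exact .inr (or_iff_not_imp_left.2 fun e' => hK.2 ⟨⟨hχ, e⟩, mt (Finset.mem_union_right _) e'⟩)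
  · rw [Finset.card_union_of_disjoint h15, c1, add_right_comm, h.card, pow_succ, mul_two]
  · rw [e5, e5]
    rcases Finset.mem_union.1 hχ with e | e
    · rw [e2 _ (h.hJ χ e).2.2, h.relJ χ e g (hz.off h.hv hg)]
    · rw [sg_apply, e3 χ e, h7 e g hg]
  · rw [← c1, Finset.filter_union, Finset.filter_false_of_mem fun χ hχ e =>
      not_even_of_odd e (h.hJ χ hχ).2.2, Finset.filter_true_of_mem fun χ hχ => (c2 χ hχ).2,
      Finset.empty_union]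
  · have e6 := h6 hξ (hK.1 hξ').1.2
    have e7 := h6 hξ (hK.1 hξ).1.2
    have := ctr_congr (p := 2) (θ := ξ.1) (φ := sg ε' ξ) (φ' := sg ε' ξ') (fun _ _ => rfl)
      fun g hg => by rw [h16 ξ hξ g (hoff hg), h16 ξ' hξ' g (hoff hg), e]
    rw [if_neg e', mul_eq_zero, or_iff_right two_ne_zero] at e6
    rw [sg, sg, ctr_smul_right, ctr_smul_right, e6, mul_zero, map_intCast, mul_eq_zero,
      or_iff_right (e1.ne ξ)] at this
    simp [this] at e7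
  · have e6 : blockPart B (sg ε (a 0) - sg ε (a i)) = sg ε (a 0) - sg ε (a i) := by
      rw [← bpL_apply, map_sub, bpL_apply, bpL_apply, bp_sg (h.ha 0).1, bp_sg (h.ha i).1]
    have e7 := hz.bp_pm (σ := -1) hB e6
    have e8 := e7 ▸ isClassFunction_blockPart B _
    rw [e5, e5, ← sub_eq_zero, ← Pi.sub_apply, ← hz.pm_reg (σ := -1) (θ := _ - _) hg, e8.apply_eq_sum_irr]
    refine Finset.sum_eq_zero fun ψ _ => mul_eq_zero_of_left ?_ _
    by_cases hψ : ψ ∈ B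
    swap; · exact (blockPart_eq_self_iff e8).1 e7 ψ hψ
    rcases hz.even_or ψ with e | e
    · simp [hz.inner_even (tr_even hz.cen e)]
    rw [hz.inner_odd (tr_odd hz.cen e), ← conj_ctr, ctr, classInner_sub_right, ← ctr, ← ctr,
      sub_eq_zero.2 (show ctr 2 _ _ = _ from ?_), map_zero, mul_zero]
    by_cases e' : ψ ∈ J'
    · rw [ctr_congr (h2 e') fun _ _ => rfl, ctr_congr (φ := sg ε (a i)) (h2 e') fun _ _ => rfl]
      exact mul_left_cancel₀ (by simp) ((h5 0).trans (h5 i).symm)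
    · exact h11 ψ (hK.2 ⟨⟨hψ, e⟩, e'⟩) i hi (h17 ψ (hK.2 ⟨⟨hψ, e⟩, e'⟩))
  · rw [← Nat.cast_inj (R := ℂ), hz.rank_eq hB, show Finset.univ.filter (fun ψ => ψ ∈ B ∧ Od z ψ) =
      J' ∪ K by
        ext ψ; have := c2 ψ
        simp only [Finset.mem_filter, Finset.mem_union, hK, Finset.mem_univ]; tauto,
      Finset.sum_union (Finset.disjoint_right.2 fun ψ hψ => (hK.1 hψ).2),
      Finset.sum_congr rfl fun χ hχ => by rw [ctr_congr (h2 hχ) (h2 hχ)],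
      Finset.sum_congr (s₁ := K) rfl fun ξ hξ => (h6 hξ (hK.1 hξ).1.2).trans (if_pos rfl)]
    simp only [Finset.sum_const, c1, nsmul_eq_mul]
    push_cast
    linear_combination h3

end Cfsg.Agent.Tame
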