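import Cfsg.Agent.Block.TameOdd

/-!
Tame blocks with a central involution `z`: the characters with `z` in the kernel.
-/

set_option autoImplicit false
set_option linter.unusedSectionVars false

namespace Cfsg.Agent.Tame

open MonoidAlgebra Transfer Block BMod Cfsg.Agent.Char CharDeep Module
open scoped ComplexConjugate Classical

variable {M : Ideal AlgInt} [PMod 2 M] {G : Type*} [Group G] [Fintype G]
variable {B : Set (IrrCharacter G)} {D : Subgroup G} {x v z g : G} {m : ℕ}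
  {θ φ : G → ℂ} {χ ψ : IrrCharacter G} {ε : IrrCharacter G → ℤ} {a : Fin 4 → IrrCharacter G}
  {J : Finset (IrrCharacter G)}

local notation "𝐙" => Subgroup.zpowers

theorem height_infl {p : ℕ} [Fact p.Prime] {M : Ideal AlgInt} [PMod p M] {H : Type*} [Group H]
    [Fintype H] {f : G →* H} (hf : Function.Surjective f) (hk : IsPGroup p f.ker)
    (hC : f.ker ≤ Subgroup.center G) (hB : IsPBlock M B) {φ : IrrCharacter H} (h : infl f hf φ ∈ B) :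
    blockHeight p B (infl f hf φ) = blockHeight p (infl f hf ⁻¹' B) φ := by
  have h1 := deg_add_defect p h
  have h2 := deg_add_defect p (B := infl f hf ⁻¹' B) h
  have h3 := blockDefect_infl hf hk (ker_cent hC) hB
  rw [charDegree_infl, card_eq_ker_mul hf, Nat.factorization_mul Nat.card_pos.ne' Nat.card_pos.ne',
    Finsupp.add_apply] at h1
  omega

/-- the even characters -/
structure EP (B : Set (IrrCharacter G)) (z v : G) (m : ℕ) (ε : IrrCharacter G → ℤ)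
    (a : Fin 4 → IrrCharacter G) (J : Finset (IrrCharacter G)) : Prop where
  ci : CI z
  hv : v * v = z
  sgn : Sgn ε
  inj : Function.Injective a
  ha : ∀ i, a i ∈ B ∧ blockHeight 2 B (a i) = 0 ∧ (a i).1 z = (a i).1 1
  hJ : ∀ χ ∈ J, χ ∈ B ∧ blockHeight 2 B χ = 1 ∧ χ.1 z = χ.1 1
  cover : ∀ χ ∈ B, χ.1 z = χ.1 1 → χ ∈ Set.range a ∨ χ ∈ J
  card : J.card + 1 = 2 ^ m
  rel : ∀ g, Off v g → sg ε (a 0) g + sg ε (a 1) g = sg ε (a 2) g + sg ε (a 3) g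
  relJ : ∀ χ ∈ J, ∀ g, Off v g → sg ε χ g = sg ε (a 0) g + sg ε (a 1) g

theorem CI.off (hz : CI z) (hv : v * v = z) (h : Off z g) : Off v g := fun k hk =>
  h k (by simpa [← hv, mul_assoc] using mul_mem hk hk)

theorem PP.lift {H : Type*} [Group H] [Fintype H] {f : G →* H} (hf : Function.Surjective f)
    (hk : f.ker = 𝐙 z) (hz : CI z) (hv : v * v = z) (hB : IsPBlock M B) {ε a J}
    (h : PP (infl f hf ⁻¹' B) (f v) m ε a J ∅) : ∃ ε a J, EP B z v m ε a J := by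
  have hi := infl_injective f hf
  have h0 := Invol.orderOf_two_iff.2 ⟨hz.sq, hz.ne⟩
  have hp : IsPGroup 2 f.ker := IsPGroup.of_card (n := 1) (by rw [hk, Nat.card_zpowers, h0]; rfl)
  have hC : f.ker ≤ Subgroup.center G := hk ▸ Subgroup.zpowers_le.2 hz.cen
  have hz1 : f z = 1 := show z ∈ f.ker from hk ▸ Subgroup.mem_zpowers z
  have h1 (φ) : (infl f hf φ).1 z = (infl f hf φ).1 1 := by simp [hz1]
  have h2 (φ g) : sg (Function.extend (infl f hf) ε 1) (infl f hf φ) g = sg ε φ (f g) := by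
    rw [sg_apply, hi.extend_apply]; rfl
  have h3 {n} (hn : n ∈ f.ker) : n = 1 ∨ n = z := by
    obtain ⟨j, rfl⟩ := hk ▸ hn
    have : z ^ (2 : ℤ) = 1 := by rw [zpow_two, hz.sq]
    rcases Int.even_or_odd' j with ⟨j, rfl | rfl⟩ <;> simp [zpow_add, zpow_mul, this]
  have h4 {g} (hg : Off v g) : Off (f v) (f g) := fun k hk' => by
    obtain ⟨k, rfl⟩ := hf k
    obtain ⟨j, hj⟩ := Subgroup.mem_zpowers_iff.1 hk'
    have h5 := Subgroup.zpow_mem_zpowers g j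
    rcases h3 (n := k * v * k⁻¹ * (g ^ j)⁻¹) (by simp [MonoidHom.mem_ker, hj]) with e | e <;>
      rw [mul_inv_eq_iff_eq_mul] at e
    · exact hg k (e ▸ mul_mem (one_mem _) h5)
    · refine hg k (e ▸ mul_mem ?_ h5)
      have : k * v * k⁻¹ * (k * v * k⁻¹) = z := by rw [← hz.cj_eq k, ← hv]; group
      rw [← this, e, mul_assoc, ← mul_assoc _ z, Subgroup.mem_center_iff.1 hz.cen (g ^ j), mul_assoc,
        ← mul_assoc, hz.sq, one_mul]
      exact mul_mem h5 h5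
  refine ⟨Function.extend (infl f hf) ε 1, infl f hf ∘ a, J.image (infl f hf), hz, hv, fun χ => ?_,
    hi.comp h.inj, fun i => ⟨(h.ha i).1, (height_infl hf hp hC hB (h.ha i).1).trans (h.ha i).2, h1 _⟩,
    Finset.forall_mem_image.2 fun φ hφ => ⟨(h.hJ φ hφ).1,
      (height_infl hf hp hC hB (h.hJ φ hφ).1).trans (h.hJ φ hφ).2, h1 _⟩, fun χ hχ h5 => ?_,
    by rw [Finset.card_image_of_injective _ hi, h.card], fun g hg => by
      simpa only [Function.comp, h2] using h.rel _ (h4 hg), Finset.forall_mem_image.2 fun φ hφ g hg => by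
      simpa only [Function.comp, h2] using h.relJ φ hφ _ (h4 hg)⟩
  · by_cases e : ∃ φ, infl f hf φ = χ
    · obtain ⟨φ, rfl⟩ := e
      rw [hi.extend_apply]; exact h.sgn φ
    · exact .inl (Function.extend_apply' _ _ _ e)
  · obtain ⟨φ, rfl⟩ := (mem_range_infl hf (χ := χ)).2 fun n hn => by
      rcases h3 hn with rfl | rfl; exacts [rfl, h5]
    rcases h.cover φ hχ with ⟨i, rfl⟩ | e | e
    exacts [.inl ⟨i, rfl⟩, .inr (Finset.mem_image_of_mem _ e), by simp at e]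

theorem ctr_congr {p : ℕ} {θ' φ' : G → ℂ} (h : ∀ g, ¬ p ∣ orderOf g → θ g = θ' g)
    (h' : ∀ g, ¬ p ∣ orderOf g → φ g = φ' g) : ctr p θ φ = ctr p θ' φ' := by
  rw [ctr_eq_inner, ctr_eq_inner, rho_eq_rho_iff.2 h, rho_eq_rho_iff.2 h']

theorem tr_sg_even (hz : CI z) (h : χ.1 z = χ.1 1) : tr z (sg ε χ) = sg ε χ := by
  rw [sg, map_smul, tr_even hz.cen h]

theorem tr_sg_odd (hz : CI z) (h : Od z χ) : tr z (sg ε χ) = -sg ε χ := by
  rw [sg, map_smul, tr_odd hz.cen h, smul_neg]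

namespace EP

variable (h : EP B z v m ε a J)
include h

theorem off (hg : ¬ 2 ∣ orderOf g) : Off v g :=
  h.ci.off h.hv (off_of_reg (Invol.orderOf_two_iff.2 ⟨h.ci.sq, h.ci.ne⟩).symm.dvd hg)

theorem aJ (i) : a i ∉ J := fun e => by simpa [(h.ha i).2.1] using (h.hJ _ e).2.1

theorem ctr_rel (θ : G → ℂ) : ctr 2 θ (sg ε (a 0)) + ctr 2 θ (sg ε (a 1)) =
    ctr 2 θ (sg ε (a 2)) + ctr 2 θ (sg ε (a 3)) := by
  simpa only [ctr, classInner_add_right] using ctr_congr (p := 2) (θ := θ) (φ := _ + _) (φ' := _ + _)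
    (fun _ _ => rfl) fun g hg => h.rel g (h.off hg)

theorem ctr_J (θ : G → ℂ) (hχ : χ ∈ J) :
    ctr 2 θ (sg ε χ) = ctr 2 θ (sg ε (a 0)) + ctr 2 θ (sg ε (a 1)) := by
  rw [ctr_congr (fun _ _ => rfl) (φ' := _ + _) fun g hg => h.relJ χ hχ g (h.off hg), ctr,
    classInner_add_right]; rfl

theorem cast_card : (J.card : ℂ) = 2 ^ m - 1 := by
  rw [eq_sub_iff_add_eq]; exact_mod_cast h.card

theorem pm_eq (hB : IsPBlock M B) (hθ : blockPart B θ = θ) : pm 1 z θ =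
    ∑ i, (2 * ctr 2 θ (sg ε (a i))) • sg ε (a i) +
      (2 * (ctr 2 θ (sg ε (a 0)) + ctr 2 θ (sg ε (a 1)))) • ∑ χ ∈ J, sg ε χ := by
  have h1 := h.ci.bp_pm (σ := 1) hB hθ
  have h2 := h1 ▸ isClassFunction_blockPart B _
  rw [h.sgn.expand h2 (Finset.univ.image a ∪ (J ∪ ∅)) fun χ hχ => ?_,
    sum_cover h.inj h.aJ (by simp) (by simp), Finset.sum_empty, add_zero, Finset.smul_sum]
  · congr 1 <;> refine Finset.sum_congr rfl fun χ hχ => ?_
    · rw [h.ci.inner_even (tr_sg_even h.ci (h.ha _).2.2), one_add_one_eq_two]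
    · rw [h.ci.inner_even (tr_sg_even h.ci (h.hJ _ hχ).2.2), one_add_one_eq_two, h.ctr_J _ hχ]
  by_cases e : χ ∈ B
  · rw [h.ci.inner_odd (tr_odd h.ci.cen ((h.ci.even_or χ).resolve_left fun e' => hχ (by
      simpa using h.cover χ e e'))), sub_self, zero_mul]
  · exact (blockPart_eq_self_iff h2).1 h1 χ e

theorem pm_apply (hB : IsPBlock M B) (hθ : blockPart B θ = θ) (hg : Off v g) : pm 1 z θ g =
    ∑ i, 2 * ctr 2 θ (sg ε (a i)) * sg ε (a i) g + 2 * (ctr 2 θ (sg ε (a 0)) +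
      ctr 2 θ (sg ε (a 1))) * ((2 ^ m - 1) * (sg ε (a 0) g + sg ε (a 1) g)) := by
  rw [h.pm_eq hB hθ, ← h.cast_card]
  simp [Finset.sum_congr rfl fun χ hχ => h.relJ χ hχ g hg, mul_add]

theorem norm (hB : IsPBlock M B) (hψ : ψ ∈ B) : ctr 2 ψ.1 ψ.1 = 2 * ∑ i, ctr 2 ψ.1 (sg ε (a i)) ^ 2 +
    2 * (2 ^ m - 1) * (ctr 2 ψ.1 (sg ε (a 0)) + ctr 2 ψ.1 (sg ε (a 1))) ^ 2 := by
  rw [ctr, ← h.ci.rho_pm (σ := 1), h.pm_eq hB (blockPart_irr_of_mem hψ), map_add, classInner_add_left,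
    ← ctr, ← ctr, ctr_sum_left, ctr_smul_left, ctr_sum_left, ← h.cast_card,
    Finset.sum_congr rfl fun χ hχ => (ctr_comm isGen_sg (irrG ψ)).trans (h.ctr_J _ hχ),
    Finset.sum_congr rfl fun i _ => by rw [ctr_smul_left, ctr_comm isGen_sg (irrG ψ), mul_assoc, ← sq],
    Finset.sum_const, nsmul_eq_mul, ← Finset.mul_sum]
  ring

theorem exists_int (hB : IsPBlock M B) (hd : blockDefect 2 B = m + 3) (hψ : ψ ∈ B) :
    ∃ n : Fin 4 → ℤ, (∀ i, Odd (n i)) ∧ n 0 + n 1 = n 2 + n 3 ∧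
      (∀ i, 8 * 2 ^ m * ctr 2 ψ.1 (sg ε (a i)) = 2 ^ blockHeight 2 B ψ * n i) ∧
      32 * 4 ^ m * ctr 2 ψ.1 ψ.1 =
        4 ^ blockHeight 2 B ψ * (∑ i, n i ^ 2 + (2 ^ m - 1) * (n 0 + n 1) ^ 2 : ℤ) := by
  choose k h1 h2 using fun i => exists_ctr_eq (p := 2) hB hψ (a i)
  have h3 (i) : 8 * 2 ^ m * ctr 2 ψ.1 (sg ε (a i)) = 2 ^ blockHeight 2 B ψ * (ε (a i) * k i : ℤ) := by
    have := h1 i
    rw [hd] at this
    rw [sg, ctr_smul_right, map_intCast]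
    push_cast at this ⊢
    linear_combination ε (a i) * this
  refine ⟨fun i => ε (a i) * k i, fun i => Odd.mul (by rcases h.sgn (a i) with e | e <;> simp [e])
    (Int.not_even_iff_odd.1 (mt even_iff_two_dvd.1 ((h2 i).2 ⟨(h.ha i).1, (h.ha i).2.1⟩))), ?_, h3, ?_⟩
  · have := h.ctr_rel ψ
    have h4 : (2 : ℂ) ^ blockHeight 2 B ψ * (ε (a 0) * k 0 + ε (a 1) * k 1 : ℤ) =
        2 ^ blockHeight 2 B ψ * (ε (a 2) * k 2 + ε (a 3) * k 3 : ℤ) := by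
      rw [Int.cast_add, Int.cast_add]
      linear_combination h3 2 + h3 3 - h3 0 - h3 1 + 8 * 2 ^ m * this
    exact_mod_cast mul_left_cancel₀ (pow_ne_zero _ two_ne_zero) h4
  have h4 (k : ℕ) : (4 : ℂ) ^ k = (2 ^ k) ^ 2 := by rw [← pow_mul, mul_comm, pow_mul]; norm_num
  have h5 (i) := congrArg (· ^ 2) (h3 i)
  have h6 := congrArg (· ^ 2) (congrArg₂ (· + ·) (h3 0) (h3 1))
  rw [h.norm hB hψ, h4, h4, Fin.sum_univ_four, Fin.sum_univ_four]
  push_cast at h5 h6 ⊢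
  linear_combination h5 0 + h5 1 + h5 2 + h5 3 + (2 ^ m - 1) * h6

omit h in
theorem swap (h : EP B z v 0 ε a J) {k : Fin 4} (hk : k = 2 ∨ k = 3) : ∃ ε' a',
    EP B z v 0 ε' a' J ∧ sg ε' (a' 0) = sg ε (a 0) ∧ sg ε' (a' 1) = -sg ε (a k) := by
  obtain rfl : J = ∅ := by simpa using h.card
  refine ⟨fun ψ => if ψ = a 1 ∨ ψ = a k then -ε ψ else ε ψ, a ∘ Equiv.swap 1 k, ⟨h.ci, h.hv,
    fun ψ => ?_, h.inj.comp (Equiv.injective _), fun i => h.ha _, h.hJ, ?_, rfl, fun g hg => ?_,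
    by simp⟩, ?_, ?_⟩
  · have := h.sgn ψ
    split_ifs <;> omega
  · simpa only [(Equiv.surjective _).range_comp] using h.cover
  · have := h.rel g hg
    rcases hk with rfl | rfl <;> simp [sg_apply, Equiv.swap_apply_def, h.inj.eq_iff] at this ⊢ <;>
      linear_combination this
  all_goals rcases hk with rfl | rfl <;> simp [sg, Equiv.swap_apply_def, h.inj.eq_iff]

theorem dich (hB : IsPBlock M B) (hd : blockDefect 2 B = m + 3) (hψ : ψ ∈ B)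
    (h1 : blockHeight 2 B ψ = 1) (h2 : 2 * 2 ^ m * ctr 2 ψ.1 ψ.1 = 1) :
    (m = 0 ∧ ctr 2 ψ.1 (sg ε (a 0)) + ctr 2 ψ.1 (sg ε (a 1)) = 0 ∧ ctr 2 ψ.1 (sg ε (a 0)) ≠ 0) ∨
      ∃ δ : ℤ, (δ = 1 ∨ δ = -1) ∧ ∀ i, 4 * 2 ^ m * ctr 2 ψ.1 (sg ε (a i)) = δ := by
  obtain ⟨n, h3, h4, h5, h6⟩ := h.exists_int hB hd hψ
  rw [h1] at h5 h6
  refine (cen_A (m := m) h3 h4 ?_).imp (fun ⟨e1, e2⟩ => ⟨e1, ?_, fun e => ?_⟩)
    fun ⟨δ, e1, e2⟩ => ⟨δ, e1, fun i => ?_⟩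
  · rw [← Int.cast_inj (α := ℂ)]
    rw [show (4 : ℂ) ^ m = 2 ^ m * 2 ^ m by rw [← mul_pow]; norm_num] at h6
    push_cast at h6 ⊢
    linear_combination 4 * 2 ^ m * h2 - h6 / 4
  · have := congrArg (Int.cast (R := ℂ)) e2
    subst e1
    push_cast at this
    linear_combination (h5 0 + h5 1) / 8 + this / 4
  · simpa [show n 0 = 0 by simpa [e] using h5 0] using h3 0
  · rw [← e2 i]; linear_combination h5 i / 2

theorem norm_J (hB : IsPBlock M B) (hd : blockDefect 2 B = m + 3) (hψ : ψ ∈ B)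
    (h1 : blockHeight 2 B ψ = 1) (h2 : 2 * 2 ^ m * ctr 2 ψ.1 ψ.1 = 1) : ∃ ε a, EP B z v m ε a J ∧
      ∃ δ : ℤ, (δ = 1 ∨ δ = -1) ∧ ∀ i, 4 * 2 ^ m * ctr 2 ψ.1 (sg ε (a i)) = δ := by
  rcases h.dich hB hd hψ h1 h2 with ⟨rfl, e1, e2⟩ | e
  swap; · exact ⟨ε, a, h, e⟩
  obtain ⟨k, hk, e3⟩ : ∃ k, (k = 2 ∨ k = 3) ∧ ctr 2 ψ.1 (sg ε (a 0)) ≠ ctr 2 ψ.1 (sg ε (a k)) := by
    by_contra! e
    exact e2 (by linear_combination (e 2 (.inl rfl) + e 3 (.inr rfl) - h.ctr_rel ψ.1 + e1) / 2)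
  obtain ⟨ε', a', h', e4, e5⟩ := h.swap hk
  refine ⟨ε', a', h', (h'.dich hB hd hψ h1 h2).resolve_left fun e => e3 ?_⟩
  simpa [e4, e5, ctr, classInner_neg_right, ← sub_eq_add_neg, sub_eq_zero] using e.2.1

theorem pm_J (hB : IsPBlock M B) (hψ : ψ ∈ B) {δ : ℤ} (hδ : δ = 1 ∨ δ = -1)
    (h1 : ∀ i, 4 * 2 ^ m * ctr 2 ψ.1 (sg ε (a i)) = δ) (hg : Off v g) :
    δ * pm 1 z ψ.1 g = sg ε (a 0) g + sg ε (a 1) g := by
  have h2 (i) := eq_div_of_mul_eq (by simp) ((mul_comm _ _).trans (h1 i))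
  have := h.rel g hg
  simp only [h.pm_apply hB (blockPart_irr_of_mem hψ) hg, h2, Fin.sum_univ_four]
  rcases hδ with rfl | rfl <;> field_simp <;> push_cast <;> linear_combination -2 * this

theorem norm_K (hB : IsPBlock M B) (hd : blockDefect 2 B = m + 3) (hψ : ψ ∈ B)
    (h1 : 2 * ctr 2 ψ.1 ψ.1 = 1) (h2 : ctr 2 ψ.1 (sg ε (a 0)) + ctr 2 ψ.1 (sg ε (a 1)) = 0) :
    ∃ (δ : ℤ) (k : Fin 4), blockHeight 2 B ψ = m + 1 ∧ (δ = 1 ∨ δ = -1) ∧ (k = 2 ∨ k = 3) ∧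
      (∀ i, i = 2 ∨ i = 3 → k ≠ i → ctr 2 ψ.1 (sg ε (a 0)) = ctr 2 ψ.1 (sg ε (a i))) ∧
      ∀ g, Off v g → δ * pm 1 z ψ.1 g = sg ε (a 0) g - sg ε (a k) g := by
  obtain ⟨n, h3, h4, h5, h6⟩ := h.exists_int hB hd hψ
  have h7 : n 0 + n 1 = 0 := by
    have : (2 : ℂ) ^ blockHeight 2 B ψ * (n 0 + n 1 : ℤ) = 0 := by
      push_cast; linear_combination 8 * 2 ^ m * h2 - h5 0 - h5 1
    exact_mod_cast (mul_eq_zero.1 this).resolve_left (by simp)
  obtain ⟨h8, h9⟩ := cen_B (m := m) (k := blockHeight 2 B ψ) h3 (by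
    rw [← Int.cast_inj (α := ℂ)]
    rw [h7] at h6
    push_cast at h6 ⊢
    linear_combination 16 * 4 ^ m * h1 - h6)
  have h10 (i) : ctr 2 ψ.1 (sg ε (a i)) = n i / 4 := mul_left_cancel₀ (pow_ne_zero m two_ne_zero) (by
    have := h5 i; rw [h8] at this; linear_combination this / 8)
  refine ⟨n 0, if n 2 = n 0 then 3 else 2, h8, h9 0, by split_ifs <;> simp, fun i hi e => ?_,
    fun g hg => ?_⟩
  · have := h9 0; have := h9 2
    rw [h10, h10, show n i = n 0 by rcases hi with rfl | rfl <;> split_ifs at e <;> omega]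
  · have := h.rel g hg
    rw [h.pm_apply hB (blockPart_irr_of_mem hψ) hg, h2]
    simp only [h10, Fin.sum_univ_four, show n 1 = -n 0 by omega, show n 3 = -n 2 by omega]
    rcases h9 0 with e | e <;> rcases h9 2 with e' | e' <;> simp [e, e'] <;>
      linear_combination -this / 2

end EP

end Cfsg.Agent.Tame
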