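import Cfsg.Agent.Block.Exc

/-!
Integral lemmas for tame blocks.
-/

set_option autoImplicit false
set_option linter.unusedSectionVars false

namespace Cfsg.Agent.Tame

open Block

variable {I : Type*} [Fintype I] [DecidableEq I] {d s y : I → ℤ}

theorem exc_diff {R : Type*} [DecidableEq R] {u : R → I → ℤ} {i₀ j₀ : R} (h0 : j₀ ≠ i₀)
    (hd : ∀ i, 0 < d i) (hud : ∀ i, u i ⬝ᵥ d = 0) (hu0 : u i₀ = 0)
    (hu : ∀ j k, j ≠ i₀ → k ≠ i₀ → u j ⬝ᵥ u k = 1 + if j = k then 1 else 0) :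
    ∃ (ζ : R → I) (δ : ℤ), Function.Injective ζ ∧ (δ = 1 ∨ δ = -1) ∧
      ∀ j, u j = Pi.single (ζ j) δ - Pi.single (ζ i₀) δ := by
  have key (j : {j // j ≠ i₀}) := two_vec hd (s := u j) (by simp [hu j j j.2 j.2]) (hud j)
  choose α β h using key
  have h1 (j k) (hjk : j ≠ k) : α j = α k ↔ β j ≠ β k := by
    have := hu j k j.2 k.2
    rw [(h j).2, (h k).2, sub_dotProduct, single_dotProduct, single_dotProduct,
      if_neg (Subtype.coe_ne_coe.2 hjk)] at this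
    have h2 := (h j).1
    have h3 := (h k).1
    simp only [Pi.sub_apply, Pi.single_apply] at this
    split_ifs at this <;> simp_all
  have main : ∃ (δ : ℤ) (c : I) (ε : {j // j ≠ i₀} → I), (δ = 1 ∨ δ = -1) ∧ (∀ j, ε j ≠ c ∧
      u j = Pi.single (ε j) δ - Pi.single c δ) ∧ ∀ j k, j ≠ k → ε j ≠ ε k := by
    by_cases hb : ∀ j k, β j = β k
    · exact ⟨1, β ⟨j₀, h0⟩, α, .inl rfl, fun j => hb j _ ▸ h j,
        fun j k hjk e => (h1 j k hjk).1 e (hb j k)⟩
    push Not at hb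
    obtain ⟨j, k, hjk⟩ := hb
    have h2 := (h1 j k fun e => hjk (by rw [e])).2 hjk
    have h3 (l) : α l = α j := by
      by_contra hc
      exact hjk ((not_not.1 (mt (h1 l j fun e => hc (by rw [e])).2 hc)).symm.trans
        (not_not.1 (mt (h1 l k fun e => hc (by rw [e, h2])).2 (h2 ▸ hc))))
    refine ⟨-1, α j, β, .inr rfl, fun l => ?_, fun l m hlm => (h1 l m hlm).1 ((h3 l).trans (h3 m).symm)⟩
    rw [← h3 l, Pi.single_neg, Pi.single_neg, (h l).2]
    exact ⟨(h l).1.symm, by abel⟩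
  obtain ⟨δ, c, ε, hδ, h2, h3⟩ := main
  refine ⟨fun j => if hj : j = i₀ then c else ε ⟨j, hj⟩, δ, fun j k hjk => ?_, hδ, fun j => ?_⟩
  · by_contra hc
    by_cases hj : j = i₀ <;> by_cases hk : k = i₀ <;> simp only [hj, hk, dite_true, dite_false] at hjk
    exacts [hc (hj.trans hk.symm), (h2 _).1 hjk.symm, (h2 _).1 hjk,
      h3 _ _ (Subtype.coe_ne_coe.1 hc) hjk]
  · by_cases hj : j = i₀
    · simp [hj, hu0]
    · simpa [hj] using (h2 ⟨j, hj⟩).2

theorem four_vec (hd : ∀ i, 0 < d i) (hs : s ⬝ᵥ s = 4) (h0 : s ⬝ᵥ d = 0) (t : I) :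
    s t = 0 ∨ s t = 1 ∨ s t = -1 := by
  have h1 := Finset.add_sum_erase _ (fun i => s i * s i) (Finset.mem_univ t)
  have h2 := Finset.sum_nonneg (s := Finset.univ.erase t) fun i _ => mul_self_nonneg (s i)
  change _ = s ⬝ᵥ s at h1
  by_contra h
  have h3 : 4 ≤ s t * s t := by
    rcases le_or_gt 0 (s t) with e | e
    · nlinarith [show 2 ≤ s t by omega]
    · nlinarith [show s t ≤ -2 by omega]
  have h4 := (Finset.sum_eq_zero_iff_of_nonneg fun i _ => mul_self_nonneg (s i)).1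
    (show ∑ i ∈ Finset.univ.erase t, s i * s i = 0 by omega)
  rw [dotProduct, Finset.sum_eq_single t (fun i _ hi => by
    rw [mul_self_eq_zero.1 (h4 i (by simpa using hi)), zero_mul]) (by simp), mul_eq_zero] at h0
  have := hd t
  omega

theorem half (hs : ∀ t, s t = 0 ∨ s t = 1 ∨ s t = -1) (h : y ⬝ᵥ y = y ⬝ᵥ s + 1) :
    ∃ η, s η = 0 ∧ (y η = 1 ∨ y η = -1) ∧ ∀ t ≠ η, y t = 0 ∨ y t = s t := by
  have h1 (t) : 0 ≤ y t * (y t - s t) := by
    rcases lt_trichotomy (y t) 0 with e | e | e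
    · exact mul_nonneg_of_nonpos_of_nonpos e.le (by have := hs t; omega)
    · simp [e]
    · exact mul_nonneg e.le (by have := hs t; omega)
  have h2 : ∑ t, y t * (y t - s t) = 1 := by
    simp only [mul_sub, Finset.sum_sub_distrib]
    exact sub_eq_of_eq_add' h
  obtain ⟨η, -, h3⟩ := Finset.exists_ne_zero_of_sum_ne_zero (h2 ▸ one_ne_zero)
  rw [← Finset.add_sum_erase _ _ (Finset.mem_univ η)] at h2
  have h4 := Finset.sum_nonneg (s := Finset.univ.erase η) fun t _ => h1 t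
  have h5 := h1 η
  have h6 := Int.eq_one_or_neg_one_of_mul_eq_one' (show y η * (y η - s η) = 1 by omega)
  refine ⟨η, by omega, by omega, fun t ht => ?_⟩
  have := (Finset.sum_eq_zero_iff_of_nonneg fun t _ => h1 t).1
    (show ∑ t ∈ Finset.univ.erase η, _ = 0 by omega) t (by simpa using ht)
  rwa [mul_eq_zero, sub_eq_zero] at this

theorem dot_eq_card (hs : ∀ t, s t = 0 ∨ s t = 1 ∨ s t = -1) (h : ∀ t, s t ≠ 0 → y t = 0 ∨ y t = s t) :
    y ⬝ᵥ s = (Finset.univ.filter fun t => s t ≠ 0 ∧ y t ≠ 0).card := by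
  rw [← Finset.sum_boole]
  refine Finset.sum_congr rfl fun t _ => ?_
  rcases hs t with e | e | e
  · simp [e]
  all_goals rcases h t (by omega) with e' | e' <;> simp [e, e']

theorem tr_int {ι κ : Type*} [Nonempty ι] {y : ι → I → ℤ} {x : κ → I → ℤ} (hd : ∀ i, 0 < d i)
    (hs : s ⬝ᵥ s = 4) (hsd : s ⬝ᵥ d = 0) (hy : ∀ j, y j ⬝ᵥ y j = 3) (hys : ∀ j, y j ⬝ᵥ s = 2)
    (hyd : ∀ j, y j ⬝ᵥ d = 0) (hyy : ∀ i j, i ≠ j → y i ⬝ᵥ y j = 2)
    (hR : ∀ i j t, s t ≠ 0 → y i t = y j t) (hx : ∀ k, x k ⬝ᵥ x k = 3) (hxs : ∀ k, x k ⬝ᵥ s = -2)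
    (hxd : ∀ k, x k ⬝ᵥ d = 0) (hxy : ∀ k j, x k ⬝ᵥ y j = -1) (hxx : ∀ k l, k ≠ l → x k ⬝ᵥ x l = 1) :
    ∃ (ε : I → ℤ) (a : Fin 4 → I) (η : ι → I) (ζ : κ → I), (∀ t, ε t = 1 ∨ ε t = -1) ∧
      Function.Injective (Sum.elim a (Sum.elim η ζ)) ∧
      s = Pi.single (a 0) (ε (a 0)) + Pi.single (a 1) (ε (a 1)) - Pi.single (a 2) (ε (a 2)) -
        Pi.single (a 3) (ε (a 3)) ∧
      (∀ j, y j = Pi.single (a 0) (ε (a 0)) + Pi.single (a 1) (ε (a 1)) - Pi.single (η j) (ε (η j))) ∧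
      ∀ k, x k = Pi.single (ζ k) (ε (ζ k)) + ∑ i, Pi.single (a i) (x k (a i)) := by
  classical
  have h1 := four_vec hd hs hsd
  choose η h2 h3 h4 using fun j => half h1 (y := y j) (by rw [hy, hys]; rfl)
  choose ζ h5 h6 h7 using fun k => half h1 (y := -x k) (by simp [hx, hxs])
  obtain ⟨j₀⟩ := ‹Nonempty ι›
  have h8 {t} (ht : s t ≠ 0) (j) : t ≠ η j := fun e => ht (e ▸ h2 j)
  obtain ⟨a0, a1, h01, e0⟩ := Finset.card_eq_two.1 (Int.natCast_inj.1
    ((dot_eq_card h1 fun t ht => h4 j₀ t (h8 ht _)).symm.trans (hys j₀)))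
  obtain ⟨a2, a3, h23, e2⟩ := Finset.card_eq_two.1 (Int.natCast_inj.1
    ((dot_eq_card h1 (y := s - y j₀) fun t ht => by
      have := h4 j₀ t (h8 ht _); simp only [Pi.sub_apply]; omega).symm.trans
      (show _ = ((2 : ℕ) : ℤ) by simp [hs, hys])))
  simp only [Finset.ext_iff, Finset.mem_filter, Finset.mem_univ, true_and, Finset.mem_insert,
    Finset.mem_singleton, Pi.sub_apply] at e0 e2
  have g0 := (e0 a0).2 (.inl rfl)
  have g1 := (e0 a1).2 (.inr rfl)
  have g2 := (e2 a2).2 (.inl rfl)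
  have g3 := (e2 a3).2 (.inr rfl)
  have k0 := h4 j₀ a0 (h8 g0.1 _)
  have k1 := h4 j₀ a1 (h8 g1.1 _)
  have k2 := h4 j₀ a2 (h8 g2.1 _)
  have k3 := h4 j₀ a3 (h8 g3.1 _)
  have n {b c} (hb : y j₀ b ≠ 0) (hc : y j₀ c = 0) : b ≠ c := fun e => hb (e ▸ hc)
  have ha : Function.Injective ![a0, a1, a2, a3] := by
    have := n g0.2 (c := a2) (by omega)
    have := n g0.2 (c := a3) (by omega)
    have := n g1.2 (c := a2) (by omega)
    have := n g1.2 (c := a3) (by omega)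
    intro i j
    fin_cases i <;> fin_cases j <;> simp [*, eq_comm]
  have hsa (i) : s (![a0, a1, a2, a3] i) ≠ 0 := by fin_cases i; exacts [g0.1, g1.1, g2.1, g3.1]
  have hs0 {t} (ht : ∀ i, ![a0, a1, a2, a3] i ≠ t) : s t = 0 := by
    by_contra h
    rcases h4 j₀ t (h8 h _) with e | e
    · rcases (e2 t).1 ⟨h, by omega⟩ with rfl | rfl; exacts [ht 2 rfl, ht 3 rfl]
    · rcases (e0 t).1 ⟨h, by omega⟩ with rfl | rfl; exacts [ht 0 rfl, ht 1 rfl]
  have c {u w : I → ℤ} := dotProduct_comm u w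
  have hη : Function.Injective η := fun i j e => by_contra fun h => by
    have h9 (t) (ht : t ≠ η i) : y i t = y j t := by
      by_cases h0 : s t = 0
      · have := h4 i t ht; have := h4 j t (e ▸ ht); omega
      · exact hR i j t h0
    have : (y i - y j) ⬝ᵥ (y i - y j) = 2 := by
      simp [sub_dotProduct, dotProduct_sub, hy, hyy i j h, hyy j i (Ne.symm h)]
    rw [dotProduct, Finset.sum_eq_single (η i) (fun t _ ht => by simp [h9 t ht]) (by simp)] at this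
    rcases h3 i with e1 | e1 <;> rcases h3 j with e2 | e2 <;> simp [e1, e ▸ e2] at this
  have hζ : Function.Injective ζ := fun k l e => by_contra fun h => by
    have := four_vec hd (s := x k - x l) (by
      simp [sub_dotProduct, dotProduct_sub, hx, hxx k l h, hxx l k (Ne.symm h)]) (by simp [hxd]) (ζ l)
    have := four_vec hd (s := x k + x l + s) (by
      simp [add_dotProduct, dotProduct_add, hx, hxx k l h, hxx l k (Ne.symm h), hs, hxs, c (u := s)])
      (by simp [hxd, hsd]) (ζ l)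
    have := h6 k; have := h6 l; have := h5 l
    simp only [e, Pi.sub_apply, Pi.add_apply, Pi.neg_apply] at *
    omega
  have hηζ (j k) : η j ≠ ζ k := fun e => by
    have := four_vec hd (s := x k + y j) (by
      simp [add_dotProduct, dotProduct_add, hx, hy, hxy, c (u := y j)]) (by simp [hxd, hyd]) (ζ k)
    have := four_vec hd (s := y j - x k - s) (by
      simp [sub_dotProduct, dotProduct_sub, hx, hy, hxy, hs, hxs, hys, c (u := y j) (w := x k),
        c (u := s) (w := x k), c (u := s) (w := y j)]) (by simp [hxd, hyd, hsd]) (ζ k)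
    have := h6 k; have := h3 j; have := h5 k
    simp only [e, Pi.sub_apply, Pi.add_apply, Pi.neg_apply] at *
    omega
  have hf : Function.Injective (Sum.elim ![a0, a1, a2, a3] (Sum.elim η ζ)) :=
    ha.sumElim (hη.sumElim hζ hηζ) (by
      rintro i (j | k) e
      exacts [hsa i (e ▸ h2 j), hsa i (e ▸ h5 k)])
  obtain ⟨ε, hε, he⟩ : ∃ ε : I → ℤ, (∀ t, ε t = 1 ∨ ε t = -1) ∧ ∀ i, ε (Sum.elim ![a0, a1, a2, a3]
      (Sum.elim η ζ) i) = Sum.elim ![s a0, s a1, -s a2, -s a3]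
        (Sum.elim (fun j => -y j (η j)) fun k => x k (ζ k)) i := by
    refine ⟨_, fun t => ?_, hf.extend_apply _ fun _ => 1⟩
    by_cases h : ∃ i, Sum.elim ![a0, a1, a2, a3] (Sum.elim η ζ) i = t
    · obtain ⟨i, rfl⟩ := h
      rw [hf.extend_apply]
      have := h1 a0; have := h1 a1; have := h1 a2; have := h1 a3
      rcases i with i | j | k
      · fin_cases i <;> simp <;> omega
      · have := h3 j; simp; omega
      · have := h6 k; simp at this ⊢; omega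
    · exact .inl (Function.extend_apply' _ _ _ h)
  have m0 : ε a0 = s a0 := he (.inl 0)
  have m1 : ε a1 = s a1 := he (.inl 1)
  have m2 : ε a2 = -s a2 := he (.inl 2)
  have m3 : ε a3 = -s a3 := he (.inl 3)
  have key {w : I → ℤ} {b} (hb : s b = 0) (h : ∀ t ≠ b, s t = 0 → w t = 0) :
      w = Pi.single b (w b) + ∑ i, Pi.single (![a0, a1, a2, a3] i) (w (![a0, a1, a2, a3] i)) := by
    ext t
    rw [Pi.add_apply, Finset.sum_apply]
    by_cases ht : ∃ i, ![a0, a1, a2, a3] i = t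
    · obtain ⟨i, rfl⟩ := ht
      rw [Pi.single_eq_of_ne fun e => hsa i (by rw [e, hb]), Finset.sum_eq_single i
        (fun j _ hj => Pi.single_eq_of_ne (ha.ne hj.symm) _) (by simp), Pi.single_eq_same, zero_add]
    push Not at ht
    rw [Finset.sum_eq_zero fun i _ => Pi.single_eq_of_ne (ht i).symm _, add_zero]
    by_cases e : t = b
    · simp [e]
    · rw [h t e (hs0 ht), Pi.single_eq_of_ne e]
  refine ⟨ε, _, η, ζ, hε, hf, ?_, fun j => ?_, fun k => ?_⟩
  · rw [key (h2 j₀) fun _ _ => id]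
    simp [Fin.sum_univ_four, h2, m0, m1, m2, m3, Pi.single_neg]
  · rw [key (w := y j) (h2 j) fun t ht h => by have := h4 j t ht; omega]
    simp [Fin.sum_univ_four, m0, m1, show ε (η j) = _ from he (.inr (.inl j)), Pi.single_neg,
      hR j j₀ _ g0.1, hR j j₀ _ g1.1, hR j j₀ _ g2.1, hR j j₀ _ g3.1, k0.resolve_left g0.2,
      k1.resolve_left g1.2, show y j₀ a2 = 0 by omega, show y j₀ a3 = 0 by omega, add_comm]
  · rw [show ε (ζ k) = _ from he (.inr (.inr k))]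
    exact key (h5 k) fun t ht h => by have := h7 k t ht; simp only [Pi.neg_apply] at this; omega

theorem sum_sq_mod {n : Fin 4 → ℤ} (h : ∀ i, Odd (n i)) : (∑ i, n i ^ 2) % 8 = 4 := by
  have h1 := fun i => Int.eight_dvd_sq_sub_one_of_odd (h i)
  have := h1 0; have := h1 1; have := h1 2; have := h1 3
  rw [Fin.sum_univ_four]; omega

theorem pm_of_sum {n : Fin 4 → ℤ} (h : ∀ i, Odd (n i)) (h1 : ∑ i, n i ^ 2 ≤ 4) (i) :
    n i = 1 ∨ n i = -1 := by
  have h2 (i) : 1 ≤ n i ^ 2 :=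
    (one_le_sq_iff_one_le_abs _).2 (Int.one_le_abs fun e => by simpa [e] using h i)
  exact sq_eq_one_iff.1 ((Finset.sum_eq_sum_iff_of_le (f := fun _ => (1 : ℤ)) fun i _ => h2 i).1
    (le_antisymm (Finset.sum_le_sum fun i _ => h2 i) (h1.trans (by simp))) i (by simp)).symm

theorem cen_A {n : Fin 4 → ℤ} {m : ℕ} (h : ∀ i, Odd (n i)) (h1 : n 0 + n 1 = n 2 + n 3)
    (h2 : ∑ i, n i ^ 2 + (2 ^ m - 1) * (n 0 + n 1) ^ 2 = 2 ^ (m + 2)) :
    (m = 0 ∧ n 0 + n 1 = 0) ∨ ∃ δ, (δ = 1 ∨ δ = -1) ∧ ∀ i, n i = δ := by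
  by_cases h0 : n 0 + n 1 = 0
  · refine .inl ⟨by_contra fun hm => ?_, h0⟩
    obtain ⟨m, rfl⟩ := Nat.exists_eq_succ_of_ne_zero hm
    have := sum_sq_mod h
    rw [h0, pow_add, pow_succ] at h2
    omega
  have h3 : 4 ≤ (n 0 + n 1) ^ 2 := by
    obtain ⟨k, hk⟩ := (h 0).add_odd (h 1)
    rw [hk] at h0 ⊢
    nlinarith [(one_le_sq_iff_one_le_abs k).2 (Int.one_le_abs (by omega))]
  have h4 := pm_of_sum h (by nlinarith [one_le_pow₀ (one_le_two (α := ℤ)) (n := m), pow_add (2 : ℤ) m 2])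
  refine .inr ⟨n 0, h4 0, fun i => ?_⟩
  have := h4 0; have := h4 1; have := h4 2; have := h4 3
  fin_cases i <;> simp <;> omega

theorem cen_B {n : Fin 4 → ℤ} {m k : ℕ} (h : ∀ i, Odd (n i))
    (h2 : 4 ^ k * ∑ i, n i ^ 2 = 4 ^ (m + 2)) : k = m + 1 ∧ ∀ i, n i = 1 ∨ n i = -1 := by
  have h3 := sum_sq_mod h
  obtain ⟨j, hj⟩ : ∃ j, ∑ i, n i ^ 2 = 4 * (2 * j + 1) := ⟨(∑ i, n i ^ 2) / 8, by omega⟩
  have h4 : k = m + 1 := by
    rw [hj, ← mul_assoc, ← pow_succ] at h2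
    rcases lt_trichotomy k (m + 1) with e | e | e
    · obtain ⟨c, hc⟩ := Nat.exists_eq_add_of_lt e
      rw [show m + 2 = k + 1 + (c + 1) by omega, pow_add _ (k + 1), pow_succ _ c] at h2
      have := mul_left_cancel₀ (by positivity) h2
      omega
    · exact e
    · obtain ⟨c, rfl⟩ := Nat.exists_eq_add_of_lt e
      rw [show m + 1 + c + 1 + 1 = m + 2 + (c + 1) by omega, pow_add, mul_assoc, pow_succ _ c,
        mul_eq_left₀ (by positivity), mul_right_comm] at h2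
      omega
  refine ⟨h4, pm_of_sum h ?_⟩
  rw [h4, pow_succ _ (m + 1)] at h2
  exact (mul_left_cancel₀ (by positivity) h2).le

end Cfsg.Agent.Tame
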