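import Cfsg.Agent.Block.TameCen

/-!
Tame blocks: comparing `B` with the block `b_z` of `C(z)`; heights.
-/

set_option autoImplicit false
set_option linter.unusedSectionVars false

namespace Cfsg.Agent.Tame

open MonoidAlgebra Transfer Block BMod Cfsg.Agent.Char CharDeep Module
open scoped ComplexConjugate Classical

variable {M : Ideal AlgInt} [PMod 2 M] {G : Type*} [Group G] [Fintype G] {H : Subgroup G} [Fintype H]
variable {B : Set (IrrCharacter G)} {b : Set (IrrCharacter H)} {z : H} {m : ℕ}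
  {α β : IrrCharacter G} {χ ψ : IrrCharacter H} {ε : IrrCharacter H → ℤ} {a : Fin 4 → IrrCharacter H}
  {J K : Finset (IrrCharacter H)} {κ : IrrCharacter H → Fin 4} {f : H → ℂ}

local notation "𝐙" => Subgroup.zpowers

variable (G) in
/-- the sum of all square roots of `1` -/
noncomputable def rt : ℂ[G] := ofFun fun g => if g * g = 1 then 1 else 0

theorem rt_cen : rt G ∈ Cen ℂ G := ofFun_mem_center fun g h => by simp [conj_mul]
theorem rt_O : rt G ∈ OG M G := ofFun_mem_OG fun g => by split_ifs <;> simp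
theorem resA_rt : resA H (rt G) = rt H := by ext h; simp [coeff_resA, rt, Subtype.ext_iff]

theorem ev_rt (θ : G → ℂ) : ev θ (rt G) = ∑ g with g * g = 1, θ g := by
  simp [rt, ev_ofFun, Finset.sum_filter]

theorem ev_ind_rt (hs : IsSub 2 H z) (hz : z * z = 1) (hf : On H z f) :
    ev (indFun H f) (rt G * rt G) = H.index * ev f (rt H * rt H) := by
  rw [ev_indFun H f (mul_mem rt_cen rt_cen), ev_eq_sum, ev_eq_sum]
  refine congrArg _ (Finset.sum_congr rfl fun h _ => ?_)
  by_cases hh : (z : G) ∈ 𝐙 (h : G)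
  swap; · simp [hf h hh]
  obtain ⟨k, hk⟩ := Subgroup.mem_zpowers_iff.1 hh
  rw [coeff_resA, coeff_mul_apply_left, coeff_mul_apply_left, Finsupp.sum_fintype _ _ (by simp),
    Finsupp.sum_fintype _ _ (by simp), ← Finset.sum_subset (Finset.univ.filter (· ∈ H)).subset_univ,
    Finset.sum_subtype _ (p := (· ∈ H)) (F := ‹_›) (by simp)]
  · simp [rt, Subtype.ext_iff]
  intro g _ hg
  simp only [rt, coeff_ofFun, mul_ite, mul_one, mul_zero, ite_eq_right_iff, one_ne_zero,
    Finset.mem_filter, Finset.mem_univ, true_and] at hg ⊢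
  refine fun h1 h2 => hg (hs.mem_iff.2 (mul_inv_eq_iff_eq_mul.1 ?_))
  have h3 : g * h * g⁻¹ = (h : G)⁻¹ := by
    rw [eq_inv_iff_mul_eq_one, ← h1, inv_eq_of_mul_eq_one_right h2]; group
  rw [← hk, ← conj_zpow, h3, inv_zpow, hk]
  exact inv_eq_of_mul_eq_one_right (congrArg Subtype.val hz)

theorem trick (hs : IsSub 2 H z) (hz : CI z) (hi : IsInducedBlock M H b B)
    (hd : blockDefect 2 b = blockDefect 2 B) (hε : Sgn ε) (hχ : χ ∈ b) (h1 : Od z χ)
    (h2 : ψ.1 z = ψ.1 1) (hf : On H z (sg ε χ - sg ε ψ)) {δ : ℤ} (hδ : δ = 1 ∨ δ = -1)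
    (h : indFun H (sg ε χ - sg ε ψ) = (δ : ℂ) • (α.1 - β.1)) (hα : α ∈ B) :
    blockHeight 2 B α = blockHeight 2 b χ := by
  have h3 : sg ε ψ 1 = sg ε χ 1 := (sub_eq_zero.1 (hf 1 (by simpa using hz.ne))).symm
  have h4 : om χ.1 (rt H) = 0 := by
    rw [om_apply, ev_rt, Finset.sum_involution (fun g _ => z * g) (fun g _ => by
      simp [show χ.1 (z * g) = _ from congrFun (tr_odd hz.cen h1) g]) (fun g _ _ => by simp [hz.ne])
      (fun g hg => by
        simpa [mul_assoc, ← mul_assoc g z, Subgroup.mem_center_iff.1 hz.cen g, ← mul_assoc z z, hz.sq]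
          using hg) fun g _ => by simp [← mul_assoc, hz.sq], zero_div]
  have h5 : ev (sg ε χ - sg ε ψ) (rt H) = -2 * sg ε χ 1 := by
    rw [ev_rt, Finset.sum_eq_single z (fun g hg e => hf g fun e' => ?_) (by simp [hz.sq])]
    · rw [Pi.sub_apply, sg_apply, sg_apply, h1, h2, ← sg_apply (χ := ψ), h3, sg_apply]; ring
    obtain ⟨k, hk⟩ := Subgroup.mem_zpowers_iff.1 e'
    have h6 : (g : G) ^ (2 : ℤ) = 1 := by
      rw [zpow_two]; exact congrArg Subtype.val (show g * g = 1 by simpa using hg)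
    rcases Int.even_or_odd' k with ⟨j, rfl | rfl⟩
    · exact hz.ne (Subtype.ext (by simpa [zpow_mul, h6] using hk.symm))
    · exact e (Subtype.ext (by simpa [zpow_add, zpow_mul, h6] using hk))
  have h7 := ev_indFun H (sg ε χ - sg ε ψ) rt_cen
  have h8 := ev_ind_rt hs hz.sq hf
  have h9 : α.1 1 = β.1 1 := by
    have := congrFun h 1
    rw [indFun_one, Pi.sub_apply, h3, sub_self, mul_zero, eq_comm] at this
    exact sub_eq_zero.1 ((mul_eq_zero.1 this).resolve_left (by rcases hδ with rfl | rfl <;> simp))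
  rw [resA_rt, h5, h] at h7
  rw [h] at h8
  simp only [sg, ev_sub_left, ev_smul_left, ev_eq_om_mul α.2.apply_one_ne_zero,
    ev_eq_om_mul β.2.apply_one_ne_zero, ev_eq_om_mul χ.2.apply_one_ne_zero,
    ev_eq_om_mul ψ.2.apply_one_ne_zero, om_mul α.2 rt_cen, om_mul β.2 rt_cen, om_mul χ.2 rt_cen,
    om_mul ψ.2 rt_cen, h4, ← h9, Pi.smul_apply, smul_eq_mul] at h3 h5 h7 h8
  have h10 := mul_ne_zero (hε.ne χ) χ.2.apply_one_ne_zero
  have h11 : om ψ.1 (rt H) = 2 := mul_left_cancel₀ h10 (by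
    linear_combination -h5 - om ψ.1 (rt H) * h3)
  have h12 : om α.1 (rt G) + om β.1 (rt G) = 2 := mul_left_cancel₀ (mul_ne_zero h10
    (Nat.cast_ne_zero.2 (H.index_ne_zero_of_finite))) (by
      rw [h11] at h8
      linear_combination ((om α.1 (rt G) + om β.1 (rt G)) * h7 - h8) / 2 + 2 * H.index * h3)
  have h13 : red M (om α.1 (rt G)) = 0 := by
    rw [← lam_redA α.2 rt_cen rt_O, ← IsInducedBlock.lamS_eq hi hχ hα (redA_mem_center rt_cen),
      lamS_redA χ (center_mem_fix rt_cen H) rt_O, resA_rt, h4, red_zero]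
  have h14 : ((H.index * charDegree χ.1 : ℕ) : ℂ) / (charDegree α.1 : ℕ) =
      (δ * ε χ : ℤ) * (1 - om α.1 (rt G)) := by
    rw [← α.2.apply_one_eq_charDegree, div_eq_iff α.2.apply_one_ne_zero, Nat.cast_mul,
      ← χ.2.apply_one_eq_charDegree]
    push_cast
    linear_combination ε χ / 2 * h7 - H.index * χ.1 1 * hε.sq χ + δ * ε χ * α.1 1 / 2 * h12
  have h15 := (red_natCast_div_ne_zero_iff (M := M) (mul_ne_zero H.index_ne_zero_of_finite
    χ.2.charDegree_pos.ne') α.2.charDegree_pos.ne').1 (by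
      have := om_mem_O (M := M) α.2 rt_cen rt_O
      rw [h14, red_mul (intCast_mem _ _) (sub_mem (one_mem _) this), red_sub (one_mem _) this, h13,
        red_intCast]
      rcases hδ with rfl | rfl <;> rcases hε χ with e | e <;> simp [e])
  have h16 := deg_add_defect 2 hα
  have h17 := deg_add_defect 2 hχ
  rw [← H.index_mul_card, h15, Nat.factorization_mul H.index_ne_zero_of_finite χ.2.charDegree_pos.ne',
    Nat.factorization_mul H.index_ne_zero_of_finite Nat.card_pos.ne', Finsupp.add_apply,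
    Finsupp.add_apply] at h16
  omega

theorem pow_mul_inj {p : ℕ} {M : Ideal AlgInt} [PMod p M] {i j : ℕ} {u w : ℂ} (hu : red M u ≠ 0)
    (hw : red M w ≠ 0) (h : (p : ℂ) ^ i * u = (p : ℂ) ^ j * w) : i = j := by
  wlog e : i < j generalizing i j u w
  · exact (eq_or_lt_of_not_gt e).elim Eq.symm fun e => (this hw hu h.symm e).symm
  obtain ⟨k, rfl⟩ := Nat.exists_eq_add_of_lt e
  rw [add_assoc, pow_add, mul_assoc, mul_right_inj' (pow_ne_zero _ (natCast_p_ne_zero M))] at h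
  simp [h, red_mul (pow_mem (natCast_mem _ _) _) (mem_O_of_red_ne_zero hw), red_pow (natCast_mem _ _),
    red_p] at hu

theorem height_eq (hs : IsSub 2 H z) (hz : CI z) (hi : IsInducedBlock M H b B)
    (hd : blockDefect 2 b = blockDefect 2 B) (hα : α ∈ B) (hχ : χ ∈ b) {τ : ℤ} (hτ : τ = 1 ∨ τ = -1)
    (h : ∀ c, ¬ 2 ∣ orderOf c → blockPart b (fun k : H => α.1 k) (z * c) = τ * χ.1 (z * c)) :
    blockHeight 2 B α = blockHeight 2 b χ := by
  obtain ⟨β, hβ, h0⟩ := exists_height_zero 2 (IsPBlock.nonempty hi.2.1)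
  obtain ⟨w, -, h1, h2⟩ := hs.exists_mm_major hi hd hβ hα
  have h3 : IsGeneralizedCharacter H (blockPart b (sh z β.1)) := by
    rw [hs.blockPart_sh _ (irrC β)]; exact isGen_tr hz.cen hz.sq (isGen_bp_res _ (irrG β))
  obtain ⟨k, h4, h5⟩ := exists_ctr_eq' (p := 2) (M := M) hχ h3
  have h6 := (red_pow_mul_ctr_ne_zero_iff hi.1 hχ h3 (blockPart_blockPart_self _ _) h3).1
    ((hs.red_mm_ne_zero_iff hi β β).2 ⟨⟨hβ, h0⟩, hβ, h0⟩)
  obtain ⟨σ, hσ, h7⟩ : ∃ σ : ℤ, (σ = 1 ∨ σ = -1) ∧ tr z χ.1 = (σ : ℂ) • χ.1 := by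
    rcases hz.even_or χ with e | e
    exacts [⟨1, .inl rfl, by simp [tr_even hz.cen e]⟩, ⟨-1, .inr rfl, by simp [tr_odd hz.cen e]⟩]
  rw [mm, ctr_congr (φ' := ((τ * σ : ℤ) : ℂ) • χ.1) (fun _ _ => rfl) fun c hc => by
    rw [hs.blockPart_sh _ (irrC α), tr_apply, h c hc, show χ.1 (z * c) = _ from congrFun h7 c]
    simp [mul_assoc], ctr_smul_right, map_intCast, ctr_comm h3 (irrG χ), mul_left_comm, ← hd, h4,
    mul_left_comm, ← Int.cast_mul] at h1
  refine (pow_mul_inj ?_ (h2.2 h0) h1).symm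
  have := h5.2 h6.1
  rw [red_intCast, Ne, intCast_F_eq_zero_iff (p := 2)]
  rcases hτ with rfl | rfl <;> rcases hσ with rfl | rfl <;> simpa using this

namespace Sh

variable {G : Type*} [Group G] [Fintype G] {B : Set (IrrCharacter G)} {z c : G} {θ : G → ℂ}
  {ε : IrrCharacter G → ℤ} {a : Fin 4 → IrrCharacter G} {J K : Finset (IrrCharacter G)}
  {κ : IrrCharacter G → Fin 4} (h : Sh B z m ε a J K κ)
include h

theorem off (hc : ¬ 2 ∣ orderOf c) : Off z c :=
  off_of_reg (Invol.orderOf_two_iff.2 ⟨h.ci.sq, h.ci.ne⟩).symm.dvd hc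

theorem zsec (hθ : blockPart B θ = θ)
    (h1 : classInner θ (sg ε (a 0) + sg ε (a 1) - sg ε (a 2) - sg ε (a 3)) = 0)
    (h2 : ∀ χ ∈ J, classInner θ (sg ε (a 0) + sg ε (a 1) - sg ε χ) = 0)
    (h3 : ∀ ξ ∈ K, classInner θ (sg ε ξ - sg ε (a 0) + sg ε (a (κ ξ))) = 0) (hc : ¬ 2 ∣ orderOf c) :
    θ (z * c) = 0 := by
  simp only [classInner_add_right, classInner_sub_right] at h1 h2 h3
  have e1 (i) : sg ε (a i) (z * c) = sg ε (a i) c := congrFun (tr_sg_even h.ci (h.even i)) c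
  have e2 : ∑ χ ∈ J, (if Od z χ then (-1 : ℂ) else 1) = -1 := by
    have h4 := J.card_filter_add_card_filter_not (Od z)
    have h5 := h.card
    rw [Finset.sum_ite, Finset.sum_const, Finset.sum_const, h.cardJ,
      show 2 ^ m = (J.filter (¬ Od z ·)).card + 1 by rw [h.cardJ] at h4; omega]
    simp
  have e3 := Finset.sum_subset (s₁ := K.image κ) (s₂ := {2, 3}) (f := fun i => (classInner θ (sg ε (a 0)) -
    classInner θ (sg ε (a i))) * (sg ε (a 0) c - sg ε (a i) c))
    (by simpa [Finset.image_subset_iff] using h.hκ) fun i hi hi' => by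
      rw [h.miss i (by simpa using hi) (by simpa using hi') c hc, sub_self, mul_zero]
  rw [Finset.sum_image h.κinj, Finset.sum_pair (by decide)] at e3
  have e4 := h.rel c (h.off hc)
  rw [h.expand hθ]
  simp only [Pi.add_apply, Finset.sum_apply, Pi.smul_apply, smul_eq_mul, e1, Fin.sum_univ_four]
  rw [Finset.sum_congr (s₁ := J) rfl (g := fun χ => (classInner θ (sg ε (a 0)) +
      classInner θ (sg ε (a 1))) * (sg ε (a 0) c + sg ε (a 1) c) * if Od z χ then -1 else 1)
      fun χ hχ => ?_, ← Finset.mul_sum, e2, Finset.sum_congr (s₁ := K) rfl fun ξ hξ => ?_,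
    Finset.sum_neg_distrib, e3]
  · linear_combination -classInner θ (sg ε (a 0)) * e4 - sg ε (a 0) c * h1
  · rw [← h.relK' ξ hξ c (h.off hc), show sg ε ξ (z * c) = _ from
      congrFun (tr_sg_odd h.ci (h.odd ξ hξ)) c, Pi.neg_apply]
    linear_combination -sg ε ξ c * h3 ξ hξ
  · rw [← h.relJ χ hχ c (h.off hc), sub_eq_zero.1 (h2 χ hχ), mul_assoc]
    split_ifs with e
    · simp [show sg ε χ (z * c) = _ from congrFun (tr_sg_odd h.ci e) c]
    · simp [show sg ε χ (z * c) = _ from congrFun (tr_sg_even h.ci ((h.ci.even_or χ).resolve_right e)) c]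

theorem odd_iff (hB : IsPBlock M B) (hθ : IsGeneralizedCharacter G θ) (hθ' : blockPart B θ = θ) {n : ℤ}
    (h1 : classInner θ (sg ε (a 0) + sg ε (a 1) - sg ε (a 2) - sg ε (a 3)) = n) :
    lam M (a 0) (redA M (zc 2 θ)) ≠ 0 ↔ Odd n := by
  obtain ⟨k, h2, h3⟩ := exists_ctr_eq' (p := 2) (M := M) (h.ha 0).1 hθ
  obtain ⟨c, h4, -⟩ := hθ.exists_int_coeff
  choose l h5 h6 using exists_ctr_eq (p := 2) hB (h.ha 0).1
  have h7 (χ) : ((2 : ℕ) : ℂ) ^ blockDefect 2 B * ctr 2 (a 0).1 (classInner θ (sg ε χ) • sg ε χ) =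
      (c χ * l χ : ℤ) := by
    rw [inner_sg_right, h4, sg, smul_smul, mul_right_comm, h.sgn.sq, one_mul, ctr_smul_right,
      map_intCast, mul_left_comm, h5, (h.ha 0).2]
    simp
  rw [h.expand hθ', ctr, classInner_add_right, classInner_add_right, ← ctr, ← ctr, ← ctr, ctr_sum_right,
    ctr_sum_right, ctr_sum_right, mul_add, mul_add, Finset.mul_sum, Finset.mul_sum, Finset.mul_sum,
    (h.ha 0).2] at h2
  simp only [h7, pow_zero, one_mul] at h2
  simp only [classInner_add_right, classInner_sub_right, inner_sg_right, h4] at h1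
  have h8 {χ} (hχ : blockHeight 2 B χ.1 ≠ 0) : Even (c χ * l χ) :=
    (even_iff_two_dvd.2 (not_not.1 fun e => hχ ((h6 χ).1 e).2)).mul_left _
  have h9 (i) : Odd (l (a i)) := Int.not_even_iff_odd.1 (mt even_iff_two_dvd.1 ((h6 _).2 (h.ha i)))
  have h10 (i) : Odd (ε (a i)) := by rcases h.sgn (a i) with e | e <;> simp [e]
  have e1 := Finset.even_sum (s := J) _ fun χ hχ => h8 (χ := χ) (by simp [(h.hJ χ hχ).2])
  have e2 := Finset.even_sum (s := K) _ fun χ hχ => h8 (χ := χ) (by simp [(h.hK χ hχ).2])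
  rw [← h3, Nat.cast_ofNat, ← even_iff_two_dvd, Int.not_even_iff_odd,
    show k = _ by exact_mod_cast h2.symm, show n = _ by exact_mod_cast h1.symm]
  simp [Fin.sum_univ_four, parity_simps, e1, e2, h9, h10, Int.odd_mul, ← Int.not_odd_iff_even]

end Sh

end Cfsg.Agent.Tame
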