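import Cfsg.Agent.Block.TameV
import Cfsg.Agent.Block.TameInt
import Cfsg.Agent.Block.Q8
import Cfsg.Agent.CharDeep.Extend

/-!
Tame blocks with a central involution `z`: the exceptional characters that are faithful on `⟨z⟩`.
-/

set_option autoImplicit false
set_option linter.unusedSectionVars false

namespace Cfsg.Agent.Tame

open MonoidAlgebra Transfer Block BMod Cfsg.Agent.Char CharDeep Module
open scoped ComplexConjugate Classical

variable {M : Ideal AlgInt} [PMod 2 M] {G : Type*} [Group G] [Fintype G]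
variable {B : Set (IrrCharacter G)} {D : Subgroup G} {e : (F M)[G]} {x v z y u g : G} {m : ℕ}
  {θ φ : G → ℂ} {χ ψ : IrrCharacter G} {σ : ℂ}

local notation "𝐂" Q:max => Subgroup.centralizer ((Q : Subgroup G) : Set G)
local notation "𝐍" Q:max => Subgroup.normalizer ((Q : Subgroup G) : Set G)
local notation "𝐙" => Subgroup.zpowers

/-- central involution -/
structure CI (z : G) : Prop where
  cen : z ∈ Subgroup.center G
  sq : z * z = 1
  ne : z ≠ 1

/-- `χ` is faithful on `⟨z⟩` -/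
abbrev Od (z : G) (χ : IrrCharacter G) : Prop := χ.1 z = -χ.1 1

/-- `rho θ ± tr z (rho θ)` -/
noncomputable def pm (σ : ℂ) (z : G) (θ : G → ℂ) : G → ℂ := rho 2 θ + σ • tr z (rho 2 θ)

theorem MC.ci (h : MC D x v z m) (hz : z ∈ Subgroup.center G) : CI z := ⟨hz, h.zz, h.z_ne⟩

namespace CI

variable (h : CI z)
include h

theorem cj_eq (k : G) : k * z * k⁻¹ = z := by
  rw [Subgroup.mem_center_iff.1 h.cen, mul_inv_cancel_right]

theorem ppart (hg : ¬ 2 ∣ orderOf g) : IsPPart 2 (z * g) z :=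
  isPPart_mul ⟨1, Invol.orderOf_two_iff.2 ⟨h.sq, h.ne⟩⟩ hg (Subgroup.mem_center_iff.1 h.cen g).symm

theorem ppart_self : IsPPart 2 z z := by simpa using h.ppart (g := 1) (by simp)

theorem off_iff : Off z g ↔ z ∉ 𝐙 g := by simp [Off, h.cj_eq]

theorem even_or (χ : IrrCharacter G) : χ.1 z = χ.1 1 ∨ Od z χ := parity h.cen h.sq χ

theorem dvd (hg : ¬ 2 ∣ orderOf g) : 2 ∣ orderOf (z * g) :=
  not_not.1 (mt (h.ppart hg).eq_one_iff.2 h.ne)

theorem pm_reg (hg : ¬ 2 ∣ orderOf g) : pm σ z θ g = θ g := by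
  simp [pm, rho_apply_of_dvd _ (h.dvd hg), rho_apply_of_not_dvd _ hg]

theorem pm_mul (hg : ¬ 2 ∣ orderOf g) : pm σ z θ (z * g) = σ * θ g := by
  simp [pm, rho_apply_of_dvd _ (h.dvd hg), rho_apply_of_not_dvd _ hg, ← mul_assoc, h.sq]

theorem pm_eq_zero (hg : IsPPart 2 g u) (h1 : u ≠ 1) (h2 : u ≠ z) : pm σ z θ g = 0 := by
  have : 2 ∣ orderOf (z * g) := by_contra fun e =>
    h2 (IsPPart.unique hg (by simpa [← mul_assoc, h.sq] using h.ppart e))
  simp [pm, rho_apply_of_dvd _ this, rho_apply_of_dvd _ (not_not.1 (mt hg.eq_one_iff.2 h1))]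

theorem rho_pm : rho 2 (pm σ z θ) = rho 2 θ := rho_eq_rho_iff.2 fun _ => h.pm_reg

theorem bp_pm (hB : IsPBlock M B) (hθ : blockPart B θ = θ) : blockPart B (pm σ z θ) = pm σ z θ := by
  have := blockPart_rho (p := 2) (IsPBlock.isBlockUnion hB) θ
  rw [pm, blockPart_add, blockPart_smul, blockPart_tr h.cen _
    (isClassFunction_rho (hθ ▸ isClassFunction_blockPart B θ)), this, hθ]

theorem inner_pm (τ : ℤ) (hφ : tr z φ = (τ : ℂ) • φ) :
    classInner (pm σ z θ) φ = (1 + σ * τ) * ctr 2 θ φ := by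
  rw [pm, classInner_add_left, classInner_smul_left, classInner_tr_left,
    inv_eq_of_mul_eq_one_right h.sq, hφ, classInner_smul_right, map_intCast, ctr]
  ring

theorem inner_even (hφ : tr z φ = φ) : classInner (pm σ z θ) φ = (1 + σ) * ctr 2 θ φ := by
  simpa using h.inner_pm 1 (by simpa using hφ)

theorem inner_odd (hφ : tr z φ = -φ) : classInner (pm σ z θ) φ = (1 - σ) * ctr 2 θ φ := by
  simpa [sub_eq_add_neg] using h.inner_pm (-1) (by simpa using hφ)

theorem od_of (hθ : tr z θ = -θ) (h0 : classInner θ χ ≠ 0) : Od z χ :=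
  (h.even_or χ).resolve_left fun e => h0 (inner_odd_even h.sq hθ (tr_even h.cen e))

theorem exists_od (hB : IsPBlock M B) : ∃ χ ∈ B, Od z χ := by
  obtain ⟨χ, hχ⟩ := IsPBlock.nonempty hB
  have h1 := h.bp_pm (σ := -1) hB (blockPart_irr_of_mem hχ)
  have h2 := h1 ▸ isClassFunction_blockPart B _
  by_contra h3
  refine χ.2.apply_one_ne_zero ?_
  rw [← h.pm_reg (σ := -1) (θ := χ.1) (g := 1) (by simp), h2.apply_eq_sum_irr]
  refine Finset.sum_eq_zero fun ψ _ => mul_eq_zero_of_left ?_ _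
  by_cases hψ : ψ ∈ B
  · simp [h.inner_even (tr_even h.cen ((h.even_or ψ).resolve_right fun e => h3 ⟨ψ, hψ, e⟩))]
  · exact (blockPart_eq_self_iff h2).1 h1 ψ hψ

theorem sum_od (g : G) : 2 * ∑ ζ with Od z ζ, ζ.1 1 * ζ.1 g =
    (if g = 1 then (Nat.card G : ℂ) else 0) - if z * g = 1 then (Nat.card G : ℂ) else 0 := by
  rw [← sum_irr_degree_mul_eq_ite, ← sum_irr_degree_mul_eq_ite, ← Finset.sum_sub_distrib,
    Finset.sum_filter, Finset.mul_sum]
  refine Finset.sum_congr rfl fun ζ _ => ?_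
  split_ifs with e
  · rw [show ζ.1 (z * g) = _ from congrFun (tr_odd h.cen e) g, Pi.neg_apply]; ring
  · rw [show ζ.1 (z * g) = _ from congrFun (tr_even h.cen ((h.even_or ζ).resolve_right e)) g]; ring

end CI

namespace MC

variable (h : MC ⊤ x v z m)
include h

theorem ci_top : CI z := h.ci (Subgroup.mem_center_iff.2 fun _ => h.comm_z trivial)

theorem od_zero (hχ : Od z χ) (hy : IsConj y (y * z)) : χ.1 y = 0 := by
  have := (irrC χ).apply_eq_of_isConj hy
  rw [h.comm_z trivial, show χ.1 (z * y) = _ from congrFun (tr_odd h.ci_top.cen hχ) y] at this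
  exact self_eq_neg.1 this

theorem od_off (hχ : Od z χ) (hy : y ∉ 𝐙 x) : χ.1 y = 0 :=
  h.od_zero hχ (isConj_iff.2 ⟨v, h.v_conj trivial hy⟩)

theorem od_deg (hχ : Od z χ) : χ.1 1 = 2 := by
  have : (𝐙 x).Normal := ⟨fun _ hu _ => h.conj_mem trivial hu⟩
  have h1 := charDegree_dvd_index_of_abelian (N := 𝐙 x) (fun _ ha _ hb => comm ha hb) χ.2
  rw [← Subgroup.relIndex_top_right, h.index, Nat.dvd_prime Nat.prime_two] at h1
  rw [χ.2.apply_one_eq_charDegree, h1.resolve_left fun e => ?_, Nat.cast_ofNat]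
  obtain ⟨y, -, hy⟩ := h.ex
  obtain ⟨l, hl⟩ := (linearIrrEquiv G).surjective ⟨χ, by simp [χ.2.apply_one_eq_charDegree, e]⟩
  exact (l y).ne_zero ((congrFun (congrArg (·.1.1) hl) y).trans (h.od_off hχ hy))

theorem od_sum (g : G) : 4 * ∑ ζ with Od z ζ, ζ.1 g =
    (if g = 1 then (Nat.card G : ℂ) else 0) - if z * g = 1 then (Nat.card G : ℂ) else 0 := by
  rw [← h.ci_top.sum_od, Finset.mul_sum, Finset.mul_sum]
  exact Finset.sum_congr rfl fun ζ hζ => by rw [h.od_deg (Finset.mem_filter.1 hζ).2]; ring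

theorem od_card : (Finset.univ.filter (Od z)).card = 2 ^ m := by
  have := h.od_sum 1
  rw [Finset.sum_congr rfl (g := fun _ => 2) fun ζ hζ => h.od_deg (by simpa using hζ),
    ← Subgroup.card_top, h.card] at this
  simp only [Finset.sum_const, nsmul_eq_mul, mul_one, h.z_ne, if_true, if_false] at this
  have h1 : ((Finset.univ.filter (Od z)).card : ℂ) = (2 ^ m : ℕ) := by
    push_cast at this ⊢; linear_combination this / 8
  exact_mod_cast h1

end MC

theorem nil_odd (h : MC D x v z m) (hB : IsPBlock M B) (hm : IsMax 2 (eB M B) D e)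
    (hn : Nil 2 ⊤ (eB M B)) (hz : CI z) (hχ : χ ∈ B) (h0 : blockHeight 2 B χ = 0)
    (h1 : χ.1 z = χ.1 1) : ∃ S : Finset (IrrCharacter G), S.card = 2 ^ m ∧
      (∀ ψ, ψ ∈ S ↔ ψ ∈ B ∧ Od z ψ) ∧ (∀ ψ ∈ S, ∀ ψ' ∈ S, ∀ g, Off v g → ψ.1 g = ψ'.1 g) ∧
      ∀ g u, IsPPart 2 g u → u ≠ 1 → u ≠ z → ∑ ψ ∈ S, ψ.1 g = 0 := by
  have := Fintype.ofFinite D
  obtain ⟨Φ, hΦ⟩ := Nil.exists_equiv hB hn hm hχ h0
  have ht := h.top
  have hzD := h.le h.z_mem
  have h2 (ζ : IrrCharacter D) : Od z (Φ ζ) ↔ Od ⟨z, hzD⟩ ζ := by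
    rw [Od, hΦ, star_central hB hm hzD hz.cen (hn.stable hm (irrC ζ)) (blockPart_irr_of_mem hχ)
      hz.ppart_self, star_apply_one hB hm _ (blockPart_irr_of_mem hχ), h1, ← neg_mul,
      mul_left_inj' χ.2.apply_one_ne_zero, xt_one, xt_of_mem _ hzD]
  have hi : Function.Injective fun ζ => (Φ ζ).1 := Subtype.val_injective.comp Φ.injective
  refine ⟨(Finset.univ.filter (Od ⟨z, hzD⟩)).image fun ζ => (Φ ζ).1, by
    rw [Finset.card_image_of_injective _ hi, ht.od_card], fun ψ => ?_, ?_, fun g u hg h3 h4 => ?_⟩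
  · simp only [Finset.mem_image, Finset.mem_filter, Finset.mem_univ, true_and, ← h2]
    exact ⟨by rintro ⟨ζ, h3, rfl⟩; exact ⟨(Φ ζ).2, h3⟩,
      fun ⟨h3, h4⟩ => ⟨Φ.symm ⟨ψ, h3⟩, by simpa using h4, by simp⟩⟩
  · simp only [Finset.mem_image, Finset.mem_filter, Finset.mem_univ, true_and]
    rintro _ ⟨ζ, h3, rfl⟩ _ ⟨ζ', h4, rfl⟩ g hg
    have := star_sum_smul (P := D) (e := e) Finset.univ ![1, -1] ![xt ζ.1, xt ζ'.1] χ.1
    have h5 := congrFun this g
    rw [star_eq_zero hm.pair fun u hu k hk => ?_] at h5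
    · simp only [hΦ]
      simpa [← sub_eq_add_neg, eq_comm (a := (0 : ℂ)), sub_eq_zero] using h5
    have : ζ.1 ⟨u, hu⟩ = ζ'.1 ⟨u, hu⟩ := by
      by_cases h6 : (⟨u, hu⟩ : D) ∈ 𝐙 ⟨x, h.mem⟩
      · rcases ht.sq_cases h6 (not_not.1 (mt (ht.v_mem_zpowers h6) fun h7 => hg k
          (Subgroup.zpowers_le.2 hk.mem_zpowers (sc_zpowers k u ▸ conj_mem_sc.2
            (Subgroup.mem_zpowers_iff.2 ((Subgroup.mem_zpowers_iff.1 h7).imp fun _ =>
              congrArg Subtype.val)))))) with e | e <;> rw [e]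
        · rw [ht.od_deg h3, ht.od_deg h4]
        · rw [h3, h4, ht.od_deg h3, ht.od_deg h4]
      · rw [ht.od_off h3 h6, ht.od_off h4 h6]
    simp [xt_of_mem _ hu, this]
  · rw [Finset.sum_image fun _ _ _ _ e => hi e]
    have := congrFun (star_sum_smul (P := D) (e := e) (Finset.univ.filter (Od (⟨z, hzD⟩ : D))) 1
      (fun ζ => xt ζ.1) χ.1) g
    rw [star_eq_zero hm.pair fun r hr k hk => ?_] at this
    · simpa [hΦ] using this.symm
    obtain rfl := IsPPart.unique hg hk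
    have := ht.od_sum ⟨r, hr⟩
    rw [if_neg fun e => h3 (by simp [show r = 1 from congrArg Subtype.val e]), if_neg fun e => h4 (by
      rw [← inv_eq_of_mul_eq_one_right (show z * r = 1 from congrArg Subtype.val e), h.z_inv,
        hz.cj_eq])] at this
    simpa [xt_of_mem _ hr] using this

theorem MC.loc_v (h : MC D x v z m) (hB : IsPBlock M B) (hm : IsMax 2 (eB M B) D e) :
    Loc 2 B D e v (𝐍 (𝐙 v)) :=
  have h1 := fu_ple hm.pair (h.le h.v_mem)
  ⟨hB, hm, h.le h.v_mem, fun e => by simpa [e] using h.ord_v, le_rfl, h.le_norm_v, h.norm_v.trans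
    (sup_le ((le_inf le_rfl h.le_norm_v).trans (h1.inf_normalizer_le hm.pair))
      (h1.left hm.pair).centralizer_le_NP)⟩

theorem MC.nil_v (h : MC D x v z m) (hB : IsPBlock M B) (hm : IsMax 2 (eB M B) D e) :
    Nil 2 ⊤ (eB M (bK 2 D e v (𝐍 (𝐙 v)))) := by
  have L := h.loc_v hB hm
  have := Fintype.ofFinite (𝐍 (𝐙 v))
  rw [← nil_inc_iff, ← eS, L.eS_eq]
  refine nil_of_isDef L.isDef fun R hR g hg hN ho => cent_of_odd h.pgroup h.idx hR ho hN
    fun a ha ha' => h.mem_of_comm_v (hR ((Subgroup.mem_normalizer_iff.1 hN a).1 ha)) ?_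
  have := mem_centralizer_of_isCyclic (h.pgroup.to_le L.ple.le) hg
    ((Nat.Prime.coprime_iff_not_dvd Nat.prime_two).2 ho).symm v (Subgroup.mem_zpowers v)
  have h1 : Commute v g := this
  exact ((h1.mul_right (MC.comm h.v_mem ha')).mul_right h1.inv_right).symm

theorem exists_odd (h : MC D x v z m) (hB : IsPBlock M B) (hm : IsMax 2 (eB M B) D e) (hz : CI z)
    (hχ : χ ∈ B) (h0 : blockHeight 2 B χ = 0) (h1 : χ.1 z = χ.1 1) :
    ∃ J : Finset (IrrCharacter G), J.card = 2 ^ m ∧ (∀ ψ ∈ J, ψ ∈ B ∧ Od z ψ) ∧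
      (∀ ψ ∈ J, ∀ ψ' ∈ J, ∀ g, Off v g → ψ.1 g = ψ'.1 g) ∧
      ∀ θ, IsClassFunction G θ → tr z θ = -θ → (∀ ψ ∈ J, ∀ ψ' ∈ J, classInner θ ψ = classInner θ ψ') →
        ∀ u ∈ D, v ∈ 𝐙 u → pu 2 D e u θ = 0 := by
  have L := h.loc_v hB hm
  set T := 𝐍 (𝐙 v)
  have := Fintype.ofFinite T
  have h' := h.res L.le
  have hz' := h'.ci (Subgroup.mem_center_iff.2 fun k =>
    Subtype.ext (Subgroup.mem_center_iff.1 hz.cen k))
  have res {θ : G → ℂ} {c : ℂ} (hθ : tr z θ = c • θ) :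
    tr (⟨z, L.le (h.le h.z_mem)⟩ : T) (fun k => θ k) = c • fun k : T => θ k :=
    funext fun k => congrFun hθ k
  obtain ⟨ξ, hξ, h2, n, h3, h4⟩ := exists_height_zero_constituent L.ind hχ h0
  obtain ⟨S, hS, h5, h6, h7⟩ := nil_odd h' L.isBlk L.max' (h.nil_v hB hm) hz' hξ h2
    ((hz'.even_or ξ).resolve_right fun e => h4 (by
      rw [(classInner_eq_zero_comm _ _).1 (inner_odd_even hz'.sq (tr_odd hz'.cen e)
        (by simpa using res (c := 1) (by simpa using tr_even hz.cen h1)))] at h3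
      simp [show n = 0 by exact_mod_cast h3.symm]))
  obtain ⟨ψ₀, h8⟩ := Finset.card_pos.1 (hS ▸ Nat.two_pow_pos m)
  have hon (ψ : S) : On T v (ψ.1.1 - ψ₀.1) := fun k hk => sub_eq_zero.2 (h6 _ ψ.2 _ h8 k fun l hl =>
    hk (Subgroup.zpowers_le.2 (Subgroup.mem_zpowers_iff.2 ((Subgroup.mem_zpowers_iff.1 hl).imp fun _ =>
      congrArg Subtype.val)) (by
        change _ ∈ 𝐙 ((l : G) * v * (l : G)⁻¹)
        rw [← sc_zpowers, mem_normalizer_iff_sc.1 l.2]; exact Subgroup.mem_zpowers v)))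
  have hbp (ψ : S) : blockPart (bK 2 D e v T) (ψ.1.1 - ψ₀.1) = ψ.1.1 - ψ₀.1 := by
    rw [← bpL_apply, map_sub, bpL_apply, bpL_apply, blockPart_irr_of_mem ((h5 _).1 ψ.2).1,
      blockPart_irr_of_mem ((h5 _).1 h8).1]
  obtain ⟨ζ, δ, hζ, hδ, h9, h10⟩ : ∃ (ζ : S → IrrCharacter G) (δ : ℂ), Function.Injective ζ ∧
      δ ≠ 0 ∧ (∀ ψ, ζ ψ ∈ B ∧ Od z (ζ ψ)) ∧
      ∀ ψ, indFun T (ψ.1.1 - ψ₀.1) = δ • ((ζ ψ).1 - (ζ ⟨ψ₀, h8⟩).1) := by
    by_cases h9 : ∃ ψ₁ : S, ψ₁ ≠ ⟨ψ₀, h8⟩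
    · obtain ⟨ψ₁, h9⟩ := h9
      choose c h10 h11 using fun ψ : S =>
        (isGeneralizedCharacter_indFun T ((irrG ψ.1).sub (irrG ψ₀))).exists_int_coeff
      obtain ⟨ζ, δ, hζ, hδ, h12⟩ := exc_diff (u := c) h9 (d := fun χ => (charDegree χ.1 : ℤ))
        (fun χ => by exact_mod_cast χ.2.charDegree_pos)
        (fun ψ => dot_deg (indFun_isClassFunction _ _) (h10 ψ) (by
          rw [indFun_one, L.one (hon ψ), mul_zero]))
        (funext fun χ => by simpa [indFun_zero, classInner_zero_left] using (h10 ⟨ψ₀, h8⟩ χ).symm)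
        fun j k hj hk => dot_of_inner (indFun_isClassFunction _ _) (h10 j) (h10 k) (by
          rw [L.inner (hon j) (hon k) ((irrC _).sub (irrC _))]
          simp [classInner_sub_left, classInner_sub_right, classInner_irr, Subtype.coe_ne_coe.2 hj,
            Subtype.coe_ne_coe.2 hk.symm, add_comm])
      have h13 {j} {χ : IrrCharacter G} (h : c j χ ≠ 0) : χ ∈ B ∧ Od z χ := by
        rw [← Int.cast_ne_zero (α := ℂ), ← h10] at h
        refine ⟨not_not.1 (mt ((blockPart_eq_self_iff (indFun_isClassFunction _ _)).1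
          (L.blockPart_ind (hon j) (hbp j)) χ) h), (hz.even_or χ).resolve_left fun e => h ?_⟩
        rw [classInner_indFun_left _ _ (irrC χ)]
        exact inner_odd_even hz'.sq (by
          rw [map_sub, tr_odd hz'.cen ((h5 _).1 j.2).2, tr_odd hz'.cen ((h5 _).1 h8).2]; abel)
          (by simpa using res (c := 1) (by simpa using tr_even hz.cen e))
      have hδ' : δ ≠ 0 := by omega
      refine ⟨ζ, δ, hζ, by exact_mod_cast hδ', fun ψ => ?_, fun ψ => ?_⟩
      · by_cases e : ψ = ⟨ψ₀, h8⟩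
        · exact h13 (j := ψ₁) (by simp [h12, e, hζ.eq_iff, h9.symm, hδ'])
        · exact h13 (j := ψ) (by simp [h12, e, hζ.eq_iff, hδ'])
      · rw [h11, h12]
        simp [Pi.single_apply, sub_smul, smul_sub]
    · obtain ⟨χ, h10⟩ := hz.exists_od hB
      push Not at h9
      exact ⟨fun _ => χ, 1, fun i j _ => (h9 i).trans (h9 j).symm, one_ne_zero, fun _ => h10,
        fun ψ => by simp [h9 ψ, indFun_zero]⟩
  refine ⟨Finset.univ.image ζ, by simp [Finset.card_image_of_injective _ hζ, hS], Finset.forall_mem_image.2 fun ψ _ => h9 ψ,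
    ?_, fun θ hθ h11 h12 u hu hv => L.pu_eq_zero hu hv hθ fun k hk => ?_⟩
  · have key (ψ) {g} (hg : Off v g) : (ζ ψ).1 g = (ζ ⟨ψ₀, h8⟩).1 g := by
      simpa [h10, hδ, sub_eq_zero] using Loc.ind_eq_zero (hon ψ) hg
    exact Finset.forall_mem_image.2 fun _ _ => Finset.forall_mem_image.2 fun _ _ g hg =>
      (key _ hg).trans (key _ hg).symm
  set R := blockPart (bK 2 D e v T) fun k : T => θ k
  have hR : IsClassFunction T R := isClassFunction_blockPart _ _
  have h13 (ψ) (hψ : ψ ∈ S) : classInner R ψ = classInner R ψ₀ := by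
    have := Loc.inner_ind (hbp ⟨ψ, hψ⟩) hθ
    rw [h10, classInner_smul_left, (classInner_eq_zero_comm _ _).2 (by
      rw [classInner_sub_right, h12 _ (by simp) (ζ ⟨ψ₀, h8⟩) (by simp), sub_self]), mul_zero, eq_comm,
      classInner_eq_zero_comm, classInner_sub_right, sub_eq_zero] at this
    exact this
  obtain ⟨r, hr⟩ := exists_isPPart 2 k
  have h14 := (L.mem_ppart hr.coe).1 hk
  rw [hR.apply_eq_sum_irr, ← Finset.sum_subset S.subset_univ fun ψ _ hψ => mul_eq_zero_of_left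
    (by_contra fun e => hψ ((h5 ψ).2 ⟨not_not.1 (mt ((blockPart_eq_self_iff hR).1
      (blockPart_blockPart_self _ _) ψ) e), hz'.od_of (by
        rw [← blockPart_tr hz'.cen _ (isClassFunction_res hθ T), res (c := -1) (by simpa using h11),
          blockPart_smul, neg_one_smul]) e⟩)) _,
    Finset.sum_congr rfl fun ψ hψ => by rw [h13 ψ hψ], ← Finset.mul_sum,
    h7 k r hr (by rintro rfl; exact L.ne (by simpa using h14)) (by
      rintro rfl
      rcases h.mem_z.1 h14 with e | e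
      exacts [L.ne e, by simpa [e, h.ord_z] using h.ord_v]), mul_zero]

end Cfsg.Agent.Tame
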