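import Cfsg.Agent.Block.Tame
import Cfsg.Agent.Block.PSolv

/-!
Tame blocks with a noncentral involution in the defect group: at most two Brauer characters if an
involution is not conjugate to the central one.
-/

set_option autoImplicit false
set_option linter.unusedSectionVars false

namespace Cfsg.Agent.Tame

open MonoidAlgebra Transfer Block BMod Cfsg.Agent.Char CharDeep Module
open scoped ComplexConjugate Classical

variable {M : Ideal AlgInt} [PMod 2 M]

local notation "𝐙" => Subgroup.zpowers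

section
variable {G : Type*} [Group G] [Fintype G] {B : Set (IrrCharacter G)} {D : Subgroup G} {x v z y : G}
  {m : ℕ}

theorem MC.rank_le_two (h : MC D x v z m) (hB : IsPBlock M B) (hD : IsDefectGroup 2 M B D)
    (hy : y ∈ D) (hy' : y ∉ 𝐙 x) (h1 : y * y = 1) (h2 : ¬ IsConj z y) : blockRank 2 B ≤ 2 := by
  obtain ⟨e, hm⟩ := exists_isMax hB hD
  obtain ⟨ε, a, J, K, h3, -⟩ := tame h hB hD Finset.univ fun r _ _ _ => ⟨r, by simp, 1, one_mem _, by simp⟩
  have h4 : y ≠ 1 := by rintro rfl; exact hy' (one_mem _)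
  refine (h3.rank_le hB h.ord_z.symm.dvd).2 _ (pu_mem_Vs hB hm hy h4) (h3.pu_ne hB hm hy) fun g hg =>
    (exists_of_pu_ne_zero hm.pair hy hg).elim fun k hk l hl => h2 (isConj_iff.2 ⟨k⁻¹ * l, ?_⟩)
  have := invol_unique_zpowers hl hk.mem_zpowers ((orderOf_conj' l z).trans h.ord_z)
    ((orderOf_conj' k y).trans (Invol.orderOf_two_iff.2 ⟨h1, h4⟩))
  rw [mul_inv_rev, inv_inv, mul_assoc, mul_assoc, ← mul_assoc z, ← mul_assoc l, ← mul_assoc l, this]
  group

theorem MC.odd_center (h : MC D x v z m) (hB : IsPBlock M B) (hD : IsDefectGroup 2 M B D)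
    (hy : y ∈ D) (hy' : y ∉ 𝐙 x) (h1 : y * y = 1) (h2 : blockRank 2 B = 3) :
    Odd (Nat.card (Subgroup.center G)) := by
  refine Nat.not_even_iff_odd.1 fun h3 => ?_
  obtain ⟨t, ht, h4⟩ := Invol.exists_invol_mem_of_even h3
  have hC := Subgroup.zpowers_le.2 ht
  have : (𝐙 t).Normal := ⟨fun n hn g => by rwa [Subgroup.mem_center_iff.1 (hC hn), mul_inv_cancel_right]⟩
  have h5 := IsDefectGroup.le_of_normal (P := 𝐙 t) hB hD (IsPGroup.of_card (n := 1) (by
    rw [Nat.card_zpowers, h4]; rfl)) (Subgroup.mem_zpowers t)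
  obtain rfl := (h.sq_cases (h.mem_of_comm_v h5 (Subgroup.mem_center_iff.1 ht v).symm)
    (Invol.mul_self_of h4)).resolve_left (Invol.ne_one_of h4)
  have := h.rank_le_two hB hD hy hy' h1 fun e => by
    obtain ⟨k, rfl⟩ := isConj_iff.1 e
    exact hy' (by rw [(h.ci ht).cj_eq]; exact h.z_mem)
  omega

theorem rho_indFun {p : ℕ} (T : Subgroup G) (θ : T → ℂ) : rho p (indFun T θ) = indFun T (rho p θ) := by
  have h (K : Type _) [Group K] (θ : K → ℂ) : rho p θ = fun g => θ g * rho p 1 g := by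
    ext g; simp [rho_apply]
  rw [h T, h G, ← indFun_mul_res T θ (isClassFunction_rho fun _ _ => rfl)]
  simp only [rho_apply, Subgroup.orderOf_coe, Pi.one_apply]

end

theorem rank_le_two_of_solv.{u} {G : Type u} [Group G] [Finite G] (hG : IsPSolvable 2 G)
    {B : Set (IrrCharacter G)} {D : Subgroup G} {x v z y : G} {m : ℕ} (h : MC D x v z m)
    (hB : IsPBlock M B) (hD : IsDefectGroup 2 M B D) (hy : y ∈ D) (hy' : y ∉ 𝐙 x) (h1 : y * y = 1) :
    blockRank 2 B ≤ 2 := by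
  induction hn : Nat.card G using Nat.strong_induction_on generalizing G with
  | _ n ih =>
  have := Fintype.ofFinite G
  obtain ⟨χ, hχ⟩ := IsPBlock.nonempty hB
  obtain ⟨θ, hθ⟩ := exists_liesOver_under (N := pPrimeCore 2 G) χ
  by_cases hT : inertia _ (θ : pPrimeCore 2 G → ℂ) = ⊤
  · obtain ⟨h2, -, h4⟩ := fong_psolv (M := M) hG
      fun g => Subtype.ext (inertia_eq_top_iff _ |>.1 hT g) (a1 := conjIrr _ g θ)
    obtain rfl : B = overSet _ {θ} :=
      (IsPBlock.eq_blockOf hB hχ).trans (IsPBlock.eq_blockOf h2 ⟨θ, rfl, hθ⟩).symm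
    obtain ⟨S, rfl⟩ := h4 D hD
    by_contra h5
    let f := QuotientGroup.mk' (pPrimeCore 2 G)
    have h6 : f z ∈ Subgroup.centralizer (pCore 2 (G ⧸ pPrimeCore 2 G) : Set _) := fun q hq => by
      obtain ⟨d, hd, rfl⟩ := (Solv.isPGroup_pCore 2 _).le_sylow_of_normal
        (S.mapSurjective (QuotientGroup.mk'_surjective _)) hq
      rw [← map_mul, h.comm_z hd, map_mul]
    have h7 {y} (hy : y ∈ S.1) (hy' : y ∉ 𝐙 x) (h1 : y * y = 1) :
        f y ∈ Subgroup.centralizer (pCore 2 (G ⧸ pPrimeCore 2 G) : Set _) := by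
      obtain ⟨k, rfl⟩ := isConj_iff.1 (not_not.1 (mt (h.rank_le_two hB hD hy hy' h1) h5))
      simpa using Subgroup.Normal.conj_mem inferInstance _ h6 (f k)
    have h8 : y * v * y = v⁻¹ := by simpa [inv_eq_of_mul_eq_one_right h1] using h.conj_v hy hy'
    have h9 := h7 hy hy' h1 _ (centralizer_pCore_quot hG rfl (h7 (mul_mem hy (h.le h.v_mem))
      (MC.mul_notMem hy' h.v_mem) (by rw [← mul_assoc, h8, inv_mul_cancel])))
    refine not_dvd_pPrimeCore (p := 2) (G := G)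
      (h.ord_z.symm.dvd.trans (Subgroup.orderOf_dvd_natCard _ ?_))
    rw [← map_mul, ← map_mul, h8, ← mul_assoc, h1, one_mul, map_inv, inv_eq_iff_mul_eq_one, ← map_mul,
      h.hz] at h9
    exact (QuotientGroup.eq_one_iff z).1 h9
  obtain ⟨B', hB', -, h2, h3, -⟩ := fr_step not_dvd_pPrimeCore hB ⟨χ, hχ, θ, rfl, hθ⟩ rfl
    (le_inertia _ θ.2.isClassFunction)
  obtain ⟨D', hD'⟩ := exists_isDefectGroup (p := 2) hB'
  obtain ⟨k, hk⟩ := IsDefectGroup.exists_sc_eq hB (h3 D' hD') hD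
  have hf := (MulAut.conj k).injective.comp (Subgroup.subtype_injective (inertia _ θ.1))
  replace hk : D'.map ((MulAut.conj k).toMonoidHom.comp (Subgroup.subtype _)) = D :=
    (Subgroup.map_map _ _ _).symm.trans hk
  obtain ⟨x, -, rfl⟩ := hk.ge h.mem
  obtain ⟨v, -, rfl⟩ := hk.ge (h.le h.v_mem)
  obtain ⟨z, -, rfl⟩ := hk.ge (h.le h.z_mem)
  obtain ⟨y, hy₁, rfl⟩ := hk.ge hy
  refine le_trans ?_ (ih _ (hn ▸ (Transfer.card_lt_of_lt (lt_top_iff_ne_top.2 hT)).trans_eq
    Subgroup.card_top) (PLocal.pSolv_subgroup hG _) (h.comap hf hk rfl rfl rfl) hB' hD' hy₁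
    (fun e => hy' (by rw [← MonoidHom.map_zpowers]; exact Subgroup.mem_map_of_mem _ e))
    (hf (by simpa using h1)) rfl)
  refine (Submodule.finrank_mono (Submodule.span_le.2 ?_)).trans (Submodule.finrank_map_le (indLin _) _)
  rintro _ ⟨χ, hχ, rfl⟩
  obtain ⟨ψ, hψ, e⟩ := (h2 χ).1 hχ
  exact ⟨_, Submodule.subset_span ⟨ψ, hψ, rfl⟩, by simp [indLin_apply, pRegularPart_eq, e, rho_indFun]⟩

end Cfsg.Agent.Tame
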