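import Cfsg.Agent.Block.TameInv

/-!
Tame blocks: from the block `b_z` of `C(z)` to `B`.
-/

set_option autoImplicit false
set_option linter.unusedSectionVars false

namespace Cfsg.Agent.Tame

open MonoidAlgebra Transfer Block BMod Cfsg.Agent.Char CharDeep Module
open scoped ComplexConjugate Classical

variable {M : Ideal AlgInt} [PMod 2 M] {G : Type*} [Group G] [Fintype G]
variable {B : Set (IrrCharacter G)} {D : Subgroup G} {e : (F M)[G]} {x v z : G} {m : ℕ} {θ : G → ℂ}

local notation "𝐂" Q:max => Subgroup.centralizer ((Q : Subgroup G) : Set G)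
local notation "𝐙" => Subgroup.zpowers

/-- integral coefficients -/
noncomputable def cv (θ : G → ℂ) (χ : IrrCharacter G) : ℤ := ⌊(classInner θ χ).re⌋

theorem inner_cv (h : IsGeneralizedCharacter G θ) (χ : IrrCharacter G) : classInner θ χ = cv θ χ := by
  obtain ⟨n, h, -⟩ := h.exists_int_coeff
  simp [cv, h]

theorem eq_cv (h : IsGeneralizedCharacter G θ) :
    θ = Fintype.linearCombination ℤ (fun χ : IrrCharacter G => χ.1) (cv θ) := by
  conv_lhs => rw [h.isClassFunction.eq_sum_irr]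
  simp [Fintype.linearCombination_apply, inner_cv h, Int.cast_smul_eq_zsmul]

theorem lc (χ : IrrCharacter G) (n : ℤ) (g : G) :
    Fintype.linearCombination ℤ (fun χ : IrrCharacter G => χ.1) (Pi.single χ n) g = n * χ.1 g := by
  simp

theorem MC.loc_z (h : MC D x v z m) (hB : IsPBlock M B) (hm : IsMax 2 (eB M B) D e) :
    Loc 2 B D e z (𝐂 (𝐙 z)) :=
  ⟨hB, hm, h.le h.z_mem, h.z_ne, h.norm_z, h.le_cent_z,
    ((fu_ple hm.pair (h.le h.z_mem)).left hm.pair).centralizer_le_NP⟩

theorem Sh.trans [Fintype (𝐂 (𝐙 z))] {ε a J K κ} (L : Loc 2 B D e z (𝐂 (𝐙 z)))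
    (h : Sh (bu 2 D e z) (zu z) m ε a J K κ) :
    ∃ ε a J K', PP B z (m + 1) ε a J K' ∧ K'.card = K.card := by
  have hs := isSub_zu L.max.pair L.mem
  let Gd (f : 𝐂 (𝐙 z) → ℂ) := IsGeneralizedCharacter _ f ∧ blockPart (bu 2 D e z) f = f ∧ On _ z f
  have hoff {k : 𝐂 (𝐙 z)} (hk : z ∉ 𝐙 (k : G)) : Off (zu z) k := h.ci.off_iff.2 fun e => hk
    (Subgroup.mem_zpowers_iff.2 ((Subgroup.mem_zpowers_iff.1 e).imp fun _ => congrArg Subtype.val))
  have ba (i) := bp_sg (ε := ε) (h.ha i).1
  let s := sg ε (a 0) + sg ε (a 1) - sg ε (a 2) - sg ε (a 3)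
  let y (j : J) := sg ε (a 0) + sg ε (a 1) - sg ε j
  let x (k : K) := sg ε k - sg ε (a 0) + sg ε (a (κ k))
  have gs : Gd s := ⟨((isGen_sg.add isGen_sg).sub isGen_sg).sub isGen_sg, by
    simp only [s, ← bpL_apply, map_add, map_sub]; simp only [bpL_apply, ba],
    fun k hk => by have := h.rel k (hoff hk); simp only [s, Pi.add_apply, Pi.sub_apply, this]; ring⟩
  have gy (j) : Gd (y j) := ⟨(isGen_sg.add isGen_sg).sub isGen_sg, by
    simp only [y, ← bpL_apply, map_add, map_sub]; simp only [bpL_apply, ba, bp_sg (h.hJ _ j.2).1],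
    fun k hk => by simp [y, h.relJ _ j.2 k (hoff hk)]⟩
  have gx (j) : Gd (x j) := ⟨(isGen_sg.sub isGen_sg).add isGen_sg, by
    simp only [x, ← bpL_apply, map_add, map_sub]; simp only [bpL_apply, ba, bp_sg (h.hK _ j.2).1],
    fun k hk => by simp [x, h.relK' _ j.2 k (hoff hk)]⟩
  have gi {f} (hf : Gd f) := isGeneralizedCharacter_indFun _ hf.1
  have g1 {f f'} (hf : Gd f) (hf' : Gd f') {n : ℤ} (h : classInner f f' = n) :
      cv (indFun _ f) ⬝ᵥ cv (indFun _ f') = n := dot_of_inner (indFun_isClassFunction _ _)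
    (inner_cv (gi hf)) (inner_cv (gi hf')) ((L.inner hf.2.2 hf'.2.2 hf'.1.isClassFunction).trans h)
  have g2 {f} (hf : Gd f) := dot_deg (indFun_isClassFunction _ _) (inner_cv (gi hf))
    (by rw [indFun_one, L.one hf.2.2, mul_zero])
  have g3 {f t} (hf : Gd f) (h : cv (indFun _ f) t ≠ 0) : t ∈ B := not_not.1 fun e => h (by
    rw [← Int.cast_eq_zero (α := ℂ), ← inner_cv (gi hf)]
    exact (blockPart_eq_self_iff (indFun_isClassFunction _ _)).1 (L.blockPart_ind hf.2.2 hf.2.1) t e)
  have g4 {f} (hf : Gd f) (t : IrrCharacter G) :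
      classInner (blockPart (bu 2 D e z) fun k => t.1 k) f = cv (indFun _ f) t := by
    rw [← conj_classInner, ← Loc.inner_ind hf.2.1 (irrC t), inner_cv (gi hf), map_intCast]
  have hd (χ : IrrCharacter G) : (0 : ℤ) < charDegree χ.1 := by exact_mod_cast χ.2.charDegree_pos
  have n1 (i) (j : J) : a i ≠ j := fun e => h.aJ i (e ▸ j.2)
  have n2 (i) (j : K) : a i ≠ j := fun e => h.aK i (e ▸ j.2)
  have n3 (i : J) (j : K) : i.1 ≠ j := fun e => Finset.disjoint_left.1 h.disj i.2 (e ▸ j.2)
  have n4 (k : K) := h.hκ k k.2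
  have n5 (k : K) : κ k ≠ 0 := by rcases n4 k with e | e <;> simp [e]
  have iss := g1 gs gs (n := 4) (by
    simp [s, classInner_add_left, classInner_add_right, classInner_sub_left, classInner_sub_right,
      h.sgn.inner, h.inj.eq_iff]; norm_num)
  have iyy (i j) := g1 (gy i) (gy j) (n := if i = j then 3 else 2) (by
    simp [y, classInner_add_left, classInner_add_right, classInner_sub_left, classInner_sub_right,
      h.sgn.inner, h.inj.eq_iff, n1, (n1 _ _).symm]; split_ifs <;> norm_num)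
  have hodd (t : IrrCharacter G) : Odd (cv (indFun _ s) t) ↔ t ∈ B ∧ blockHeight 2 B t = 0 :=
    (h.odd_iff L.isBlk (isGen_bp_res _ (irrG t)) (blockPart_blockPart_self _ _) (g4 gs t)).symm.trans
      (lam_zc_bp_res_ne_zero_iff L.ind (h.ha 0).1 t)
  have hR (i j : J) (hi : Od (zu z) i.1) (hj : ¬ Od (zu z) j.1) (t) (ht : cv (indFun _ s) t ≠ 0) :
      cv (indFun _ (y j)) t = cv (indFun _ (y i)) t := by
    have hij : i ≠ j := fun e => hj (e ▸ hi)
    obtain ⟨α, β, h1, h2⟩ := two_vec hd (s := cv (indFun _ (y j)) - cv (indFun _ (y i)))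
      (by simp [sub_dotProduct, dotProduct_sub, iyy, hij, hij.symm]) (by simp [g2 (gy _)])
    have h3 : sg ε i.1 - sg ε j.1 = y j - y i := by simp [y]
    have h4 : indFun _ (sg ε i.1 - sg ε j.1) = α.1 - β.1 := by
      rw [h3, indFun_sub, eq_cv (gi (gy j)), eq_cv (gi (gy i)), ← map_sub, h2]; simp
    have h5 {δ : ℤ} {α β : IrrCharacter G} (hδ) (e) (h6 : blockHeight 2 B α = 0) (h7) :=
      (trick (δ := δ) (α := α) (β := β) hs h.ci L.ind L.defect h.sgn (h.hJ _ i.2).1 hi
        ((h.ci.even_or _).resolve_right hj) (fun k hk => by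
          rw [h3, Pi.sub_apply, (gy j).2.2 k hk, (gy i).2.2 k hk, sub_self]) hδ e h7).symm.trans h6
    obtain ⟨h6, h7⟩ := (hodd t).1 (by
      rcases four_vec hd iss (g2 gs) t with e | e | e <;> simp_all)
    rw [← sub_eq_zero, ← Pi.sub_apply, h2, Pi.sub_apply, Pi.single_eq_of_ne, Pi.single_eq_of_ne,
      sub_self] <;> rintro rfl
    · simpa [(h.hJ _ i.2).2] using h5 (β := α) (.inr rfl) (by simp [h4]) h7 h6
    · simpa [(h.hJ _ i.2).2] using h5 (β := β) (.inl rfl) (by simp [h4]) h7 h6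
  obtain ⟨j₀, hj₀⟩ := Finset.card_pos.1 (h.cardJ ▸ Nat.two_pow_pos m)
  rw [Finset.mem_filter] at hj₀
  have : Nonempty J := ⟨⟨j₀, hj₀.1⟩⟩
  obtain ⟨ε', a', η, ζ, hε, hf, e1, e2, e3⟩ := tr_int hd iss (g2 gs) (fun j => by simp [iyy])
    (fun j => g1 (gy j) gs (by
      simp [s, y, classInner_add_left, classInner_add_right, classInner_sub_left, classInner_sub_right,
        h.sgn.inner, h.inj.eq_iff, (n1 _ _).symm]; norm_num)) (fun j => g2 (gy j))
    (fun i j e => by simp [iyy, e]) (fun i j t ht => by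
      by_cases hi : Od (zu z) i.1 <;> by_cases hj : Od (zu z) j.1
      · by_cases hk : ∃ k : J, ¬ Od (zu z) k.1
        · obtain ⟨k, hk⟩ := hk
          rw [← hR i k hi hk t ht, hR j k hj hk t ht]
        have h1 := h.cardJ
        have h2 := h.card
        rw [Finset.filter_true_of_mem fun k hk' => not_not.1 fun e => hk ⟨⟨k, hk'⟩, e⟩] at h1
        rw [Subtype.ext (Finset.card_le_one.1 (by omega) _ i.2 _ j.2)]
      · exact (hR i j hi hj t ht).symm
      · exact hR j i hj hi t ht
      · rw [hR ⟨j₀, hj₀.1⟩ i hj₀.2 hi t ht, hR ⟨j₀, hj₀.1⟩ j hj₀.2 hj t ht])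
    (x := fun k => cv (indFun _ (x k))) (fun k => g1 (gx k) (gx k) (by
      simp [x, classInner_add_left, classInner_add_right, classInner_sub_left, classInner_sub_right,
        h.sgn.inner, h.inj.eq_iff, n2, (n2 _ _).symm, n5, (n5 _).symm]; norm_num))
    (fun k => g1 (gx k) gs (by
      rcases n4 k with e | e <;>
      simp [s, x, classInner_add_left, classInner_add_right, classInner_sub_left, classInner_sub_right,
        h.sgn.inner, h.inj.eq_iff, (n2 _ _).symm, e] <;> norm_num)) (fun k => g2 (gx k))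
    (fun k j => g1 (gx k) (gy j) (by
      rcases n4 k with e | e <;>
      simp [y, x, classInner_add_left, classInner_add_right, classInner_sub_left, classInner_sub_right,
        h.sgn.inner, h.inj.eq_iff, (n2 _ _).symm, e, n1, (n3 _ _).symm]))
    (fun k l e => g1 (gx k) (gx l) (by
      have : κ k ≠ κ l := fun e' => e (Subtype.ext (h.κinj k.2 l.2 e'))
      simp [x, classInner_add_left, classInner_add_right, classInner_sub_left, classInner_sub_right,
        h.sgn.inner, h.inj.eq_iff, n2, (n2 _ _).symm, n5, (n5 _).symm, e, this]))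
  have i1 : Function.Injective a' := hf.comp Sum.inl_injective
  have i2 : Function.Injective η := hf.comp (Sum.inr_injective.comp Sum.inl_injective)
  have i3 : Function.Injective ζ := hf.comp (Sum.inr_injective.comp Sum.inr_injective)
  have d1 (i j) : a' i ≠ η j := hf.ne (a₁ := .inl i) (a₂ := .inr (.inl j)) (by simp)
  have d2 (i j) : a' i ≠ ζ j := hf.ne (a₁ := .inl i) (a₂ := .inr (.inr j)) (by simp)
  have d3 (i j) : η i ≠ ζ j := hf.ne (a₁ := .inr (.inl i)) (a₂ := .inr (.inr j)) (by simp)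
  have hε' : Sgn ε' := hε
  have h0 (t) : ε' t ≠ 0 := by have := hε t; omega
  have key (t : IrrCharacter G) {φ} (hφ : blockPart (bu 2 D e z) φ = φ)
      (h1 : classInner φ s = ε' t * cv (indFun _ s) t)
      (h2 : ∀ j, classInner φ (y j) = ε' t * cv (indFun _ (y j)) t)
      (h3 : ∀ k, classInner φ (x k) = ε' t * cv (indFun _ (x k)) t) (c) (hc : ¬ 2 ∣ orderOf c) :
      blockPart (bu 2 D e z) (fun k => t.1 k) (zu z * c) = ε' t * φ (zu z * c) := by
    have h4 {f} (hf : Gd f) (h : classInner φ f = ε' t * cv (indFun _ f) t) :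
        classInner ((blockPart (bu 2 D e z) fun k => t.1 k) - (ε' t : ℂ) • φ) f = 0 := by
      rw [classInner_sub_left, classInner_smul_left, g4 hf, h, ← mul_assoc, hε'.sq, one_mul, sub_self]
    have := h.zsec (by
      rw [← bpL_apply, map_sub, map_smul, bpL_apply, bpL_apply, hφ, blockPart_blockPart_self])
      (h4 gs h1) (fun j hj => h4 (gy ⟨j, hj⟩) (h2 ⟨j, hj⟩)) (fun k hk => h4 (gx ⟨k, hk⟩) (h3 ⟨k, hk⟩)) hc
    exact sub_eq_zero.1 this
  have ht {t : IrrCharacter G} {χ} (h1 : t ∈ B) (h2 : χ ∈ bu 2 D e z) (h3 : ∀ c, ¬ 2 ∣ orderOf c →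
      blockPart (bu 2 D e z) (fun k => t.1 k) (zu z * c) = ε' t * sg ε χ (zu z * c)) :=
    height_eq hs h.ci L.ind L.defect h1 h2 (τ := ε' t * ε χ) (by
      rcases hε t with e | e <;> rcases h.sgn χ with e' | e' <;> simp [e, e'])
      fun c hc => by rw [h3 c hc, sg_apply, Int.cast_mul, mul_assoc]
  have v {f} (hf : Gd f) {g} (hg : Off z g) :
      Fintype.linearCombination ℤ (fun χ : IrrCharacter G => χ.1) (cv (indFun _ f)) g = 0 :=
    eq_cv (gi hf) ▸ Loc.ind_eq_zero hf.2.2 hg
  refine ⟨ε', a', Finset.univ.image η, Finset.univ.image ζ, ⟨hε, i1, fun i => (hodd _).1 ?_,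
    Finset.forall_mem_image.2 fun j _ => ?_, Finset.forall_mem_image.2 fun k _ => ?_,
    by simp [(d2 _ _).symm], Finset.disjoint_left.2 (Finset.forall_mem_image.2 fun j _ => by
      simp [(d3 _ _).symm]), fun t h1 => ?_,
    by simp [Finset.card_image_of_injective _ i2, h.card], fun g hg => ?_,
    Finset.forall_mem_image.2 fun j _ g hg => ?_, Finset.forall_mem_image.2 fun k _ =>
      ⟨fun i => -cv (indFun _ (x k)) (a' i) * ε' (a' i), fun g hg => ?_⟩⟩,
    by simp [Finset.card_image_of_injective _ i3]⟩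
  · rw [e1]
    have h1 (j) : Odd (ε' (a' j)) := by rcases hε (a' j) with e | e <;> simp [e]
    fin_cases i <;> simp [i1.eq_iff, h1]
  · have h1 := g3 (t := η j) (gy j) (by simp [e2, (d1 _ _).symm, h0])
    refine ⟨h1, (ht h1 (h.hJ _ j.2).1 (key _ (bp_sg (h.hJ _ j.2).1) ?_ (fun i => ?_) fun k => ?_)).trans
      (h.hJ _ j.2).2⟩
    · simp [e1, s, classInner_add_right, classInner_sub_right, h.sgn.inner, (n1 _ _).symm, (d1 _ _).symm]
    · by_cases e : i = j <;> simp [e2, y, classInner_add_right, classInner_sub_right, h.sgn.inner,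
        (n1 _ _).symm, (d1 _ _).symm, e, i2.eq_iff, hε'.sq, Pi.single_apply, eq_comm (a := j)]
    · rw [e3]
      simp [x, classInner_add_right, classInner_sub_right, h.sgn.inner, (n1 _ _).symm, (d1 _ _).symm,
        n3, d3]
  · have h1 := g3 (t := ζ k) (gx k) (by rw [e3]; simp [(d2 _ _).symm, h0])
    refine ⟨h1, (ht h1 (h.hK _ k.2).1 (key _ (bp_sg (h.hK _ k.2).1) ?_ (fun i => ?_) fun l => ?_)).trans
      (h.hK _ k.2).2⟩
    · simp [e1, s, classInner_add_right, classInner_sub_right, h.sgn.inner, (n2 _ _).symm, (d2 _ _).symm]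
    · simp [e2, y, classInner_add_right, classInner_sub_right, h.sgn.inner, (n2 _ _).symm,
        (d2 _ _).symm, (n3 _ _).symm, (d3 _ _).symm]
    · rw [e3]
      by_cases e : l = k <;> simp [x, classInner_add_right, classInner_sub_right, h.sgn.inner,
        (n2 _ _).symm, (d2 _ _).symm, e, i3.eq_iff, hε'.sq, Pi.single_apply, eq_comm (a := k)]
  · by_contra! h2
    simp only [Set.mem_range, Finset.mem_image, Finset.mem_univ, true_and, not_exists] at h2
    obtain ⟨c, hc, h3⟩ := mm_self_ne_zero_iff.1 (hs.mm_self_ne_zero_of_major L.ind L.defect h1)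
    rw [hs.blockPart_sh _ (irrC t), tr_apply, key t (φ := 0) blockPart_zero ?_ (fun j => ?_)
      (fun k => ?_) c hc] at h3
    · simp at h3
    · simp [e1, classInner_zero_left, Ne.symm (h2.1 _)]
    · simp [e2, classInner_zero_left, Ne.symm (h2.1 _), Ne.symm (h2.2.1 _)]
    · rw [e3]; simp [classInner_zero_left, Ne.symm (h2.1 _), Ne.symm (h2.2.2 _)]
  · have := v gs hg
    simp only [e1, map_add, map_sub, lc, Pi.add_apply, Pi.sub_apply, ← sg_apply] at this
    linear_combination this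
  · have := v (gy j) hg
    simp only [e2, map_add, map_sub, lc, Pi.add_apply, Pi.sub_apply, ← sg_apply] at this
    linear_combination -this
  · have := v (gx k) hg
    rw [e3] at this
    simp only [map_add, map_sum, lc, Pi.add_apply, Finset.sum_apply, ← sg_apply] at this
    rw [eq_neg_of_add_eq_zero_left this, ← Finset.sum_neg_distrib]
    exact Finset.sum_congr rfl fun i _ => by
      rw [mul_assoc, sg_apply, sg_apply, ← mul_assoc (ε' (a' i) : ℂ), hε'.sq, one_mul, neg_mul]

end Cfsg.Agent.Tame
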