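import Cfsg.Agent.Block.TameLoc

/-!
Blocks with defect group of maximal class: unfused elements outside the cyclic subgroup,
the structure `PP` and blocks with Klein four defect groups.
-/

set_option autoImplicit false
set_option linter.unusedSectionVars false

namespace Cfsg.Agent.Tame

open MonoidAlgebra Transfer Block BMod Cfsg.Agent.Char CharDeep Module
open scoped ComplexConjugate Classical

section gen
variable {p : ℕ} [hp : Fact p.Prime] {M : Ideal AlgInt} [PMod p M] {G : Type*} [Group G] [Fintype G]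
variable {B : Set (IrrCharacter G)} {P : Subgroup G} {e : (F M)[G]} {u r : G} {χ : IrrCharacter G}

local notation "𝐂" Q:max => Subgroup.centralizer ((Q : Subgroup G) : Set G)
local notation "𝐙" => Subgroup.zpowers

theorem exists_full (hm : IsMax p (eB M B) P e) (hr : r ∈ P) : ∃ u ∈ P, Fz p P e r u ∧
    IsDef p (𝐂 (𝐙 u)) (fu p P e u) (P ⊓ 𝐂 (𝐙 u)) := by
  have h := fu_ple hm.pair hr
  have hf := h.left hm.pair
  obtain ⟨k, h1, h2⟩ := hm.exists_conj_isDef hf (hm.mul_br_of_ple h) le_rfl hf.centralizer_le_NP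
  rw [← centralizer_sc, sc_zpowers] at h2
  refine ⟨_, h1.le (conj_mem_sc.2 (Subgroup.mem_zpowers r)),
    fz_of_ple hm.pair h h1 (Subgroup.mem_zpowers r), ?_⟩
  rw [sc_zpowers] at h1
  rwa [fu, fq_eq h1]

theorem pow_defect_bu {E : Subgroup G} (he : IsPair p P e) (hu : u ∈ P)
    (h : IsDef p (𝐂 (𝐙 u)) (fu p P e u) E) : p ^ blockDefect p (bu p P e u) = Nat.card E := by
  rw [← IsDefectGroup.card_eq (isPBlock_bu he hu) ((isDefectGroup_subgroupOf_iff (isPBlock_bu he hu)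
    h.le).2 (by rwa [eS_bu he hu]))]
  exact Nat.card_congr (Subgroup.subgroupOfEquivOfLe h.le).toEquiv

theorem rank_of_nil {K : Subgroup G} {b : Set (IrrCharacter K)} (hb : IsPBlock M b)
    (h : Nil p K (eS M K b)) : blockRank p b = 1 :=
  have := Fintype.ofFinite K
  Nil.rank_one hb (nil_inc_iff.1 h)

theorem one_le_mu (hB : IsPBlock M B) (hm : IsMax p (eB M B) P e) (hu : u ∈ P)
    (h : ∀ r, 𝐙 r = 𝐙 u → Fz p P e u r) (hχ : χ ∈ B) (h0 : blockHeight p B χ = 0) :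
    1 ≤ ‖(p : ℂ) ^ blockDefect p (bu p P e u) * mu p P e u χ χ‖ := by
  have h1 {r} (hr : 𝐙 r = 𝐙 u) : r ∈ P := Subgroup.zpowers_le.2 hu (hr ▸ Subgroup.mem_zpowers r)
  have h2 := one_le_prod_mu hm.pair (Finset.univ.filter (𝐙 · = 𝐙 u)) (fun r hr => h1 (by simpa using hr))
    (fun r hr s hs => by simpa [hs] using hr) (irrG χ) (irrG χ) 0 fun r hr => by
      have := h1 (r := r) (by simpa using hr)
      exact ⟨mu_ne_zero_of_height hB hm this hχ h0, by
        simpa using mul_mu_mem_O hm.pair this (irrG χ) (irrG χ)⟩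
  rw [Finset.prod_congr rfl (g := fun _ => ‖(p : ℂ) ^ blockDefect p (bu p P e u) * mu p P e u χ χ‖)
    fun r hr => by
      have hr' : 𝐙 r = 𝐙 u := by simpa using hr
      rw [pow_zero, div_one, ← (h r hr').mu_eq hm.pair hu (h1 hr') (irrC χ),
        show blockDefect p (bu p P e r) = _ from congrArg (fun Q => blockDefect p (bq p P e Q)) hr'],
    Finset.prod_const] at h2
  exact (one_le_pow_iff_of_nonneg (norm_nonneg _) (Finset.card_ne_zero.2 ⟨u, by simp⟩)).1 h2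

theorem sum_norm_mu' (hB : IsPBlock M B) (hm : IsMax p (eB M B) P e) (hu : u ∈ P) :
    ∑ χ ∈ Finset.univ.filter (· ∈ B), ‖mu p P e u χ χ‖ = blockRank p (bu p P e u) := by
  have := sum_mu_self hB hm hu
  rw [← Finset.sum_filter, Finset.sum_congr rfl fun χ _ => mu_self_eq hm.pair hu (irrC χ)] at this
  exact_mod_cast this

end gen

section sg
variable {G : Type*} [Group G] [Fintype G] {ε : IrrCharacter G → ℤ} {χ ψ : IrrCharacter G}
  {θ : G → ℂ} {z : G}

/-- signed irreducible character -/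
noncomputable def sg (ε : IrrCharacter G → ℤ) (χ : IrrCharacter G) : G → ℂ := (ε χ : ℂ) • χ.1

def Sgn (ε : IrrCharacter G → ℤ) : Prop := ∀ χ, ε χ = 1 ∨ ε χ = -1

theorem sg_apply (g : G) : sg ε χ g = ε χ * χ.1 g := rfl
theorem isGen_sg : IsGeneralizedCharacter G (sg ε χ) := (irrG χ).intCast_smul _
theorem isCF_sg : IsClassFunction G (sg ε χ) := isGen_sg.isClassFunction
theorem bp_sg {B : Set (IrrCharacter G)} (h : χ ∈ B) : blockPart B (sg ε χ) = sg ε χ := by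
  rw [sg, blockPart_smul, blockPart_irr_of_mem h]

theorem Sgn.sq (h : Sgn ε) (χ) : (ε χ : ℂ) * ε χ = 1 := by rcases h χ with e | e <;> simp [e]
theorem Sgn.ne (h : Sgn ε) (χ) : (ε χ : ℂ) ≠ 0 := left_ne_zero_of_mul_eq_one (h.sq χ)

theorem inner_sg_right (θ : G → ℂ) : classInner θ (sg ε χ) = ε χ * classInner θ χ := by
  rw [sg, classInner_smul_right, map_intCast]

theorem inner_sg_irr : classInner (sg ε χ) ψ = if χ = ψ then (ε χ : ℂ) else 0 := by
  rw [sg, classInner_smul_left, classInner_irr]; simp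

theorem Sgn.inner (h : Sgn ε) : classInner (sg ε χ) (sg ε ψ) = if χ = ψ then 1 else 0 := by
  rw [inner_sg_right, inner_sg_irr]
  split_ifs with e
  · rw [e, h.sq]
  · rw [mul_zero]

theorem Sgn.expand (h : Sgn ε) (hθ : IsClassFunction G θ) (S : Finset (IrrCharacter G))
    (hS : ∀ χ ∉ S, classInner θ χ = 0) : θ = ∑ χ ∈ S, classInner θ (sg ε χ) • sg ε χ := by
  conv_lhs => rw [hθ.eq_sum_irr]
  rw [← Finset.sum_subset S.subset_univ fun χ _ hχ => by rw [hS χ hχ, zero_smul]]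
  exact Finset.sum_congr rfl fun χ _ => by
    rw [inner_sg_right, sg, smul_smul, mul_right_comm, h.sq, one_mul]

theorem parity (hz : z ∈ Subgroup.center G) (h : z * z = 1) (χ : IrrCharacter G) :
    χ.1 z = χ.1 1 ∨ χ.1 z = -χ.1 1 := by
  have := apply_central_mul χ hz z
  rw [h, div_mul_eq_mul_div, eq_div_iff χ.2.apply_one_ne_zero] at this
  exact mul_self_eq_mul_self_iff.1 this.symm

theorem tr_even (hz : z ∈ Subgroup.center G) (h : χ.1 z = χ.1 1) : tr z χ.1 = χ.1 := by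
  rw [tr_irr hz, h, div_self χ.2.apply_one_ne_zero, one_smul]

theorem tr_odd (hz : z ∈ Subgroup.center G) (h : χ.1 z = -χ.1 1) : tr z χ.1 = -χ.1 := by
  rw [tr_irr hz, h, neg_div, div_self χ.2.apply_one_ne_zero, neg_one_smul]

theorem not_even_of_odd (h : χ.1 z = -χ.1 1) : χ.1 z ≠ χ.1 1 := fun e =>
  χ.2.apply_one_ne_zero (by linear_combination (h - e) / 2)

theorem isGen_tr (hz : z ∈ Subgroup.center G) (h : z * z = 1) (hθ : IsGeneralizedCharacter G θ) :
    IsGeneralizedCharacter G (tr z θ) := by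
  obtain ⟨n, -, rfl⟩ := hθ.exists_int_coeff
  have := isGeneralizedCharacter_sum_irr fun χ => if χ.1 z = χ.1 1 then n χ else -n χ
  rw [map_sum]
  convert this using 2 with χ
  rw [map_smul]
  split_ifs with e
  · rw [tr_even hz e]
  · rw [tr_odd hz ((parity hz h χ).resolve_left e)]; simp

theorem inner_odd_even (h : z * z = 1) {φ : G → ℂ} (h1 : tr z θ = -θ) (h2 : tr z φ = φ) :
    classInner θ φ = 0 := by
  have := classInner_tr_tr z θ φ
  rw [h1, h2, classInner_neg_left] at this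
  linear_combination -this / 2

end sg

variable {M : Ideal AlgInt} [PMod 2 M] {G : Type*} [Group G] [Fintype G]
variable {B : Set (IrrCharacter G)} {D : Subgroup G} {e : (F M)[G]} {x v z u r w g : G} {m n : ℕ}
  {θ : G → ℂ} {χ ψ : IrrCharacter G} {ε : IrrCharacter G → ℤ} {a : Fin 4 → IrrCharacter G}
  {J K : Finset (IrrCharacter G)}

local notation "𝐂" Q:max => Subgroup.centralizer ((Q : Subgroup G) : Set G)
local notation "𝐙" => Subgroup.zpowers

theorem rank_bu_of_idx {E : Subgroup G} (he : IsPair 2 D e) (hu : u ∈ D)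
    (h : IsDef 2 (𝐂 (𝐙 u)) (fu 2 D e u) E)
    (h' : ∀ a ∈ E, a ∉ 𝐙 u → ∀ b ∈ E, b ∉ 𝐙 u → a⁻¹ * b ∈ 𝐙 u) : blockRank 2 (bu 2 D e u) = 1 :=
  rank_of_nil (isPBlock_bu he hu) (by
    rw [eS_bu he hu]
    exact nil_of_isDef h fun R hR g hg hN ho => cent_of_odd h.pgroup h' hR ho hN fun a _ ha => by
      rwa [← hg a ha, mul_inv_cancel_right])

/-- `r` is not fused into `⟨x⟩` -/
def Unf (D : Subgroup G) (e : (F M)[G]) (x r : G) : Prop := ∀ u ∈ 𝐙 x, ¬ Fz 2 D e r u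

theorem Unf.exists (h : MC D x v z m) (hm : IsMax 2 (eB M B) D e) (hr : r ∈ D) (hu : Unf D e x r) :
    ∃ u ∈ D, u ∉ 𝐙 x ∧ Fz 2 D e r u ∧ blockRank 2 (bu 2 D e u) = 1 ∧
      2 ^ blockDefect 2 (bu 2 D e u) = 4 := by
  obtain ⟨u, h1, h2, h3⟩ := exists_full hm hr
  have h4 : u ∉ 𝐙 x := fun e => hu u e h2
  refine ⟨u, h1, h4, h2, rank_bu_of_idx hm.pair h1 h3 fun a ha ha' b hb hb' => ?_,
    (pow_defect_bu hm.pair h1 h3).trans (h.card_cent h1 h4)⟩
  have h5 := Subgroup.mem_zpowers u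
  have key {a} (ha : a ∈ D ⊓ 𝐂 (𝐙 u)) (ha' : a ∉ 𝐙 u) : z * a ∈ 𝐙 u := by
    rcases (h.cent h1 h4).1 ha with rfl | rfl | rfl | rfl
    exacts [absurd (one_mem _) ha', h.zz ▸ one_mem _, absurd h5 ha', by
      rwa [h.comm_z h1, ← mul_assoc, h.zz, one_mul]]
  simpa [mul_assoc] using mul_mem (inv_mem (key ha ha')) (key hb hb')

theorem Unf.rank (h : MC D x v z m) (hB : IsPBlock M B) (hm : IsMax 2 (eB M B) D e) (hr : r ∈ D)
    (hu : Unf D e x r) : blockRank 2 (bu 2 D e r) = 1 := by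
  obtain ⟨u, h1, -, h2, h3, -⟩ := hu.exists h hm hr
  rw [h2.rank_eq hB hm hr h1, h3]

theorem Unf.pu_irr (h : MC D x v z m) (hB : IsPBlock M B) (hm : IsMax 2 (eB M B) D e) (hr : r ∈ D)
    (hu : Unf D e x r) (ha : Function.Injective a) (h0 : ∀ i, a i ∈ B ∧ blockHeight 2 B (a i) = 0)
    (hχ : χ ∈ B) (h1 : χ ∉ Set.range a) : pu 2 D e r χ = 0 := by
  obtain ⟨u, hD, hx, h2, h3, h4⟩ := hu.exists h hm hr
  rw [h2.pu_eq hm.pair hr hD (irrC χ), ← mu_self_eq_zero_iff hm.pair hD (irrC χ), ← norm_le_zero_iff]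
  have h5 (i) : 1 ≤ 4 * ‖mu 2 D e u (a i) (a i)‖ := by
    have := one_le_mu hB hm hD (fun s hs => by
      have h6 : s ∈ 𝐙 u := hs ▸ Subgroup.mem_zpowers s
      have h7 : s ∉ 𝐙 x := fun e => hx (Subgroup.zpowers_le.2 e (hs ▸ Subgroup.mem_zpowers u))
      rcases (h.cent hD hx).1 ⟨Subgroup.zpowers_le.2 hD h6, fun b hb => MC.comm hb h6⟩ with
        rfl | rfl | rfl | rfl
      exacts [absurd (one_mem _) h7, absurd h.z_mem h7, Fz.refl _, h.v_conj hD hx ▸
        fz_of_mem_NP hm.pair (hm.pair.le_NP (h.le h.v_mem)) hD]) (h0 i).1 (h0 i).2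
    rwa [show ((2 : ℕ) : ℂ) ^ _ = 4 by exact_mod_cast h4, norm_mul, show ‖(4 : ℂ)‖ = 4 by simp] at this
  have h6 := Finset.sum_le_sum_of_subset_of_nonneg (f := fun χ : IrrCharacter G => ‖mu 2 D e u χ χ‖)
    (s := insert χ (Finset.univ.image a)) (t := Finset.univ.filter (· ∈ B))
    (by simp [Finset.insert_subset_iff, Finset.image_subset_iff, hχ, h0]) fun _ _ _ => norm_nonneg _
  rw [sum_norm_mu' hB hm hD, h3, Finset.sum_insert (by simpa using h1),
    Finset.sum_image fun _ _ _ _ e => ha e, Fin.sum_univ_four, Nat.cast_one] at h6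
  linarith [h5 0, h5 1, h5 2, h5 3]

theorem Unf.pu_eq (h : MC D x v z m) (hB : IsPBlock M B) (hm : IsMax 2 (eB M B) D e) (hr : r ∈ D)
    (hu : Unf D e x r) (ha : Function.Injective a) (h0 : ∀ i, a i ∈ B ∧ blockHeight 2 B (a i) = 0)
    (hθ : blockPart B θ = θ) (h1 : ∀ i, classInner θ (a i) = 0) : pu 2 D e r θ = 0 := by
  have hc := hθ ▸ isClassFunction_blockPart B θ
  rw [hc.eq_sum_irr, map_sum]
  refine Finset.sum_eq_zero fun χ _ => ?_
  rw [map_smul, smul_eq_zero, or_iff_not_imp_left]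
  exact fun h2 => hu.pu_irr h hB hm hr ha h0 (not_not.1 (mt ((blockPart_eq_self_iff hc).1 hθ χ) h2))
    fun ⟨i, hi⟩ => h2 (hi ▸ h1 i)

/-- no conjugate of `w` lies in `⟨g⟩` -/
def Off (w g : G) : Prop := ∀ k, k * w * k⁻¹ ∉ 𝐙 g

theorem off_of_reg (h : 2 ∣ orderOf w) (hg : ¬ 2 ∣ orderOf g) : Off w g := fun k hk =>
  hg (h.trans (orderOf_conj' k w ▸ orderOf_dvd_of_mem_zpowers hk))

/-- the characters of a tame block -/
structure PP (B : Set (IrrCharacter G)) (w : G) (n : ℕ) (ε : IrrCharacter G → ℤ)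
    (a : Fin 4 → IrrCharacter G) (J K : Finset (IrrCharacter G)) : Prop where
  sgn : Sgn ε
  inj : Function.Injective a
  ha : ∀ i, a i ∈ B ∧ blockHeight 2 B (a i) = 0
  hJ : ∀ χ ∈ J, χ ∈ B ∧ blockHeight 2 B χ = 1
  hK : ∀ χ ∈ K, χ ∈ B ∧ blockHeight 2 B χ = n
  aK : ∀ i, a i ∉ K
  disj : Disjoint J K
  cover : ∀ χ ∈ B, χ ∈ Set.range a ∨ χ ∈ J ∨ χ ∈ K
  card : J.card + 1 = 2 ^ n
  rel : ∀ g, Off w g → sg ε (a 0) g + sg ε (a 1) g = sg ε (a 2) g + sg ε (a 3) g
  relJ : ∀ χ ∈ J, ∀ g, Off w g → sg ε χ g = sg ε (a 0) g + sg ε (a 1) g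
  relK : ∀ χ ∈ K, ∃ c : Fin 4 → ℂ, ∀ g, Off w g → sg ε χ g = ∑ i, c i * sg ε (a i) g

theorem PP.aJ (h : PP B w n ε a J K) (i) : a i ∉ J := fun e => by
  simpa [(h.ha i).2] using (h.hJ _ e).2

theorem sum_cover {β : Type*} [AddCommMonoid β] (ha : Function.Injective a) (h1 : ∀ i, a i ∉ J)
    (h2 : ∀ i, a i ∉ K) (h3 : Disjoint J K) (f : IrrCharacter G → β) :
    ∑ χ ∈ Finset.univ.image a ∪ (J ∪ K), f χ = ∑ i, f (a i) + ∑ χ ∈ J, f χ + ∑ χ ∈ K, f χ := by
  rw [Finset.sum_union (by simp [Finset.disjoint_left, h1, h2]), Finset.sum_union h3,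
    Finset.sum_image fun _ _ _ _ e => ha e, add_assoc]

theorem PP.filter_eq (h : PP B w n ε a J K) :
    Finset.univ.filter (· ∈ B) = Finset.univ.image a ∪ (J ∪ K) := by
  ext χ
  simp only [Finset.mem_filter, Finset.mem_univ, true_and, Finset.mem_union, Finset.mem_image]
  exact ⟨h.cover χ, by rintro (⟨i, rfl⟩ | e | e); exacts [(h.ha i).1, (h.hJ _ e).1, (h.hK _ e).1]⟩

theorem PP.card_eq (h : PP B w n ε a J K) : Nat.card B = 2 ^ n + 3 + K.card := by
  rw [card_eq_filter, h.filter_eq, Finset.card_eq_sum_ones, sum_cover h.inj h.aJ h.aK h.disj, ← h.card]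
  simp; ring

theorem PP.expand (h : PP B w n ε a J K) (hθ : blockPart B θ = θ) :
    θ = ∑ i, classInner θ (sg ε (a i)) • sg ε (a i) + ∑ χ ∈ J, classInner θ (sg ε χ) • sg ε χ +
      ∑ χ ∈ K, classInner θ (sg ε χ) • sg ε χ := by
  have hc := hθ ▸ isClassFunction_blockPart B θ
  rw [← sum_cover h.inj h.aJ h.aK h.disj fun χ => classInner θ (sg ε χ) • sg ε χ, ← h.filter_eq]
  exact h.sgn.expand hc _ fun χ hχ => (blockPart_eq_self_iff hc).1 hθ χ (by simpa using hχ)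

theorem exists_int_mu (he : IsPair 2 D e) (hu : u ∈ D) (h : u * u = 1) (χ ψ : IrrCharacter G) :
    ∃ k : ℤ, ((2 : ℕ) : ℂ) ^ blockDefect 2 (bu 2 D e u) * mu 2 D e u χ ψ = k := by
  have := Fintype.ofFinite (𝐂 (𝐙 u))
  have hs := isSub_zu he hu
  have h1 (χ : IrrCharacter G) : IsGeneralizedCharacter _ (blockPart (bu 2 D e u) (sh (zu u) χ)) := by
    rw [hs.blockPart_sh _ (irrC χ)]
    exact isGen_tr hs.mem_center (Subtype.ext h) (isGen_bp_res _ (irrG χ))
  rw [mu_eq_mm he hu _ (irrC ψ)]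
  exact exists_int_pow_ctr (isPBlock_bu he hu) (h1 χ) (blockPart_blockPart_self _ _) (h1 ψ)

theorem klein (hB : IsPBlock M B) (hD : IsDefectGroup 2 M B D) (hc : Nat.card D = 4)
    (hs : ∀ d ∈ D, d * d = 1) (hu : u ∈ D) (h1 : u ≠ 1) : ∃ ε a, PP B u 0 ε a ∅ ∅ := by
  obtain ⟨e, hm⟩ := exists_isMax hB hD
  have hab : D ≤ 𝐂 D := fun a ha b hb => by
    have h2 {c} (hc : c ∈ D) := inv_eq_of_mul_eq_one_right (hs c hc)
    rw [← h2 (mul_mem hb ha), mul_inv_rev, h2 ha, h2 hb]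
  have hd : blockDefect 2 B = 2 := Nat.pow_right_injective le_rfl
    ((IsDefectGroup.card_eq hB hD).symm.trans hc)
  have h0 {χ} (hχ : χ ∈ B) : blockHeight 2 B χ = 0 := by_contra fun h => by
    have := height_add_two_le hB hχ h; omega
  have hp := fu_ple hm.pair hu
  have hl := rank_bu_of_idx hm.pair hu (hm.isDef_of_le hp le_rfl (hp.left hm.pair).centralizer_le_NP
    (hab.trans (centralizer_anti hp.le))) fun a ha ha' b hb hb' => by
      have := Solv.card_mul_relIndex hp.le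
      rw [hc, Nat.card_zpowers, Invol.orderOf_two_iff.2 ⟨hs u hu, h1⟩] at this
      exact (Subgroup.mul_mem_iff_of_index_two (H := (𝐙 u).subgroupOf D) (Nat.eq_of_mul_eq_mul_left two_pos (this.trans rfl))
        (a := ⟨_, inv_mem ha⟩) (b := ⟨b, hb⟩)).2 (by simp [Subgroup.mem_subgroupOf, ha', hb'])
  have hd' := (defect_bu_of_center hB hm ⟨hu, hab hu⟩).trans hd
  choose c hc' using exists_int_mu hm.pair hu (hs u hu)
  have ho {χ ψ} (hχ : χ ∈ B) (hψ : ψ ∈ B) : Odd (c χ ψ) := by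
    have := (red_mu_ne_zero_iff hB hm hu χ ψ).2 ⟨⟨hχ, h0 hχ⟩, hψ, h0 hψ⟩
    rw [hc', red_intCast, Ne, intCast_F_eq_zero_iff (p := 2)] at this
    exact Int.not_even_iff_odd.1 (mt even_iff_two_dvd.1 this)
  simp only [hd', Nat.cast_ofNat] at hc'
  set S := Finset.univ.filter (· ∈ B)
  have hS {χ} : χ ∈ S ↔ χ ∈ B := by simp [S]
  have h2 (χ : IrrCharacter G) : (2 ^ 2 : ℂ) • pu 2 D e u χ = ∑ ψ ∈ S, (c χ ψ : ℂ) • ψ.1 := by
    rw [Sgn.expand (ε := 1) (fun _ => .inl rfl) (isClassFunction_pu χ.1) S fun ψ hψ =>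
      (blockPart_eq_self_iff (isClassFunction_pu _)).1 (blockPart_pu hB hm hu _) ψ (mt hS.2 hψ),
      Finset.smul_sum]
    exact Finset.sum_congr rfl fun ψ _ => by simp [sg, smul_smul, ← hc', mu]
  have h3 (χ : IrrCharacter G) : ∑ ψ ∈ S, c χ ψ ^ 2 = 4 * c χ χ := by
    have := congrArg (classInner ((2 ^ 2 : ℂ) • pu 2 D e u χ)) (h2 χ)
    rw [classInner_smul_right, classInner_smul_left, ← mu_eq_inner hm.pair hu (irrC χ), hc',
      classInner_sum_right, Finset.sum_congr rfl fun ψ _ => by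
        rw [classInner_smul_right, classInner_smul_left, ← mu, hc', map_intCast, ← sq]] at this
    simp only [map_pow, map_ofNat] at this
    exact_mod_cast this.symm.trans (show _ = 4 * (c χ χ : ℂ) by norm_num)
  have h4 : ∑ χ ∈ S, c χ χ = 4 := by
    have := congrArg ((2 ^ 2 : ℂ) * ·) (sum_mu_self hB hm hu)
    simp only [← Finset.sum_filter, Finset.mul_sum, hc', hl] at this
    exact_mod_cast this
  have h5 {χ ψ} (hχ : χ ∈ B) (hψ : ψ ∈ S) : 1 ≤ c χ ψ ^ 2 :=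
    (one_le_sq_iff_one_le_abs _).2 (Int.one_le_abs fun e => by simpa [e] using ho hχ (hS.1 hψ))
  have h6 {χ} (hχ : χ ∈ B) : (8 : ℤ) ∣ 4 * c χ χ - S.card := by
    rw [← h3, Finset.card_eq_sum_ones, Nat.cast_sum, ← Finset.sum_sub_distrib]
    exact Finset.dvd_sum fun ψ hψ => by simpa using Int.eight_dvd_sq_sub_one_of_odd (ho hχ (hS.1 hψ))
  have h7 {χ} (hχ : χ ∈ S) : 1 ≤ c χ χ := by
    have := Finset.single_le_sum (f := fun ψ => c χ ψ ^ 2) (fun _ _ => sq_nonneg _) hχ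
    have := h5 (hS.1 hχ) hχ
    have := h3 χ
    omega
  obtain ⟨χ, hχ⟩ := IsPBlock.nonempty hB
  have h8 : S.card = 4 := by
    have := Finset.card_nsmul_le_sum S _ _ fun χ hχ => h7 hχ
    have := h6 hχ
    obtain ⟨k, hk⟩ := ho hχ hχ
    simp only [nsmul_eq_mul, mul_one] at *
    omega
  have h9 : c χ χ = 1 := ((Finset.sum_eq_sum_iff_of_le (f := fun _ => (1 : ℤ)) fun _ h => h7 h).1
    (by simp [h4, h8]) χ (hS.2 hχ)).symm
  have h10 {ψ} (hψ : ψ ∈ S) : c χ ψ = 1 ∨ c χ ψ = -1 := sq_eq_one_iff.1 (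
    (Finset.sum_eq_sum_iff_of_le (f := fun _ => (1 : ℤ)) fun _ h => h5 hχ h).1
      (by simp [h3, h8, h9]) ψ hψ).symm
  let a : Fin 4 → IrrCharacter G := fun i => ((S.equivFinOfCardEq h8).symm i).1
  have ha : Function.Injective a := Subtype.val_injective.comp (Equiv.injective _)
  have ha' (i) : a i ∈ S := Subtype.property _
  have h11 : S = Finset.univ.image a := (Finset.eq_of_subset_of_card_le (by
    simp [Finset.image_subset_iff, ha']) (by simp [Finset.card_image_of_injective _ ha, h8])).symm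
  refine ⟨fun ψ => if ψ = a 2 ∨ ψ = a 3 then -c χ ψ else if ψ ∈ S then c χ ψ else 1, a, fun ψ => ?_, ha,
    fun i => ⟨hS.1 (ha' i), h0 (hS.1 (ha' i))⟩, by simp, by simp, by simp, by simp,
    fun ψ hψ => .inl (by simpa [h11] using hS.2 hψ), rfl, fun g hg => ?_, by simp, by simp⟩
  · split_ifs with h h'
    exacts [by have := h10 (ψ := ψ) (h.elim (· ▸ ha' 2) (· ▸ ha' 3)); omega, h10 h', .inl rfl]
  · have := congrFun (h2 χ) g
    rw [h11, Finset.sum_image fun _ _ _ _ e => ha e, Fin.sum_univ_four, Pi.smul_apply,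
      show pu 2 D e u χ g = 0 from by_contra fun h => (exists_of_pu_ne_zero hm.pair hu h).elim
        fun k hk => hg k hk.mem_zpowers] at this
    simp only [sg_apply, ha.eq_iff, ha']
    simp at this ⊢
    linear_combination -this

end Cfsg.Agent.Tame
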